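import Cfsg.Agent.H6.O8.Loc4

/-!
# The missing reflection
-/

set_option autoImplicit false

namespace Cfsg.Agent.H6.O8

open Subgroup Cfsg.Agent.H7 Cfsg.Agent.H7.Asch

variable {G : Type*} [Group G]

/-- The action of the negative root element on the letters, first approximation. -/
def ψ1 (i c a : ℕ) : ℕ := if a = 4 + i then c else if a = 11 then 3072 else Nat.shiftLeft 1 a

/-- The action of the negative root element on the letters. -/
def ψ2 (a : ℕ) : ℕ := if a = 11 then 3072 else if 4 ≤ a ∧ a < 7 then 2 ^ (a - 4) + 2 ^ a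
  else Nat.shiftLeft 1 a

/-- The possible images of a root element. -/
def yc (i p : ℕ) : ℕ := 2 ^ i + 2 ^ (4 + i) + 1024 * p

/-- The action of an element of order three. -/
noncomputable def η (c : ℕ) : ℕ := frc (cjC 8 c) fun d => mapC ψ2 d

theorem chk_y : al 3 (fun i => al2 64 64 fun c => !(al 10 fun a => !(Nat.testBit 903 a) ||
    Nat.beq (cjC c (Nat.shiftLeft 1 a))
      (mapC (ψ1 i 0) (cjC (Nat.shiftLeft 1 (4 + i)) (Nat.shiftLeft 1 a)))) ||
    ex 4 fun p => Nat.beq c (yc i p)) = true := by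
  decide +kernel

theorem chk_y2 : al 3 (fun i => al 10 (fun a => !(Nat.testBit 903 a) || al 12 fun b =>
    !(Nat.testBit (cjC (Nat.shiftLeft 1 (4 + i)) (Nat.shiftLeft 1 a)) b) || Nat.testBit 3975 b) &&
    al 4 fun p => al 12 (fun b => !(Nat.testBit (yc i p) b) || Nat.testBit 3975 b ||
      Nat.beq b (4 + i)) && (Nat.blt p 2 ||
        !(Nat.beq (mapC (ψ1 i (yc i p)) (yc i p)) (Nat.shiftLeft 1 (4 + i))))) = true := by
  decide +kernel

theorem chk_h : al 12 (fun a => Nat.beq a 3 || frc (Nat.shiftLeft 1 a) fun c => frc (η c) fun d =>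
    frc (η d) fun e => !(Nat.testBit (cjC 8 c) 3) && !(Nat.testBit (cjC 8 d) 3) &&
      !(Nat.testBit (cjC 8 e) 3) && Nat.beq (η e) c &&
      Nat.beq (cjC 8 d) (Nat.shiftLeft 1 (rf 3 a))) = true := by
  decide +kernel

theorem chk_h2 : al2 64 64 (fun c => !(al 12 fun a => Nat.beq a 3 ||
    Nat.beq (cjC c (Nat.shiftLeft 1 a)) (Nat.shiftLeft 1 a)) || Nat.beq c 0 ||
    (!(Nat.testBit (cjC 8 c) 3) && !(Nat.beq (η c) c))) = true := by
  decide +kernel

theorem chk_w : al 3 (fun i => al2 64 64 fun c => !(al 12 fun a => Nat.beq a 3 || Nat.beq a i ||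
    Nat.beq a (4 + i) || Nat.beq (cjC c (Nat.shiftLeft 1 a)) (Nat.shiftLeft 1 a)) || Nat.beq c 0 ||
    (!(Nat.testBit c i) && !(Nat.testBit (rfC i c) 3) && (!(Nat.beq (rfC 3 (rfC i c)) c) ||
      frc (cjC (Nat.shiftLeft 1 i) c) fun d => frc (rfC i d) fun c1 =>
      frc (cjC (Nat.shiftLeft 1 i) c1) fun d1 => !(Nat.testBit d i) && !(Nat.testBit d1 i) &&
        !(Nat.beq (mulC (mulC c c1) (rfC i d1)) 0)))) = true := by
  decide +kernel

theorem rfC_lt (i c : ℕ) : rfC i c < 4096 := mapC_lt _ _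

set_option synthInstance.maxSize 1024 in
theorem rf_cube : ∀ i < 3, ∀ a < 12,
    (a ≠ 3 ∧ a ≠ i ∧ a ≠ 4 + i) → rf i a ≠ 3 ∧ rf 3 (rf i a) < 12 ∧ rf 3 (rf i a) ≠ i ∧
    rf i (rf 3 (rf i a)) ≠ 3 ∧ rf 3 (rf i (rf 3 (rf i a))) < 12 ∧
    rf 3 (rf i (rf 3 (rf i a))) ≠ i ∧ rf i (rf 3 (rf i (rf 3 (rf i a)))) ≠ 3 ∧
    rf 3 (rf i (rf 3 (rf i (rf 3 (rf i a))))) = a := by
  decide +kernel

theorem TS.cm0 {g : ℕ → G} (h : TS g) {a b : ℕ} (ha : a < 12) (hb : b < 12) (h1 : sm a b = 0)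
    (h2 : sm b a = 0) : g a * g b = g b * g a := by
  rcases lt_trichotomy a b with h3 | rfl | h3
  · rw [h.cm b hb a h3, if_pos h1, mul_one]
  · rfl
  · rw [h.cm a ha b h3, if_pos h2, mul_one]

theorem TS.E_rf {g : ℕ → G} (h : TS g) {x : G} {i c : ℕ} (hi : i < 4) (hx : x * x = 1)
    (h1 : ∀ a < 12, a ≠ i → x * g a * x = g (rf i a)) (hc : c.testBit i = false) :
    E g (rfC i c) = x * E g c * x⁻¹ := by
  refine (h.E_mapC (fun a ha => shl_lt (rf_lt i hi a ha)) fun a ha h2 => ?_).symm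
  rw [E_shl g (rf_lt i hi a ha), inv_eq_of_mul_eq_one_right hx, h1 a ha]
  rintro rfl
  rw [hc] at h2
  exact absurd h2 (by simp)

theorem TS.comm_s {g : ℕ → G} (h : TS g) {a : ℕ} (ha : a < 12) (h3 : a ≠ 3) :
    g a * g 10 = g 10 * g a :=
  h.cm0 ha (by norm_num) ((by decide : ∀ a < 12, a ≠ 3 → sm a 10 = 0) a ha h3)
    ((by decide : ∀ a < 12, a ≠ 3 → sm 10 a = 0) a ha h3)

theorem TS.E_st {g : ℕ → G} (h : TS g) : E g 3072 = g 11 * g 10 := by
  rw [h.comm_s (by norm_num) (by norm_num)]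
  exact congrArg _ (mul_one _)

/-- An approximation to the negative root element. -/
structure FF (g : ℕ → G) (Q' : Subgroup G) (f : G) : Prop where
  fQ : f ∈ Q'
  cm : ∀ a ∈ [9, 8, 7, 2, 1, 0], f * g a = g a * f
  ft : f * g 11 * f⁻¹ = g 11 * g 10

theorem FF.toggle {g g' : ℕ → G} {Q' : Subgroup G} {f : G} (hf : FF g Q' f) (h : TS g) {i : ℕ}
    (hi : i < 3) (hs : f * g 10 = g 10 * f) (hd : g (7 + i) ∈ Q') (h1 : ∀ a < 12, a ≠ i → g' a = g a)
    (h2 : g' i = g i * g 11) : FF g' Q' (f * g (7 + i)) ∧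
      (f * g (4 + i) * f⁻¹ = g i * g (4 + i) * g 10 →
        f * g (7 + i) * g' (4 + i) * (f * g (7 + i))⁻¹ = g' i * g' (4 + i)) ∧
      ∀ j < 3, j ≠ i → f * g (4 + j) * f⁻¹ = g j * g (4 + j) →
        f * g (7 + i) * g' (4 + j) * (f * g (7 + i))⁻¹ = g' j * g' (4 + j) := by
  obtain ⟨k1, k2, k3⟩ := (by decide : ∀ i < 3, sm i (7 + i) = 10 ∧ sm (4 + i) (7 + i) = 11 ∧
    ∀ a < 12, a ≠ i → a ≠ 4 + i → sm a (7 + i) = 0 ∧ sm (7 + i) a = 0) i hi
  have k4 : ∀ a < 12, a ≠ i → a ≠ 4 + i → g (7 + i) * g a = g a * g (7 + i) := fun a ha h3 h4 =>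
    h.cm0 (by omega) ha (k3 a ha h3 h4).2 (k3 a ha h3 h4).1
  have cj : ∀ x, f * g (7 + i) * x * (f * g (7 + i))⁻¹ = f * (g (7 + i) * x * (g (7 + i))⁻¹) * f⁻¹ :=
    fun x => by group
  have k5 := conj_eq_iff_comm.mpr (k4 11 (by omega) (by omega) (by omega))
  have k6 := conj_eq_iff_comm.mpr (k4 10 (by omega) (by omega) (by omega))
  have k7 := h.comm_s (a := 11) (by norm_num) (by norm_num)
  refine ⟨⟨mul_mem hf.fQ hd, fun a ha => ?_, ?_⟩, fun h3 => ?_, fun j hj hn h3 => ?_⟩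
  · by_cases h3 : a = i
    · subst h3
      rw [h2, ← conj_eq_iff_comm, cj, ← conj_mul (b := g (7 + a)), k5, h.cm (7 + a) (by omega) a (by omega), k1,
        if_neg (by norm_num), mul_assoc (g a), mul_assoc (g a), k6, ← conj_mul, ← conj_mul, hf.ft,
        conj_eq_iff_comm.mpr (hf.cm a ha), conj_eq_iff_comm.mpr hs, k7, mul_assoc, h.sq']
    · rw [h1 a (by simp at ha; omega) h3]
      refine cmul (hf.cm a ha) (k4 a ?_ h3 ?_) <;> simp at ha <;> omega
  · rw [h1 11 (by omega) (by omega), h1 10 (by omega) (by omega), cj, k5, hf.ft]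
  · rw [h1 _ (by omega) (by omega), h2, cj, h.cm (7 + i) (by omega) (4 + i) (by omega), k2,
      if_neg (by norm_num), mul_assoc (g (4 + i)), mul_assoc (g (4 + i)), k5, ← conj_mul, h3, hf.ft,
      k7, mul_assoc _ (g 10), h.sq', mul_assoc, mul_assoc,
      h.comm_t (g_mem_BB g (a := 4 + i) (by omega))]
  · rw [h1 _ (by omega) (by omega), h1 _ (by omega) hn, cj,
      conj_eq_iff_comm.mpr (k4 _ (by omega) (by omega) (by omega)), h3]

namespace Pre

variable {g : ℕ → G} {Q' : Subgroup G} {ph' : G → L3} (h : Pre g Q' ph')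
include h

theorem nd : ND g := h.ts.nd h.t1

theorem exists_FF : ∃ f, FF g Q' f := by
  have step : ∀ (S : List ℕ) (a b : ℕ), a ∈ [0, 1, 2, 7, 8, 9, 11] → b ∈ [0, 1, 2, 7, 8, 9, 11] →
      (sm a b = 10 ∧ a < b ∨ sm b a = 10 ∧ b < a) → (∀ c ∈ S, c < 12 ∧ sm b c = 0 ∧ sm c b = 0) →
      (∃ f ∈ Q', (∀ c ∈ S, f * g c = g c * f) ∧ f * g 11 * f⁻¹ = g 11 * g 10) →
      ∃ f ∈ Q', (∀ c ∈ a :: S, f * g c = g c * f) ∧ f * g 11 * f⁻¹ = g 11 * g 10 := by
    rintro S a b ha hb h1 h2 ⟨f, hf, h3, h4⟩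
    have ha' : a < 12 := by simp at ha; omega
    have hb' : b < 12 := by simp at hb; omega
    by_cases h5 : f * g a = g a * f
    · exact ⟨f, hf, List.forall_mem_cons.mpr ⟨h5, h3⟩, h4⟩
    refine ⟨f * g b, mul_mem hf (h.mem b hb), List.forall_mem_cons.mpr ⟨?_, fun c hc =>
      cmul (h3 c hc) (h.ts.cm0 hb' (h2 c hc).1 (h2 c hc).2.1 (h2 c hc).2.2)⟩, ?_⟩
    · have h6 : g a * g b ≠ g b * g a := by
        rcases h1 with ⟨h1, h6⟩ | ⟨h1, h6⟩
        · rw [h.ts.cm b hb' a h6, h1, if_neg (by norm_num), Ne, left_eq_mul]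
          exact h.loc.t1
        · rw [h.ts.cm a ha' b h6, h1, if_neg (by norm_num), Ne, mul_eq_left]
          exact h.loc.t1
      rw [← bb_eq_one, bb_symm, h.loc.bb_mul (h.mem a ha) hf (h.mem b hb), bb, bb,
        if_neg (Ne.symm h5), if_neg h6]
      rfl
    · rw [mul_assoc f, h.ts.comm_t (g_mem_BB g hb'), ← h4]
      group
  obtain ⟨f, h1, h2, h3⟩ := step _ 9 2 (by decide) (by decide) (by decide) (by decide)
    (step _ 8 1 (by decide) (by decide) (by decide) (by decide)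
    (step _ 7 0 (by decide) (by decide) (by decide) (by decide)
    (step _ 2 9 (by decide) (by decide) (by decide) (by decide)
    (step _ 1 8 (by decide) (by decide) (by decide) (by decide)
    (step [] 0 7 (by decide) (by decide) (by decide) (by decide) (by
      obtain ⟨x, hx, e⟩ := h.loc.exists_anti (h.mem 11 (by decide)) h.t1
        fun e => absurd (h.nd.g_inj (by norm_num) (by norm_num) e) (by norm_num)
      exact ⟨x, hx, by simp, e⟩))))))
  exact ⟨f, h1, h2, h3⟩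

variable {f : G} (hf : FF g Q' f)
include hf

theorem fA {a : ℕ} (ha : a < 12) (h1 : Nat.testBit 3975 a = true) :
    f * g a * f⁻¹ = E g (if a = 11 then 3072 else Nat.shiftLeft 1 a) := by
  split_ifs with h2
  · rw [h2, hf.ft, h.ts.E_st]
  · rw [E_shl g ha, conj_eq_iff_comm]
    rcases (by decide : ∀ a < 12, Nat.testBit 3975 a = true → a ≠ 11 →
      a = 10 ∨ a ∈ [9, 8, 7, 2, 1, 0]) a ha h1 h2 with rfl | h3
    · exact h.loc.cen f hf.fQ
    · exact hf.cm a h3

theorem fy {i : ℕ} (hi : i < 3) : Md (g 10) (f * g (4 + i) * f⁻¹) (g i * g (4 + i)) := by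
  have hs := h.loc.cen f hf.fQ
  have hys := h.ts.comm_s (a := 4 + i) (by omega) (by omega)
  have h1 := cmul (cmul hs hys) (cinv hs)
  obtain ⟨c, hc, e⟩ := h.ts.mem_BB.mp (h.cs _ h1 (by
    have h2 := comm_conj (g := f) (h.ts.comm_t (g_mem_BB g (a := 4 + i) (by omega)))
    rw [hf.ft] at h2
    simpa using (Commute.mul_right h2 (Commute.inv_right h1)).eq))
  have lt : ∀ c < 4096, ∀ a < 12, ψ1 i c a < 4096 := fun c hc a ha => by
    unfold ψ1
    split_ifs
    · exact hc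
    · norm_num
    · exact shl_lt ha
  have h2 := al_spec chk_y2 hi
  simp only [Bool.and_eq_true] at h2
  have h3 := al2_spec (al_spec chk_y hi) (i := c) hc
  rw [al_intro fun a ha => by
    cases h3 : Nat.testBit 903 a
    · rfl
    have h4 := al_spec h2.1 ha
    rw [h3, Bool.not_true, Bool.false_or] at h4
    have ha' : a < 12 := by omega
    rw [Bool.not_true, Bool.false_or, Nat.beq_eq]
    refine h.nd _ (cjC_lt _ _) _ (mapC_lt _ _) ?_
    rw [← h.ts.E_mapC (x := f) (lt 0 (by norm_num)) fun b hb h5 => by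
      have h6 := al_spec h4 hb
      rw [h5, Bool.not_true, Bool.false_or] at h6
      rw [h.fA hf hb h6, ψ1, if_neg ((by decide : ∀ i < 3, ∀ b < 12, Nat.testBit 3975 b = true →
        b ≠ 4 + i) i hi b hb h6)],
      h.ts.E_cj1 (by omega) (shl_lt ha'), h.ts.E_cj hc (shl_lt ha'), ← e, E_shl g ha']
    have h5 := conj_eq_iff_comm.mpr (hf.cm a ((by decide : ∀ a < 10, Nat.testBit 903 a = true →
      a ∈ [9, 8, 7, 2, 1, 0]) a ha h3))
    conv_lhs => rw [← h5]
    group, Bool.not_true, Bool.false_or] at h3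
  obtain ⟨p, hp, e1⟩ := ex_spec h3
  obtain rfl := Nat.eq_of_beq_eq_true e1
  have h4 := al_spec h2.2 hp
  simp only [Bool.and_eq_true, Bool.or_eq_true, Nat.blt_eq, Bool.not_eq_true'] at h4
  rcases h4.2 with h5 | h5
  · rw [e]
    interval_cases p
    · left
      interval_cases i <;> exact congrArg _ (mul_one _)
    · right
      rw [mul_assoc]
      interval_cases i <;> exact congrArg (g _ * ·) (congrArg (g _ * ·) (mul_one (g 10)))
  · refine absurd (h.nd _ (mapC_lt _ _) _ (shl_lt (by omega)) ?_) (Nat.ne_of_beq_eq_false h5)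
    rw [← h.ts.E_mapC (x := f) (lt _ hc) fun b hb h5 => by
      have h6 := al_spec h4.1 hb
      rw [h5, Bool.not_true, Bool.false_or, Bool.or_eq_true, Nat.beq_eq] at h6
      by_cases h7 : b = 4 + i
      · rw [ψ1, if_pos h7, h7, e]
      · rw [h.fA hf hb (h6.resolve_right h7), ψ1, if_neg h7], ← e, E_shl g (by omega)]
    calc _ = f * f * g (4 + i) * (f * f)⁻¹ := by group
      _ = _ := conj_eq_iff_comm.mpr (by
        rcases h.loc.sq hf.fQ with e2 | e2 <;> rw [e2]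
        · group
        · exact hys.symm)

theorem top0 (h2 : f * f = 1) (hy : ∀ i < 3, f * g (4 + i) * f⁻¹ = g i * g (4 + i)) :
    ∃ g' : ℕ → G, Top g' := by
  have ts := h.ts
  have h8 : E g 8 = g 3 := E_pow g (a := 3) (by norm_num)
  have hη : ∀ c < 4096, Nat.testBit (cjC 8 c) 3 = false →
      f * g 3 * E g c * (f * g 3)⁻¹ = E g (η c) := by
    intro c hc h1
    rw [η, frc_eq, ← ts.E_mapC (x := f) (by decide +kernel) fun a ha h3 => ?_,
      ts.E_cj (by norm_num) hc, h8]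
    · group
    · by_cases h4 : Nat.testBit 3975 a = true
      · rw [h.fA hf ha h4, (by decide +kernel : ∀ a < 12, Nat.testBit 3975 a = true →
          ψ2 a = if a = 11 then 3072 else Nat.shiftLeft 1 a) a ha h4]
      · rcases (by decide : ∀ a < 12, ¬ Nat.testBit 3975 a = true → a = 3 ∨ a = 4 ∨ a = 5 ∨ a = 6)
          a ha h4 with rfl | rfl | rfl | rfl
        · rw [h1] at h3
          exact absurd h3 (by simp)
        · exact (hy 0 (by norm_num)).trans (congrArg _ (mul_one _).symm)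
        · exact (hy 1 (by norm_num)).trans (congrArg _ (mul_one _).symm)
        · exact (hy 2 (by norm_num)).trans (congrArg _ (mul_one _).symm)
  have cube : ∀ x y : G, x ^ 3 * y * (x ^ 3)⁻¹ = x * (x * (x * y * x⁻¹) * x⁻¹) * x⁻¹ :=
    fun x y => by simp only [pow_succ, pow_zero, one_mul, mul_assoc, mul_inv_rev]
  have k1 : ∀ a < 12, a ≠ 3 → (f * g 3) ^ 3 * g a * ((f * g 3) ^ 3)⁻¹ = g a ∧
      g 3 * f * g 3 * g a * (g 3 * f * g 3) = g (rf 3 a) := by
    intro a ha h3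
    have h1 := al_spec chk_h ha
    simp only [frc_eq, Bool.or_eq_true, Nat.beq_eq, h3, false_or, Bool.and_eq_true,
      Bool.not_eq_true'] at h1
    obtain ⟨⟨⟨⟨e1, e2⟩, e3⟩, e4⟩, e5⟩ := h1
    have lt : ∀ c, η c < 4096 := fun c => by rw [η, frc_eq]; exact mapC_lt _ _
    have e6 := hη _ (shl_lt ha) e1
    rw [E_shl g ha] at e6
    constructor
    · rw [cube, e6, hη _ (lt _) e2, hη _ (lt _) e3, e4, E_shl g ha]
    · rw [← E_shl g (rf_lt 3 (by norm_num) a ha), ← e5, ts.E_cj (by norm_num) (lt _), ← e6, h8,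
        mul_inv_rev, ts.inv, inv_eq_of_mul_eq_one_right h2]
      simp only [mul_assoc]
  have cen : ∀ (z : G) (P : ℕ → Prop), P 10 → P 11 → (∀ a < 12, P a → z * g a * z⁻¹ = g a) →
      ∃ c < 4096, z = E g c ∧ ∀ a < 12, P a → cjC c (Nat.shiftLeft 1 a) = Nat.shiftLeft 1 a := by
    intro z P p1 p2 h1
    obtain ⟨c, hc, rfl⟩ := ts.mem_BB.mp (h.cs z (conj_eq_iff_comm.mp (h1 10 (by norm_num) p1))
      (conj_eq_iff_comm.mp (h1 11 (by norm_num) p2)))
    exact ⟨c, hc, rfl, fun a ha p => h.nd _ (cjC_lt _ _) _ (shl_lt ha) (by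
      rw [ts.E_cj hc (shl_lt ha), E_shl g ha, h1 a ha p])⟩
  have k2 : (f * g 3) ^ 3 = 1 := by
    obtain ⟨c, hc, e1, e2⟩ := cen _ (· ≠ 3) (by norm_num) (by norm_num) fun a ha p => (k1 a ha p).1
    have h1 := al2_spec chk_h2 (i := c) hc
    rw [al_intro fun a ha => by
      rw [Bool.or_eq_true, Nat.beq_eq, Nat.beq_eq]
      exact or_iff_not_imp_left.mpr (e2 a ha)] at h1
    simp only [Bool.not_true, Bool.false_or, Bool.or_eq_true, Nat.beq_eq, Bool.and_eq_true,
      Bool.not_eq_true'] at h1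
    rcases h1 with rfl | ⟨h1, h3⟩
    · exact e1
    · refine absurd (h.nd _ (by rw [η, frc_eq]; exact mapC_lt _ _) _ hc ?_)
        (Nat.ne_of_beq_eq_false h3)
      rw [← hη c hc h1, ← e1]
      exact conj_eq_iff_comm.mpr (Commute.self_pow _ 3)
  have k3 : g 3 * f * g 3 * (g 3 * f * g 3) = 1 := by
    simp only [mul_assoc, ts.sq']
    rw [← mul_assoc f, h2, one_mul, ts.sq]
  have k4 : (g 3 * f * g 3 * g 3) ^ 3 = 1 := by
    rw [mul_assoc _ _ (g 3), ts.sq, mul_one, show g 3 * f = g 3 * (f * g 3) * (g 3)⁻¹ by group,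
      conj_pow, k2]
    group
  have k5 := fun a ha p => (k1 a ha p).2
  generalize g 3 * f * g 3 = n at k3 k4 k5
  have k6 : ∀ i < 3, (n * g (12 + i)) ^ 3 = 1 := by
    intro i hi
    have r1 : ∀ a < 12, a ≠ i → rf i a ≠ 3 →
        n * g (12 + i) * g a * (n * g (12 + i))⁻¹ = g (rf 3 (rf i a)) := fun a ha p1 p2 => by
      rw [← k5 _ (rf_lt i (by omega) a ha) p2, ← h.rfl' i hi a ha p1, mul_inv_rev, ts.inv,
        inv_eq_of_mul_eq_one_right k3]
      simp only [mul_assoc]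
    obtain ⟨c, hc, e1, e2⟩ := cen ((n * g (12 + i)) ^ 3) (fun a => a ≠ 3 ∧ a ≠ i ∧ a ≠ 4 + i)
      (by omega) (by omega) fun a ha p => by
        obtain ⟨q1, q2, q3, q4, q5, q6, q7, q8⟩ := rf_cube i hi a ha p
        rw [cube, r1 a ha p.2.1 q1, r1 _ q2 q3 q4, r1 _ q5 q6 q7, q8]
    have h1 := al2_spec (al_spec chk_w hi) (i := c) hc
    rw [al_intro fun a ha => by
      simp only [Bool.or_eq_true, Nat.beq_eq]
      exact or_iff_not_imp_left.mpr fun p => e2 a ha (by omega)] at h1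
    simp only [Bool.not_true, Bool.false_or, Bool.or_eq_true, Nat.beq_eq, Bool.and_eq_true,
      Bool.not_eq_true', frc_eq] at h1
    rcases h1 with rfl | ⟨⟨h1, h3⟩, h4 | ⟨⟨h4, h5⟩, h6⟩⟩
    · exact e1
    · refine absurd (h.nd _ (rfC_lt _ _) _ hc ?_) (Nat.ne_of_beq_eq_false h4)
      rw [ts.E_rf (by norm_num) k3 k5 h3, ts.E_rf (by omega) (ts.sq _) (h.rfl' i hi) h1, ← e1]
      calc _ = n * g (12 + i) * (n * g (12 + i)) ^ 3 * (n * g (12 + i))⁻¹ := by
            simp only [mul_assoc, mul_inv_rev]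
        _ = _ := conj_eq_iff_comm.mpr (Commute.self_pow _ 3)
    · refine absurd (h.nd _ (mulC_lt _ _) _ (by norm_num) ?_) (Nat.ne_of_beq_eq_false h6)
      have r2 : (g (12 + i) * g i) ^ 3 = 1 := by
        rw [pow_succ, pow_two, ← mul_assoc, ← mul_assoc, h.nx i hi]
        simp only [mul_assoc, ts.sq', ts.sq, one_mul]
      have r3 := r1 3 (by norm_num) (by omega) ((by decide : ∀ i < 3, rf i 3 ≠ 3) i hi)
      rw [(by decide : ∀ i < 3, rf 3 (rf i 3) = i) i hi] at r3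
      have r4 : (E g c * (g (12 + i) * g i)) ^ 3 = 1 := by
        rw [← e1, ← r3]
        have r5 : (n * g (12 + i)) ^ 3 * (g (12 + i) * (n * g (12 + i) * g 3 * (n * g (12 + i))⁻¹)) =
            n * g (12 + i) * (n * g 3) * (n * g (12 + i))⁻¹ := by
          simp only [pow_succ, pow_zero, one_mul, mul_assoc, ts.sq']
          rw [← mul_assoc n n, k3, one_mul, ts.sq']
        rw [r5, conj_pow, k4]
        group
      rw [ts.E_mul (mulC_lt _ _) (rfC_lt _ _), ts.E_mul hc (rfC_lt _ _),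
        ts.E_rf (by omega) (ts.sq _) (h.rfl' i hi) h5, ts.E_cj1 (by omega) (rfC_lt _ _),
        ts.E_rf (by omega) (ts.sq _) (h.rfl' i hi) h4, ts.E_cj1 (by omega) hc, E_zero, ← r4,
        ← mul_one (_ * _ * _), ← r2]
      simp only [pow_succ, pow_zero, one_mul, mul_assoc, inv_mul_cancel_left]
  have inv3 : ∀ a b : G, a * a = 1 → b * b = 1 → (a * b) ^ 3 = 1 → a * b * a = b * a * b := by
    intro a b ha hb e
    rw [← inv_eq_of_mul_eq_one_right (show a * b * a * (b * a * b) = 1 by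
      rw [← e]; simp only [pow_succ, pow_zero, one_mul, mul_assoc]), mul_inv_rev, mul_inv_rev,
      inv_eq_of_mul_eq_one_right ha, inv_eq_of_mul_eq_one_right hb, mul_assoc]
  have u1 : ∀ a < 15, Function.update g 15 n a = g a := fun a ha =>
    Function.update_of_ne (by omega) _ _
  have u2 : Function.update g 15 n 15 = n := Function.update_self ..
  generalize hg' : Function.update g 15 n = g' at u1 u2
  have u3 : ∀ P : ℕ → Prop, (∀ a, P a → a < 15) →
      {x | ∃ a, P a ∧ g' a = x} = {x | ∃ a, P a ∧ g a = x} := fun P hP =>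
    Set.ext fun x => exists_congr fun a => and_congr_right fun p => by rw [u1 a (hP a p)]
  have uB : BB g' = BB g := congrArg Subgroup.closure (u3 _ fun a (ha : a < 12) => by omega)
  have uP : PP g' = PP g := congrArg Subgroup.closure (u3 _ fun a ha => ha)
  have uQ : QQ g' = QQ g := congrArg Subgroup.closure (by
    simpa only [and_assoc] using u3 (fun a => a < 12 ∧ 3 ≤ a) fun a ha => by omega)
  have sys : Sys g' := by
    refine ⟨⟨fun a => ?_, fun a ha b hb => ?_⟩, fun i hi a ha hn => ?_, fun i hi => ?_,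
      fun i hi j hj => ?_, fun i hi => ?_⟩
    · by_cases h1 : a = 15
      · rw [h1, u2, k3]
      · rw [← hg', Function.update_of_ne h1, ts.sq]
    · rw [u1 a (by omega), u1 b (by omega), u1 _ (by have := sm_lt b (by omega) a ha; omega)]
      exact ts.cm a ha b hb
    · rw [u1 a (by omega), u1 (rf i a) (by have := rf_lt i hi a ha; omega)]
      by_cases h1 : i = 3
      · subst h1
        rw [u2]
        exact k5 a ha hn
      · rw [u1 _ (by omega)]
        exact h.rfl' i (by omega) a ha hn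
    · rw [u1 i (by omega)]
      by_cases h1 : i = 3
      · subst h1
        rw [u2]
        exact inv3 _ _ k3 (ts.sq _) k4
      · rw [u1 _ (by omega)]
        exact h.nx i (by omega)
    · rw [u1 _ (by omega), u1 _ (by omega)]
      exact h.nc i hi j hj
    · rw [u2, u1 _ (by omega)]
      exact inv3 _ _ k3 (ts.sq _) (k6 i hi)
  refine ⟨g', sys, sys.nd (by rw [u1 11 (by norm_num)]; exact h.t1), ?_, ?_, ?_, ?_⟩
  · rw [uP, u1 11 (by norm_num)]; exact h.cent
  · rw [u1 11 (by norm_num)]; exact h.five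
  · rw [uP, uB]; exact h.syl
  · rw [uP, uQ, u1 10 (by norm_num), u1 11 (by norm_num)]; exact h.pure

theorem top (hy : ∀ i < 3, f * g (4 + i) * f⁻¹ = g i * g (4 + i)) : ∃ g' : ℕ → G, Top g' := by
  rcases h.loc.sq hf.fQ with e | e
  · exact h.top0 hf e hy
  have h1 : ∀ a < 12, g 11 * g a * (g 11)⁻¹ = g a := fun a ha =>
    conj_eq_iff_comm.mpr (h.ts.comm_t (g_mem_BB g ha)).symm
  have cj : ∀ x, f * g 11 * x * (f * g 11)⁻¹ = f * (g 11 * x * (g 11)⁻¹) * f⁻¹ := fun x => by group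
  refine h.top0 (f := f * g 11) ⟨mul_mem hf.fQ (h.mem 11 (by decide)), fun a ha =>
    cmul (hf.cm a ha) (conj_eq_iff_comm.mp (h1 a (by simp at ha; omega))), ?_⟩ ?_ fun i hi => ?_
  · rw [cj, h1 11 (by norm_num), hf.ft]
  · calc _ = f * g 11 * f⁻¹ * (f * f) * g 11 := by group
      _ = _ := by rw [hf.ft, e, mul_assoc (g 11), h.ts.sq, mul_one, h.ts.sq]
  · rw [cj, h1 _ (by omega), hy i hi]

end Pre

theorem Ex.top [Finite G] {t s : G} {Q Q' M : Subgroup G} {ph ph' : G → L3} {e : ℕ → G}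
    {sec : L3 → G} (h : Ex t Q ph s Q' ph' M e sec) : ∃ g' : ℕ → G, Top g' := by
  have step : ∀ i < 3, (∃ k f, (∀ i < 3, k i ∈ M ∧ ph (k i) = τ i) ∧ FF (lt0 t s e sec k) Q' f ∧
      ∀ j < i, f * lt0 t s e sec k (4 + j) * f⁻¹ = lt0 t s e sec k j * lt0 t s e sec k (4 + j)) →
      ∃ k f, (∀ i < 3, k i ∈ M ∧ ph (k i) = τ i) ∧ FF (lt0 t s e sec k) Q' f ∧ ∀ j < i + 1,
        f * lt0 t s e sec k (4 + j) * f⁻¹ = lt0 t s e sec k j * lt0 t s e sec k (4 + j) := by
    rintro i hi ⟨k, f, hk, hf, h1⟩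
    have hp := h.pre hk
    rcases hp.fy hf hi with h2 | h2
    · exact ⟨k, f, hk, hf, fun j hj => (Nat.lt_succ_iff_lt_or_eq.mp hj).elim (h1 j) (· ▸ h2)⟩
    obtain ⟨h3, h4, h5⟩ := hf.toggle (g' := lt0 t s e sec (Function.update k i (k i * t))) hp.ts hi
      (hp.loc.cen f hf.fQ) (hp.mem _ (by interval_cases i <;> decide))
      (fun a ha hn => by
        simp only [lt0, Function.update_of_ne hn, show a = 11 ↔ ¬ a < 11 by omega]
        split_ifs <;> rfl)
      ((Ex.lt_k hi).trans ((Function.update_self ..).trans (by rw [Ex.lt_k hi]; rfl)))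
    refine ⟨_, _, fun j hj => ?_, h3, fun j hj => ?_⟩
    · by_cases h6 : j = i
      · rw [h6, Function.update_self, h.a.mul _ _ (h.m.cen _ (hk i hi).1) rfl, h.a.ph_Q h.a.tQ,
          mul_one]
        exact ⟨mul_mem (hk i hi).1 h.m.tM, (hk i hi).2⟩
      · rw [Function.update_of_ne h6]
        exact hk j hj
    · rcases Nat.lt_succ_iff_lt_or_eq.mp hj with h6 | rfl
      · exact h5 j (by omega) h6.ne (h1 j h6)
      · exact h4 h2
  have hk : ∀ i < 3, sec (τ i) ∈ M ∧ ph (sec (τ i)) = τ i := fun i _ => ⟨h.m.sM _, h.m.sph _⟩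
  obtain ⟨f, hf⟩ := (h.pre hk).exists_FF
  obtain ⟨k, f, hk, hf, hy⟩ := step 2 (by norm_num) (step 1 (by norm_num) (step 0 (by norm_num)
    ⟨_, f, hk, hf, by simp⟩))
  exact (h.pre hk).top hf hy

end Cfsg.Agent.H6.O8
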