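import Cfsg.Agent.H6.O8.Sys

/-!
# Bruhat decomposition and uniqueness of the group generated by a `D₄` system
-/

set_option autoImplicit false

namespace Cfsg.Agent.H6.O8

open Subgroup

variable {H : Type*} [Group H]

/-- Tracking of a positive root under conjugation by a word (on the right). -/
def trk : List ℕ → ℕ → ℕ
  | [], a => a
  | j :: w, a => if 12 ≤ j ∧ j < 16 ∧ a < 12 ∧ a ≠ j - 12 then trk w (rf (j - 12) a) else 99

/-- A Coxeter move at the start of a word. -/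
def mv0 : List ℕ → List ℕ
  | a :: b :: w =>
    if a = b then w else if 12 ≤ a ∧ a < 15 ∧ 12 ≤ b ∧ b < 15 then b :: a :: w else
      match w with
      | c :: w' => if c = a ∧ ((a = 15 ∧ 12 ≤ b ∧ b < 15) ∨ (b = 15 ∧ 12 ≤ a ∧ a < 15)) then
          b :: a :: b :: w' else a :: b :: c :: w'
      | [] => [a, b]
  | w => w

/-- A Coxeter move at position `p`. -/
def mv : ℕ → List ℕ → List ℕ
  | 0, w => mv0 w
  | _ + 1, [] => []
  | p + 1, a :: w => a :: mv p w

/-- A sequence of Coxeter moves. -/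
def mvs (w : List ℕ) (ps : List ℕ) : List ℕ := ps.foldl (fun u p => mv p u) w

/-- The certificate check for a Bruhat decomposition. -/
def bchk (I J : List ℕ) (reps : List (List ℕ))
    (cert : List (ℕ × List ℕ × List ℕ × List ℕ × List ℕ)) : Bool :=
  reps.all fun w => I.all fun i => cert.any fun c =>
    c.1 == i && c.2.1 == w && reps.contains c.2.2.1 &&
      mvs ((12 + i) :: w) c.2.2.2.2 == c.2.2.1 ++ c.2.2.2.1 && c.2.2.2.1.all J.contains &&
      (Nat.blt (trk w i) 12 || Nat.blt (trk c.2.2.1 i) 12)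

/-- Coset representatives. -/
def repsA : List (List ℕ) := [[],[15],[12,15],[13,15],[14,15],[13,12,15],[14,12,15],[14,13,15],[14,13,12,15],[15,13,12,15],[15,14,12,15],[15,14,13,15],[15,14,13,12,15],[14,15,13,12,15],[13,15,14,12,15],[12,15,14,13,15],[12,15,14,13,12,15],[13,15,14,13,12,15],[14,15,14,13,12,15],[13,12,15,14,13,12,15],[14,12,15,14,13,12,15],[14,13,15,14,13,12,15],[14,13,12,15,14,13,12,15],[15,14,13,12,15,14,13,12,15]]
/-- Certificates. -/
def certA : List (ℕ × List ℕ × List ℕ × List ℕ × List ℕ) := [(0,[],[],[12],[]),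
  (1,[],[],[13],[]),
  (2,[],[],[14],[]),
  (3,[],[15],[],[]),
  (0,[15],[12,15],[],[]),
  (1,[15],[13,15],[],[]),
  (2,[15],[14,15],[],[]),
  (3,[15],[],[],[0]),
  (0,[12,15],[15],[],[0]),
  (1,[12,15],[13,12,15],[],[]),
  (2,[12,15],[14,12,15],[],[]),
  (3,[12,15],[12,15],[12],[0]),
  (0,[13,15],[13,12,15],[],[0]),
  (1,[13,15],[15],[],[0]),
  (2,[13,15],[14,13,15],[],[]),
  (3,[13,15],[13,15],[13],[0]),
  (0,[14,15],[14,12,15],[],[0]),
  (1,[14,15],[14,13,15],[],[0]),
  (2,[14,15],[15],[],[0]),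
  (3,[14,15],[14,15],[14],[0]),
  (0,[13,12,15],[13,15],[],[0,1]),
  (1,[13,12,15],[12,15],[],[0]),
  (2,[13,12,15],[14,13,12,15],[],[]),
  (3,[13,12,15],[15,13,12,15],[],[]),
  (0,[14,12,15],[14,15],[],[0,1]),
  (1,[14,12,15],[14,13,12,15],[],[0]),
  (2,[14,12,15],[12,15],[],[0]),
  (3,[14,12,15],[15,14,12,15],[],[]),
  (0,[14,13,15],[14,13,12,15],[],[0,1]),
  (1,[14,13,15],[14,15],[],[0,1]),
  (2,[14,13,15],[13,15],[],[0]),
  (3,[14,13,15],[15,14,13,15],[],[]),
  (0,[14,13,12,15],[14,13,15],[],[0,1,2]),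
  (1,[14,13,12,15],[14,12,15],[],[0,1]),
  (2,[14,13,12,15],[13,12,15],[],[0]),
  (3,[14,13,12,15],[15,14,13,12,15],[],[]),
  (0,[15,13,12,15],[15,13,12,15],[13],[2,0,2,1]),
  (1,[15,13,12,15],[15,13,12,15],[12],[0,2]),
  (2,[15,13,12,15],[14,15,13,12,15],[],[]),
  (3,[15,13,12,15],[13,12,15],[],[0]),
  (0,[15,14,12,15],[15,14,12,15],[14],[2,0,2,1]),
  (1,[15,14,12,15],[13,15,14,12,15],[],[]),
  (2,[15,14,12,15],[15,14,12,15],[12],[0,2]),
  (3,[15,14,12,15],[14,12,15],[],[0]),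
  (0,[15,14,13,15],[12,15,14,13,15],[],[]),
  (1,[15,14,13,15],[15,14,13,15],[14],[2,0,2,1]),
  (2,[15,14,13,15],[15,14,13,15],[13],[0,2]),
  (3,[15,14,13,15],[14,13,15],[],[0]),
  (0,[15,14,13,12,15],[12,15,14,13,12,15],[],[]),
  (1,[15,14,13,12,15],[13,15,14,13,12,15],[],[]),
  (2,[15,14,13,12,15],[14,15,14,13,12,15],[],[]),
  (3,[15,14,13,12,15],[14,13,12,15],[],[0]),
  (0,[14,15,13,12,15],[14,15,13,12,15],[13],[0,3,1,3,2]),
  (1,[14,15,13,12,15],[14,15,13,12,15],[12],[0,1,3]),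
  (2,[14,15,13,12,15],[15,13,12,15],[],[0]),
  (3,[14,15,13,12,15],[14,15,14,13,12,15],[],[0]),
  (0,[13,15,14,12,15],[13,15,14,12,15],[14],[0,3,1,3,2]),
  (1,[13,15,14,12,15],[15,14,12,15],[],[0]),
  (2,[13,15,14,12,15],[13,15,14,12,15],[12],[0,1,3]),
  (3,[13,15,14,12,15],[13,15,14,13,12,15],[],[0,2]),
  (0,[12,15,14,13,15],[15,14,13,15],[],[0]),
  (1,[12,15,14,13,15],[12,15,14,13,15],[14],[0,3,1,3,2]),
  (2,[12,15,14,13,15],[12,15,14,13,15],[13],[0,1,3]),
  (3,[12,15,14,13,15],[12,15,14,13,12,15],[],[0,2,3]),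
  (0,[12,15,14,13,12,15],[15,14,13,12,15],[],[0]),
  (1,[12,15,14,13,12,15],[13,12,15,14,13,12,15],[],[]),
  (2,[12,15,14,13,12,15],[14,12,15,14,13,12,15],[],[]),
  (3,[12,15,14,13,12,15],[12,15,14,13,15],[],[0,2,3,4]),
  (0,[13,15,14,13,12,15],[13,12,15,14,13,12,15],[],[0]),
  (1,[13,15,14,13,12,15],[15,14,13,12,15],[],[0]),
  (2,[13,15,14,13,12,15],[14,13,15,14,13,12,15],[],[]),
  (3,[13,15,14,13,12,15],[13,15,14,12,15],[],[0,2,3]),
  (0,[14,15,14,13,12,15],[14,12,15,14,13,12,15],[],[0]),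
  (1,[14,15,14,13,12,15],[14,13,15,14,13,12,15],[],[0]),
  (2,[14,15,14,13,12,15],[15,14,13,12,15],[],[0]),
  (3,[14,15,14,13,12,15],[14,15,13,12,15],[],[0,2]),
  (0,[13,12,15,14,13,12,15],[13,15,14,13,12,15],[],[0,1]),
  (1,[13,12,15,14,13,12,15],[12,15,14,13,12,15],[],[0]),
  (2,[13,12,15,14,13,12,15],[14,13,12,15,14,13,12,15],[],[]),
  (3,[13,12,15,14,13,12,15],[13,12,15,14,13,12,15],[14],[1,4,2,0,2,5,3,1,0,5,4,3]),
  (0,[14,12,15,14,13,12,15],[14,15,14,13,12,15],[],[0,1]),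
  (1,[14,12,15,14,13,12,15],[14,13,12,15,14,13,12,15],[],[0]),
  (2,[14,12,15,14,13,12,15],[12,15,14,13,12,15],[],[0]),
  (3,[14,12,15,14,13,12,15],[14,12,15,14,13,12,15],[13],[1,2,0,2,5,3,1,0,5,4]),
  (0,[14,13,15,14,13,12,15],[14,13,12,15,14,13,12,15],[],[0,1]),
  (1,[14,13,15,14,13,12,15],[14,15,14,13,12,15],[],[0,1]),
  (2,[14,13,15,14,13,12,15],[13,15,14,13,12,15],[],[0]),
  (3,[14,13,15,14,13,12,15],[14,13,15,14,13,12,15],[12],[1,2,0,2,3,1,0,5]),
  (0,[14,13,12,15,14,13,12,15],[14,13,15,14,13,12,15],[],[0,1,2]),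
  (1,[14,13,12,15,14,13,12,15],[14,12,15,14,13,12,15],[],[0,1]),
  (2,[14,13,12,15,14,13,12,15],[13,12,15,14,13,12,15],[],[0]),
  (3,[14,13,12,15,14,13,12,15],[15,14,13,12,15,14,13,12,15],[],[]),
  (0,[15,14,13,12,15,14,13,12,15],[15,14,13,12,15,14,13,12,15],[12],[2,3,2,0,4,2,1,4,5,3,2,1,7]),
  (1,[15,14,13,12,15,14,13,12,15],[15,14,13,12,15,14,13,12,15],[13],[2,0,3,4,2,4,7,5,3,2,1,7,6]),
  (2,[15,14,13,12,15,14,13,12,15],[15,14,13,12,15,14,13,12,15],[14],[0,3,6,4,2,4,7,5,3,2,7,6,5]),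
  (3,[15,14,13,12,15,14,13,12,15],[14,13,12,15,14,13,12,15],[],[0])]
/-- Coset representatives. -/
def repsB : List (List ℕ) := [[],[12],[13],[14],[13,12],[14,12],[14,13],[14,13,12]]
/-- Certificates. -/
def certB : List (ℕ × List ℕ × List ℕ × List ℕ × List ℕ) := [(0,[],[12],[],[]),
  (1,[],[13],[],[]),
  (2,[],[14],[],[]),
  (0,[12],[],[],[0]),
  (1,[12],[13,12],[],[]),
  (2,[12],[14,12],[],[]),
  (0,[13],[13,12],[],[0]),
  (1,[13],[],[],[0]),
  (2,[13],[14,13],[],[]),
  (0,[14],[14,12],[],[0]),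
  (1,[14],[14,13],[],[0]),
  (2,[14],[],[],[0]),
  (0,[13,12],[13],[],[0,1]),
  (1,[13,12],[12],[],[0]),
  (2,[13,12],[14,13,12],[],[]),
  (0,[14,12],[14],[],[0,1]),
  (1,[14,12],[14,13,12],[],[0]),
  (2,[14,12],[12],[],[0]),
  (0,[14,13],[14,13,12],[],[0,1]),
  (1,[14,13],[14],[],[0,1]),
  (2,[14,13],[13],[],[0]),
  (0,[14,13,12],[14,13],[],[0,1,2]),
  (1,[14,13,12],[14,12],[],[0,1]),
  (2,[14,13,12],[13,12],[],[0])]
/-- Coset representatives. -/
def repsC : List (List ℕ) := [[],[14],[15,14],[12,15,14],[13,15,14],[13,12,15,14],[15,13,12,15,14],[14,15,13,12,15,14]]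
/-- Certificates. -/
def certC : List (ℕ × List ℕ × List ℕ × List ℕ × List ℕ) := [(0,[],[],[12],[]),
  (1,[],[],[13],[]),
  (2,[],[14],[],[]),
  (3,[],[],[15],[]),
  (0,[14],[14],[12],[0]),
  (1,[14],[14],[13],[0]),
  (2,[14],[],[],[0]),
  (3,[14],[15,14],[],[]),
  (0,[15,14],[12,15,14],[],[]),
  (1,[15,14],[13,15,14],[],[]),
  (2,[15,14],[15,14],[15],[0]),
  (3,[15,14],[14],[],[0]),
  (0,[12,15,14],[15,14],[],[0]),
  (1,[12,15,14],[13,12,15,14],[],[]),
  (2,[12,15,14],[12,15,14],[15],[0,1]),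
  (3,[12,15,14],[12,15,14],[12],[0,2]),
  (0,[13,15,14],[13,12,15,14],[],[0]),
  (1,[13,15,14],[15,14],[],[0]),
  (2,[13,15,14],[13,15,14],[15],[0,1]),
  (3,[13,15,14],[13,15,14],[13],[0,2]),
  (0,[13,12,15,14],[13,15,14],[],[0,1]),
  (1,[13,12,15,14],[12,15,14],[],[0]),
  (2,[13,12,15,14],[13,12,15,14],[15],[0,1,2]),
  (3,[13,12,15,14],[15,13,12,15,14],[],[]),
  (0,[15,13,12,15,14],[15,13,12,15,14],[13],[2,0,2,1,4]),
  (1,[15,13,12,15,14],[15,13,12,15,14],[12],[0,2,4]),
  (2,[15,13,12,15,14],[14,15,13,12,15,14],[],[]),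
  (3,[15,13,12,15,14],[13,12,15,14],[],[0]),
  (0,[14,15,13,12,15,14],[14,15,13,12,15,14],[13],[0,3,1,3,2,5]),
  (1,[14,15,13,12,15,14],[14,15,13,12,15,14],[12],[0,1,3,5]),
  (2,[14,15,13,12,15,14],[15,13,12,15,14],[],[0]),
  (3,[14,15,13,12,15,14],[14,15,13,12,15,14],[15],[0,2,3,4])]


theorem bchkA : bchk [0, 1, 2, 3] [12, 13, 14] repsA certA = true := by decide +kernel
theorem bchkB : bchk [0, 1, 2] [] repsB certB = true := by decide +kernel
theorem bchkC : bchk [0, 1, 2, 3] [12, 13, 15] repsC certC = true := by decide +kernel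

/-- The group generated by the system. -/
def HH (g : ℕ → H) : Subgroup H := closure {x | ∃ a < 16, g a = x}

/-- The parabolic subgroup centralizing the highest root element. -/
def PP (g : ℕ → H) : Subgroup H := closure {x | ∃ a < 15, g a = x}

/-- The parabolic subgroup of type `A₃` belonging to the node `2`. -/
def P3 (g : ℕ → H) : Subgroup H := closure {x | ∃ a < 16, a ≠ 14 ∧ g a = x}

theorem g_mem_HH (g : ℕ → H) {a : ℕ} (ha : a < 16) : g a ∈ HH g := subset_closure ⟨a, ha, rfl⟩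
theorem g_mem_PP (g : ℕ → H) {a : ℕ} (ha : a < 15) : g a ∈ PP g := subset_closure ⟨a, ha, rfl⟩
theorem g_mem_P3 (g : ℕ → H) {a : ℕ} (ha : a < 16) (h : a ≠ 14) : g a ∈ P3 g :=
  subset_closure ⟨a, ha, h, rfl⟩

theorem BB_le_PP (g : ℕ → H) : BB g ≤ PP g :=
  closure_mono fun _ ⟨a, ha, e⟩ => ⟨a, by omega, e⟩
theorem PP_le_HH (g : ℕ → H) : PP g ≤ HH g :=
  closure_mono fun _ ⟨a, ha, e⟩ => ⟨a, by omega, e⟩
theorem BB_le_P3 (g : ℕ → H) : BB g ≤ P3 g :=
  closure_mono fun _ ⟨a, ha, e⟩ => ⟨a, by omega, by omega, e⟩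
theorem P3_le_HH (g : ℕ → H) : P3 g ≤ HH g :=
  closure_mono fun _ ⟨a, ha, _, e⟩ => ⟨a, ha, e⟩
theorem BB_le_HH (g : ℕ → H) : BB g ≤ HH g := (BB_le_PP g).trans (PP_le_HH g)

theorem rf_lt : ∀ i < 4, ∀ a < 12, rf i a < 12 := by decide
theorem rf_ne : ∀ i < 4, ∀ a < 12, a ≠ i → rf i a ≠ i := by decide
theorem sm_lt : ∀ a < 12, ∀ b < 12, sm a b < 12 := by decide
theorem sm_ne : ∀ a < 12, ∀ b < 12, sm a b ≠ 0 → 4 ≤ sm a b := by decide

/-- Tracking of the highest root under conjugation by a word (on the left), with a sign. -/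
def tr2 : List ℕ → ℕ × Bool
  | [] => (11, false)
  | j :: w => if 12 ≤ j ∧ j < 16 ∧ (tr2 w).1 < 12 then
      (if (tr2 w).1 = j - 12 then (if (tr2 w).2 then (99, true) else (j - 12, true))
        else (rf (j - 12) (tr2 w).1, (tr2 w).2)) else (99, true)

theorem chk_tr2 : ∀ w ∈ repsA, w = [] ∨ ((tr2 w).1 < 12 ∧ ((tr2 w).2 = true ∨ (tr2 w).1 ≠ 11)) := by
  decide +kernel

theorem chk_B : ∀ w ∈ repsB, w = [] ∨ (trk w 10 < 10) := by decide +kernel

theorem chk_s : al2 64 64 (fun c => Nat.beq (cjC c 1024) 1024 || Nat.beq (cjC c 1024) 3072) = true := by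
  decide +kernel

namespace Sys

variable {g : ℕ → H} (h : Sys g)
include h

theorem map {H' : Type*} [Group H'] (f : H →* H') : Sys fun a => f (g a) where
  toTS := h.toTS.map f
  rfl' i hi a ha hn := by rw [← map_mul, ← map_mul, h.rfl' i hi a ha hn]
  nx i hi := by simp only [← map_mul, h.nx i hi]
  nc i hi j hj := by simp only [← map_mul, h.nc i hi j hj]
  br i hi := by simp only [← map_mul, h.br i hi]

theorem ev_trk {w : List ℕ} {a : ℕ} (ha : trk w a < 12) :
    (ev g w)⁻¹ * g a * ev g w = g (trk w a) := by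
  induction w generalizing a with
  | nil => simp [trk]
  | cons j w ih =>
    unfold trk at ha ⊢
    split_ifs at ha ⊢ with h1
    · rw [← ih ha, ← h.rfl' (j - 12) (by omega) a h1.2.2.1 h1.2.2.2,
        show 12 + (j - 12) = j by omega, ev_cons, mul_inv_rev, h.inv]
      simp only [mul_assoc]
    · omega

theorem ev_mv0 (w : List ℕ) : ev g (mv0 w) = ev g w := by
  unfold mv0
  split
  · rename_i a b w
    split_ifs with h1 h2
    · rw [h1, ev_cons, ev_cons, h.sq']
    · have := h.nc (a - 12) (by omega) (b - 12) (by omega)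
      rw [show 12 + (a - 12) = a by omega, show 12 + (b - 12) = b by omega] at this
      simp only [ev_cons, ← mul_assoc, this]
    · split
      · rename_i c w'
        split_ifs with h3
        · obtain ⟨rfl, ⟨rfl, h4⟩ | ⟨rfl, h4⟩⟩ := h3
          · have := h.br (b - 12) (by omega)
            rw [show 12 + (b - 12) = b by omega] at this
            simp only [ev_cons, ← mul_assoc, this]
          · have := h.br (c - 12) (by omega)
            rw [show 12 + (c - 12) = c by omega] at this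
            simp only [ev_cons, ← mul_assoc, this]
        · rfl
      · rfl
  · rfl

theorem ev_mv (p : ℕ) (w : List ℕ) : ev g (mv p w) = ev g w := by
  induction p generalizing w with
  | zero => exact h.ev_mv0 w
  | succ p ih =>
    cases w with
    | nil => rfl
    | cons a w => simp only [mv, ev_cons, ih]

theorem ev_mvs (w ps : List ℕ) : ev g (mvs w ps) = ev g w := by
  induction ps generalizing w with
  | nil => rfl
  | cons p ps ih => exact (ih (mv p w)).trans (h.ev_mv p w)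

theorem split_BB {i : ℕ} (hi : i < 4) {b : H} (hb : b ∈ BB g) :
    g (12 + i) * b * g (12 + i) ∈ BB g ∨ g (12 + i) * (b * g i) * g (12 + i) ∈ BB g := by
  let K : Subgroup H := closure {x | ∃ a < 12, a ≠ i ∧ g a = x}
  have hK : ∀ x ∈ K, g (12 + i) * x * g (12 + i) ∈ BB g := by
    intro x hx
    induction hx using closure_induction with
    | mem x hx =>
      obtain ⟨a, ha, hn, rfl⟩ := hx
      rw [h.rfl' i hi a ha hn]
      exact g_mem_BB g (rf_lt i hi a ha)
    | one => rw [mul_one, h.sq]; exact one_mem _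
    | mul x y _ _ hx hy =>
      have := mul_mem hx hy
      simpa only [mul_assoc, h.sq'] using this
    | inv x _ hx =>
      have := inv_mem hx
      simpa only [mul_inv_rev, h.inv, mul_assoc] using this
  have hmem : ∀ a < 12, a ≠ i → g a ∈ K := fun a ha hn => subset_closure ⟨a, ha, hn, rfl⟩
  have hsm : ∀ a < 12, ∀ b < 12, (if sm a b = 0 then 1 else g (sm a b)) ∈ K := by
    intro a ha b hb
    split_ifs with h1
    · exact one_mem _
    · exact hmem _ (sm_lt a ha b hb) (by have := sm_ne a ha b hb h1; omega)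
  have hN : ∀ x ∈ K, g i * x * g i ∈ K := by
    intro x hx
    induction hx using closure_induction with
    | mem x hx =>
      obtain ⟨a, ha, hn, rfl⟩ := hx
      rcases lt_or_gt_of_ne hn with h1 | h1
      · have h2 := h.cm i (by omega) a h1
        have h3 : g i * g a * g i = (if sm a i = 0 then 1 else g (sm a i)) * g a := by
          calc g i * g a * g i = g i * g a * (g i * g a) * g a := by
                simp only [mul_assoc, h.sq, mul_one]
            _ = _ := by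
                nth_rewrite 2 [h2]
                simp only [mul_assoc, h.sq']
        rw [h3]
        exact mul_mem (hsm a ha i (by omega)) (hmem a ha hn)
      · rw [mul_assoc, h.cm a ha i h1, ← mul_assoc, ← mul_assoc, h.sq, one_mul]
        exact mul_mem (hmem a ha hn) (hsm i (by omega) a ha)
    | one => rw [mul_one, h.sq]; exact one_mem _
    | mul x y _ _ hx hy =>
      have := mul_mem hx hy
      simpa only [mul_assoc, h.sq'] using this
    | inv x _ hx =>
      have := inv_mem hx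
      simpa only [mul_inv_rev, h.inv, mul_assoc] using this
  have : b ∈ K ∨ b * g i ∈ K := by
    induction hb using closure_induction with
    | mem x hx =>
      obtain ⟨a, ha, rfl⟩ := hx
      by_cases hn : a = i
      · right; rw [hn, h.sq]; exact one_mem _
      · exact Or.inl (hmem a ha hn)
    | one => exact Or.inl (one_mem _)
    | mul x y _ _ hx hy =>
      rcases hx with hx | hx <;> rcases hy with hy | hy
      · exact Or.inl (mul_mem hx hy)
      · exact Or.inr (by simpa only [mul_assoc] using mul_mem hx hy)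
      · exact Or.inr (by simpa only [mul_assoc, h.sq'] using mul_mem hx (hN _ hy))
      · exact Or.inl (by simpa only [mul_assoc, h.sq', h.sq, mul_one] using mul_mem hx (hN _ hy))
    | inv x _ hx =>
      rcases hx with hx | hx
      · exact Or.inl (inv_mem hx)
      · exact Or.inr (by
          simpa only [mul_assoc, h.sq', mul_inv_rev, h.inv] using hN _ (inv_mem hx))
  exact this.imp (hK _) (hK _)

theorem bruhat {I J : List ℕ} {reps : List (List ℕ)}
    {cert : List (ℕ × List ℕ × List ℕ × List ℕ × List ℕ)} (hc : bchk I J reps cert = true)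
    (hI : ∀ i ∈ I, i < 4) (h0 : [] ∈ reps) {P : Subgroup H} (hB : BB g ≤ P) (hJ : ∀ j ∈ J, g j ∈ P)
    {S : Set H} (hS : ∀ x ∈ S, (∃ a < 12, g a = x) ∨ ∃ i ∈ I, g (12 + i) = x) {x : H}
    (hx : x ∈ closure S) : ∃ b ∈ BB g, ∃ w ∈ reps, ∃ p ∈ P, x = b * ev g w * p := by
  have key : ∀ i ∈ I, ∀ b ∈ BB g, ∀ w ∈ reps, ∀ p ∈ P,
      ∃ b' ∈ BB g, ∃ w' ∈ reps, ∃ p' ∈ P, g (12 + i) * (b * ev g w * p) = b' * ev g w' * p' := by
    intro i hi b hb w hw p hp
    have h1 := List.all_eq_true.mp (List.all_eq_true.mp hc w hw) i hi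
    obtain ⟨⟨i', w0, w', jj, ps⟩, -, h2⟩ := List.any_eq_true.mp h1
    simp only [Bool.and_eq_true, beq_iff_eq, List.contains_iff_mem, Bool.or_eq_true, Nat.blt_eq,
      List.all_eq_true] at h2
    obtain ⟨⟨⟨⟨⟨-, -⟩, hw'⟩, h3⟩, h4⟩, h5⟩ := h2
    have h6 : g (12 + i) * ev g w = ev g w' * ev g jj := by
      rw [← ev_append, ← h3, h.ev_mvs, ev_cons]
    have h7 : ev g jj ∈ P := ev_mem fun j hj => hJ j (h4 j hj)
    rcases h.split_BB (hI i hi) hb with h8 | h8
    · refine ⟨_, h8, w', hw', _, mul_mem h7 hp, ?_⟩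
      rw [mul_assoc _ (ev g w'), ← mul_assoc (ev g w'), ← h6]
      simp only [mul_assoc, h.sq']
    · rcases h5 with h5 | h5
      · have h9 := hB (g_mem_BB g h5)
        rw [← h.ev_trk h5] at h9
        refine ⟨_, h8, w', hw', _, mul_mem (mul_mem h7 h9) hp, ?_⟩
        rw [mul_assoc _ (ev g w'), mul_assoc (ev g jj), ← mul_assoc (ev g w'), ← h6]
        simp only [mul_assoc, h.sq', mul_inv_cancel_left]
      · have h9 := hB (g_mem_BB g h5)
        rw [← h.ev_trk h5] at h9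
        refine ⟨_, mul_mem h8 (g_mem_BB g (a := i) (by have := hI i hi; omega)), w, hw,
          (ev g jj)⁻¹ * ((ev g w')⁻¹ * g i * ev g w') * ev g jj * p,
          mul_mem (mul_mem (mul_mem (inv_mem h7) h9) h7) hp, ?_⟩
        have h10 : ev g w = g (12 + i) * (ev g w' * ev g jj) := by rw [← h6, h.sq']
        have h11 := h.nx i (hI i hi)
        rw [h10]
        calc _ = g (12 + i) * (b * g i) * g (12 + i) * (g (12 + i) * g i * g (12 + i)) *
              (ev g w' * ev g jj) * p := by simp only [mul_assoc, h.sq']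
          _ = _ := by rw [h11]; simp only [mul_assoc, mul_inv_cancel_left]
  induction hx using closure_induction_left with
  | one => exact ⟨1, one_mem _, [], h0, 1, one_mem _, by simp⟩
  | mul_left x hx y _ ih =>
    obtain ⟨b, hb, w, hw, p, hp, rfl⟩ := ih
    rcases hS x hx with ⟨a, ha, rfl⟩ | ⟨i, hi, rfl⟩
    · exact ⟨_, mul_mem (g_mem_BB g ha) hb, w, hw, p, hp, by simp only [mul_assoc]⟩
    · exact key i hi b hb w hw p hp
  | inv_mul_cancel x hx y _ ih =>
    obtain ⟨b, hb, w, hw, p, hp, rfl⟩ := ih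
    rcases hS x hx with ⟨a, ha, rfl⟩ | ⟨i, hi, rfl⟩
    · exact ⟨_, mul_mem (g_mem_BB g ha) hb, w, hw, p, hp, by simp only [mul_assoc, h.inv]⟩
    · rw [h.inv]; exact key i hi b hb w hw p hp

theorem bruA {x : H} (hx : x ∈ HH g) :
    ∃ b ∈ BB g, ∃ w ∈ repsA, ∃ p ∈ PP g, x = b * ev g w * p := by
  refine h.bruhat bchkA (by decide) (by decide) (BB_le_PP g)
    (fun j hj => g_mem_PP g (by simp at hj; omega)) ?_ hx
  rintro _ ⟨a, ha, rfl⟩
  by_cases h1 : a < 12
  · exact Or.inl ⟨a, h1, rfl⟩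
  · exact Or.inr ⟨a - 12, by simp; omega, by rw [show 12 + (a - 12) = a by omega]⟩

theorem bruB {x : H} (hx : x ∈ PP g) :
    ∃ b ∈ BB g, ∃ w ∈ repsB, ∃ p ∈ BB g, x = b * ev g w * p := by
  refine h.bruhat bchkB (by decide) (by decide) le_rfl (by simp) ?_ hx
  rintro _ ⟨a, ha, rfl⟩
  by_cases h1 : a < 12
  · exact Or.inl ⟨a, h1, rfl⟩
  · exact Or.inr ⟨a - 12, by simp; omega, by rw [show 12 + (a - 12) = a by omega]⟩

theorem bruC {x : H} (hx : x ∈ HH g) :
    ∃ b ∈ BB g, ∃ w ∈ repsC, ∃ p ∈ P3 g, x = b * ev g w * p := by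
  refine h.bruhat bchkC (by decide) (by decide) (BB_le_P3 g)
    (fun j hj => g_mem_P3 g (by simp at hj; omega) (by simp at hj; omega)) ?_ hx
  rintro _ ⟨a, ha, rfl⟩
  by_cases h1 : a < 12
  · exact Or.inl ⟨a, h1, rfl⟩
  · exact Or.inr ⟨a - 12, by simp; omega, by rw [show 12 + (a - 12) = a by omega]⟩

theorem PP_comm {x : H} (hx : x ∈ PP g) : x * g 11 = g 11 * x := by
  induction hx using closure_induction with
  | mem x hx =>
    obtain ⟨a, ha, rfl⟩ := hx
    by_cases h1 : a < 12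
    · exact h.comm_t (g_mem_BB g h1)
    · have h2 := h.rfl' (a - 12) (by omega) 11 (by omega) (by omega)
      have h3 : rf (a - 12) 11 = 11 := by
        have : a - 12 < 3 := by omega
        generalize a - 12 = i at this
        interval_cases i <;> decide
      rw [h3, show 12 + (a - 12) = a by omega] at h2
      calc g a * g 11 = g a * g 11 * g a * g a := by simp only [mul_assoc, h.sq, mul_one]
        _ = _ := by rw [h2]
  | one => simp
  | mul x y _ _ hx hy => rw [mul_assoc, hy, ← mul_assoc, hx, mul_assoc]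
  | inv x _ hx => exact (Commute.inv_left (a := x) (b := g 11) hx)

theorem ev_tr2 {w : List ℕ} (hw : (tr2 w).1 < 12) :
    ((tr2 w).2 = false ∧ ev g w * g 11 * (ev g w)⁻¹ = g (tr2 w).1) ∨
      ((tr2 w).2 = true ∧ ∃ u : H, ∃ i < 4, u * g i * u⁻¹ = g (tr2 w).1 ∧
        u * (g (12 + i) * g i * g (12 + i)) * u⁻¹ = ev g w * g 11 * (ev g w)⁻¹) := by
  induction w with
  | nil => left; simp [tr2]
  | cons j w ih =>
    unfold tr2 at hw ⊢
    split_ifs at hw ⊢ with h1 h2 h3
    · simp at hw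
    · rcases ih h1.2.2 with ⟨-, h4⟩ | ⟨h4, -⟩
      · refine Or.inr ⟨rfl, 1, j - 12, by omega, by simp, ?_⟩
        rw [show 12 + (j - 12) = j by omega, ← h2, ← h4, ev_cons, mul_inv_rev, h.inv]
        simp only [mul_assoc, one_mul, inv_one, mul_one]
      · exact absurd h4 h3
    · have h5 := h.rfl' (j - 12) (by omega) _ h1.2.2 h2
      rw [show 12 + (j - 12) = j by omega] at h5
      rcases ih h1.2.2 with ⟨h3, h4⟩ | ⟨h3, u, i, hi, h4, h6⟩
      · refine Or.inl ⟨h3, ?_⟩
        rw [← h5, ← h4, ev_cons, mul_inv_rev, h.inv]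
        simp only [mul_assoc]
      · refine Or.inr ⟨h3, g j * u, i, hi, ?_, ?_⟩
        · rw [← h5, ← h4, mul_inv_rev, h.inv]
          simp only [mul_assoc]
        · rw [ev_cons, mul_inv_rev, mul_inv_rev, h.inv]
          calc _ = g j * (u * (g (12 + i) * g i * g (12 + i)) * u⁻¹) * g j := by
                simp only [mul_assoc]
            _ = _ := by rw [h6]; simp only [mul_assoc]
    · simp at hw

theorem not_comm_n (hn : ND g) {i : ℕ} (hi : i < 4) :
    g (12 + i) * g i * g (12 + i) * g i ≠ g i * (g (12 + i) * g i * g (12 + i)) := by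
  intro e
  rw [h.nx i hi] at e
  have e1 : g (12 + i) = g i := by
    have e2 : g i * g (12 + i) = g (12 + i) * g i := by
      simpa only [mul_assoc, h.sq, h.sq', mul_one] using e
    have e3 := h.nx i hi
    rw [← e2, mul_assoc, h.sq, mul_one, e2, mul_assoc, h.sq, mul_one] at e3
    exact e3.symm
  by_cases h3 : i = 3
  · subst h3
    have e4 := h.rfl' 3 (by omega) 11 (by omega) (by omega)
    rw [e1, h.comm_t (g_mem_BB g (by omega)), mul_assoc, h.sq, mul_one] at e4
    exact absurd (hn.g_inj (by omega) (by decide) e4) (by decide)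
  · have e4 := h.rfl' i hi 10 (by omega) (by omega)
    have e5 := h.cm 10 (by omega) i (by omega)
    have h4 : i < 3 := by omega
    rw [if_pos (by interval_cases i <;> decide), mul_one] at e5
    rw [e1, ← e5, mul_assoc, h.sq, mul_one] at e4
    have := hn.g_inj (by omega) (rf_lt i hi 10 (by omega)) e4
    revert this
    interval_cases i <;> decide

theorem cent_rep (hn : ND g) {w : List ℕ} (hw : w ∈ repsA)
    (e : ev g w * g 11 = g 11 * ev g w) : w = [] := by
  rcases chk_tr2 w hw with h1 | ⟨h1, h2⟩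
  · exact h1
  have e' : ev g w * g 11 * (ev g w)⁻¹ = g 11 := by rw [e, mul_inv_cancel_right]
  rcases h.ev_tr2 h1 with ⟨h3, h4⟩ | ⟨-, u, i, hi, h4, h5⟩
  · rw [e'] at h4
    rcases h2 with h2 | h2
    · rw [h2] at h3; exact absurd h3 (by simp)
    · exact absurd (hn.g_inj (by omega) h1 h4).symm h2
  · refine absurd ?_ (h.not_comm_n hn hi)
    have h6 := h.comm_t (g_mem_BB g h1)
    rw [← h4, ← e', ← h5] at h6
    have h7 := congrArg (fun x => u⁻¹ * x * u) h6
    simpa only [mul_assoc, inv_mul_cancel_left, inv_mul_cancel, mul_one] using h7.symm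

theorem cent_t (hn : ND g) {x : H} (hx : x ∈ HH g) (e : x * g 11 = g 11 * x) : x ∈ PP g := by
  obtain ⟨b, hb, w, hw, p, hp, rfl⟩ := h.bruA hx
  have h1 : ev g w * g 11 = g 11 * ev g w := by
    have h2 : Commute b (g 11) := h.comm_t hb
    have h3 : Commute p (g 11) := h.PP_comm hp
    have h4 : Commute (b * ev g w * p) (g 11) := e
    have h5 := (h2.inv_left.mul_left h4).mul_left h3.inv_left
    simpa only [mul_assoc, inv_mul_cancel_left, mul_inv_cancel, mul_one] using h5.eq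
  rw [h.cent_rep hn hw h1, ev_nil, mul_one]
  exact mul_mem (BB_le_PP g hb) hp

theorem rep_BB (hn : ND g) {w : List ℕ} (hw : w ∈ repsB) (e : ev g w ∈ BB g) : w = [] := by
  rcases chk_B w hw with h1 | h1
  · exact h1
  obtain ⟨c, hc, e1⟩ := h.mem_BB.mp (inv_mem e)
  have h2 := h.ev_trk (w := w) (a := 10) (by omega)
  have h3 := h.E_cj hc (c := 1024) (by norm_num)
  rw [← e1, inv_inv, show E g 1024 = g 10 from E_pow g (a := 10) (by omega), h2,
    ← E_pow g (a := trk w 10) (by omega)] at h3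
  have h4 := hn _ (cjC_lt _ _) _
    (lt_of_lt_of_le (Nat.pow_lt_pow_right (by norm_num) h1) (by norm_num)) h3
  have h5 := al2_spec chk_s (i := c) hc
  have h6 : 2 ^ trk w 10 < 2 ^ 10 := Nat.pow_lt_pow_right (by norm_num) h1
  simp only [Bool.or_eq_true, Nat.beq_eq] at h5
  omega

/-- A homomorphism which keeps the system nondegenerate is injective. -/
theorem eq_one {H' : Type*} [Group H'] (f : H →* H') (hn : ND fun a => f (g a)) {x : H}
    (hx : x ∈ HH g) (e : f x = 1) : x = 1 := by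
  have h' := h.map f
  have mB : ∀ b ∈ BB g, f b ∈ BB fun a => f (g a) := fun b hb => by
    obtain ⟨c, -, rfl⟩ := h.mem_BB.mp hb
    rw [E_map]; exact E_mem_BB _ c
  obtain ⟨b, hb, w, hw, p, hp, rfl⟩ := h.bruA hx
  have h1 : w = [] := by
    refine h'.cent_rep hn hw ?_
    have h2 : Commute (f b) (f (g 11)) := Commute.map (h.comm_t hb) f
    have h3 : Commute (f p) (f (g 11)) := Commute.map (h.PP_comm hp) f
    have h4 : f (ev g w) = (f b)⁻¹ * (f p)⁻¹ := by
      rw [map_mul, map_mul] at e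
      rw [eq_mul_inv_iff_mul_eq, eq_inv_iff_mul_eq_one]
      rw [mul_assoc] at e
      exact mul_eq_one_comm.mp e
    rw [← map_ev, h4]
    exact (h2.inv_left.mul_left h3.inv_left).eq
  subst h1
  rw [ev_nil, mul_one] at e ⊢
  obtain ⟨b1, hb1, w, hw, b2, hb2, e1⟩ := h.bruB (mul_mem (BB_le_PP g hb) hp)
  rw [e1] at e ⊢
  have h1 : w = [] := by
    refine h'.rep_BB hn hw ?_
    have h4 : f (ev g w) = (f b1)⁻¹ * (f b2)⁻¹ := by
      rw [map_mul, map_mul] at e
      rw [eq_mul_inv_iff_mul_eq, eq_inv_iff_mul_eq_one]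
      rw [mul_assoc] at e
      exact mul_eq_one_comm.mp e
    rw [← map_ev, h4]
    exact mul_mem (inv_mem (mB _ hb1)) (inv_mem (mB _ hb2))
  subst h1
  rw [ev_nil, mul_one] at e ⊢
  obtain ⟨c, hc, e2⟩ := h.mem_BB.mp (mul_mem hb1 hb2)
  rw [e2] at e ⊢
  rw [E_map] at e
  rw [hn c hc 0 (by norm_num) e, E_zero]

theorem prod {H' : Type*} [Group H'] {g' : ℕ → H'} (h' : Sys g') : Sys fun a => (g a, g' a) where
  sq a := Prod.ext (h.sq a) (h'.sq a)
  cm a ha b hb := by
    refine Prod.ext ?_ ?_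
    · have := h.cm a ha b hb
      split_ifs at this ⊢ <;> exact this
    · have := h'.cm a ha b hb
      split_ifs at this ⊢ <;> exact this
  rfl' i hi a ha hn := Prod.ext (h.rfl' i hi a ha hn) (h'.rfl' i hi a ha hn)
  nx i hi := Prod.ext (h.nx i hi) (h'.nx i hi)
  nc i hi j hj := Prod.ext (h.nc i hi j hj) (h'.nc i hi j hj)
  br i hi := Prod.ext (h.br i hi) (h'.br i hi)

/-- The group generated by a nondegenerate system is universal. -/
theorem exists_hom (hn : ND g) {H' : Type*} [Group H'] {g' : ℕ → H'} (h' : Sys g') :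
    ∃ ψ : HH g →* H', ∀ a (ha : a < 16), ψ ⟨g a, g_mem_HH g ha⟩ = g' a := by
  let γ : ℕ → H × H' := fun a => (g a, g' a)
  have hm : (HH γ).map (MonoidHom.fst H H') = HH g := by
    rw [HH, MonoidHom.map_closure]
    congr 1
    ext x
    constructor
    · rintro ⟨_, ⟨a, ha, rfl⟩, rfl⟩; exact ⟨a, ha, rfl⟩
    · rintro ⟨a, ha, rfl⟩; exact ⟨_, ⟨a, ha, rfl⟩, rfl⟩
  let f1 : HH γ →* HH g := ((MonoidHom.fst H H').comp (HH γ).subtype).codRestrict _
    fun x => hm ▸ mem_map_of_mem _ x.2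
  have hb : Function.Bijective f1 := by
    refine ⟨(injective_iff_map_eq_one f1).mpr fun x hx => Subtype.ext
      ((h.prod h').eq_one (MonoidHom.fst H H') hn x.2 (congrArg Subtype.val hx)), fun y => ?_⟩
    obtain ⟨x, hx, e⟩ := hm.ge y.2
    exact ⟨⟨x, hx⟩, Subtype.ext e⟩
  let e := MulEquiv.ofBijective f1 hb
  refine ⟨((MonoidHom.snd H H').comp (HH γ).subtype).comp e.symm.toMonoidHom, fun a ha => ?_⟩
  have : e.symm ⟨g a, g_mem_HH g ha⟩ = ⟨γ a, g_mem_HH γ ha⟩ := e.symm_apply_eq.mpr rfl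
  simp [this, γ]

end Sys

end Cfsg.Agent.H6.O8
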