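import Cfsg.Agent.H6.O8.Fus

/-!
# A group whose involution centralizer lies in the group generated by a `D₄` system
-/

set_option autoImplicit false

namespace Cfsg.Agent.H6.O8

open Subgroup Cfsg.Agent.H7 Cfsg.Agent.H7.Asch
open Cfsg.Agent.H5 (TwoEl)
open scoped Pointwise

variable {G : Type*} [Group G]

section dihedral

variable {d e : G} (hd : d * d = 1) (he : e * e = 1)
include hd he

theorem dih_inv (j : ℕ) : d * (d * e) ^ j = ((d * e) ^ j)⁻¹ * d := by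
  have h1 : d * (d * e) * d⁻¹ = (d * e)⁻¹ := by
    rw [← mul_assoc, hd, one_mul, mul_inv_rev, inv_eq_of_mul_eq_one_right he]
  rw [← inv_pow, ← h1, conj_pow, inv_mul_cancel_right]

theorem dih_inv' (j : ℕ) : e * (d * e) ^ j = ((d * e) ^ j)⁻¹ * e := by
  have h1 : e * (d * e) * e⁻¹ = (d * e)⁻¹ := by
    rw [← mul_assoc, mul_inv_cancel_right, mul_inv_rev, inv_eq_of_mul_eq_one_right he,
      inv_eq_of_mul_eq_one_right hd]
  rw [← inv_pow, ← h1, conj_pow, inv_mul_cancel_right]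

theorem dih_d (j : ℕ) : (d * e) ^ j * d * ((d * e) ^ j)⁻¹ = (d * e) ^ (2 * j) * d := by
  have h1 := dih_inv hd he j
  rw [two_mul, pow_add, mul_assoc, mul_assoc]
  congr 1
  rw [mul_inv_eq_iff_eq_mul, mul_assoc, h1, mul_inv_cancel_left]

theorem dih_e (j : ℕ) : (d * e) ^ j * e * ((d * e) ^ j)⁻¹ = (d * e) ^ (2 * j) * e := by
  have h1 := dih_inv' hd he j
  rw [two_mul, pow_add, mul_assoc, mul_assoc]
  congr 1
  rw [mul_inv_eq_iff_eq_mul, mul_assoc, h1, mul_inv_cancel_left]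

/-- Products of a rotation with a generator are conjugate to a generator. -/
theorem dih_conj (k : ℕ) : ∃ j : ℕ,
    (k = 2 * j ∧ (d * e) ^ k * d = (d * e) ^ j * d * ((d * e) ^ j)⁻¹ ∧
      (d * e) ^ k * e = (d * e) ^ j * e * ((d * e) ^ j)⁻¹) ∨
    (k = 2 * j + 1 ∧ (d * e) ^ k * d = (d * e) ^ (j + 1) * e * ((d * e) ^ (j + 1))⁻¹ ∧
      (d * e) ^ k * e = (d * e) ^ j * d * ((d * e) ^ j)⁻¹) := by
  obtain ⟨j, rfl | rfl⟩ := Nat.even_or_odd' k
  · exact ⟨j, Or.inl ⟨rfl, (dih_d hd he j).symm, (dih_e hd he j).symm⟩⟩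
  · refine ⟨j, Or.inr ⟨rfl, ?_, ?_⟩⟩
    · rw [dih_e hd he, show 2 * (j + 1) = 2 * j + 1 + 1 by ring, pow_succ _ (2 * j + 1), mul_assoc,
        mul_assoc d, he, mul_one]
    · rw [dih_d hd he, pow_succ, mul_assoc, mul_assoc d, he, mul_one]

theorem dih_cases [Finite G] : (∃ j : ℕ, (d * e) ^ (2 * j + 1) = 1) ∨
    ∃ k : ℕ, (d * e) ^ k ≠ 1 ∧ (d * e) ^ k * (d * e) ^ k = 1 ∧ (d * e) ^ k * d = d * (d * e) ^ k ∧
      (d * e) ^ k * e = e * (d * e) ^ k := by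
  obtain ⟨k, h | h⟩ := Nat.even_or_odd' (orderOf (d * e))
  · have h1 : (d * e) ^ k * (d * e) ^ k = 1 := by rw [← pow_add, ← two_mul, ← h, pow_orderOf_eq_one]
    have h2 := orderOf_pos (d * e)
    refine Or.inr ⟨k, pow_ne_one_of_lt_orderOf (by omega) (by omega), h1, ?_, ?_⟩
    · rw [dih_inv hd he, inv_eq_of_mul_eq_one_right h1]
    · rw [dih_inv' hd he, inv_eq_of_mul_eq_one_right h1]
  · exact Or.inl ⟨k, by rw [← h, pow_orderOf_eq_one]⟩

theorem dih_odd {j : ℕ} (h : (d * e) ^ (2 * j + 1) = 1) :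
    (d * e) ^ j * d * ((d * e) ^ j)⁻¹ = e := by
  rw [pow_succ, ← mul_assoc] at h
  rw [dih_d hd he, eq_inv_of_mul_eq_one_left h, inv_eq_of_mul_eq_one_right he]

end dihedral

/-- Distance from the highest root element. -/
def rk (u : ℕ) : ℕ := Nat.land (Nat.shiftRight
  0x670700470046002706005030503040075000063006300510000645264525340 (Nat.mul 4 u)) 15

theorem chk_sing : al 64 (fun u => ns u || Nat.beq u 0 || Nat.beq u 32 || ex 64 fun v =>
    Nat.blt (rk v) (rk u) && !(ns v) && !(Nat.beq v 0) &&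
      (ex 12 (fun a => Nat.beq (cjC (Nat.shiftLeft 1 a) (uc v)) (uc u)) ||
        ex 4 fun i => !(Nat.testBit (uc v) i) && Nat.beq (rfC i (uc v)) (uc u))) = true := by
  decide +kernel

theorem chk_aniso' : al 64 (fun a => al 64 fun b => al 64 fun c =>
    !(!(Nat.beq a 0) && !(Nat.beq b 0) && !(Nat.beq c 0) &&
      (Nat.beq a 0 || ns a) && (Nat.beq (a ^^^ 33) 0 || ns (a ^^^ 33)) && !(ns (a ^^^ 16)) &&
      (Nat.beq b 0 || ns b) && (Nat.beq (b ^^^ 33) 0 || ns (b ^^^ 33)) && !(ns (b ^^^ 4)) &&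
      (Nat.beq c 0 || ns c) && (Nat.beq (c ^^^ 33) 0 || ns (c ^^^ 33)) && !(ns (c ^^^ 20)) &&
      (Nat.beq (a ^^^ b) 0 || ns (a ^^^ b)) && (Nat.beq (a ^^^ 33 ^^^ b) 0 || ns (a ^^^ 33 ^^^ b)) &&
      (Nat.beq (a ^^^ c) 0 || ns (a ^^^ c)) &&
      (Nat.beq (a ^^^ 33 ^^^ c) 0 || ns (a ^^^ 33 ^^^ c)))) = true := by
  decide +kernel

theorem relIndex_eq_ncard (A L : Subgroup G) :
    A.relIndex L = ((QuotientGroup.mk : G → G ⧸ A) '' L).ncard := by
  rw [relIndex, index, ← Nat.card_coe_set_eq]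
  refine Nat.card_congr (Equiv.ofBijective (Quotient.lift
    (fun x : L => (⟨((x : G) : G ⧸ A), x, x.2, rfl⟩ : (QuotientGroup.mk : G → G ⧸ A) '' L))
    fun a b e => Subtype.ext (QuotientGroup.eq.mpr
      (QuotientGroup.leftRel_apply.mp e : a⁻¹ * b ∈ A.subgroupOf L))) ⟨?_, ?_⟩)
  · rintro ⟨a⟩ ⟨b⟩ e
    exact QuotientGroup.eq.mpr (QuotientGroup.eq.mp (congrArg Subtype.val e) : _ ∈ A)
  · rintro ⟨_, a, ha, rfl⟩
    exact ⟨((⟨a, ha⟩ : L) : L ⧸ _), rfl⟩

theorem exists_inverted [Finite G] {O : Subgroup G} (hO : Odd (Nat.card O)) (h5 : 5 ∣ Nat.card O)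
    {f : G} (hf : f * f = 1) (hn : f ∈ normalizer (O : Set G))
    (hc : ∀ c, c * f = f * c → c ^ 5 = 1 → c = 1) :
    ∃ y ∈ O, y ≠ 1 ∧ y ^ 5 = 1 ∧ f * y * f⁻¹ = y⁻¹ := by
  classical
  haveI : Fact (Nat.Prime 5) := ⟨by norm_num⟩
  haveI := Fintype.ofFinite (Sylow 5 O)
  let φ : MulAut O := O.normalizerMonoidHom ⟨f, hn⟩
  have hφ : φ ^ 2 ^ 1 = 1 := by
    rw [← map_pow, show (⟨f, hn⟩ : normalizer (O : Set G)) ^ 2 ^ 1 = 1 from
      Subtype.ext (by simpa [pow_two] using hf), map_one]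
  obtain ⟨P, hP⟩ := Equiv.Perm.exists_fixed_point_of_prime (p := 2) (n := 1) (α := Sylow 5 O)
    (fun h => by
      obtain ⟨P⟩ : Nonempty (Sylow 5 O) := inferInstance
      rw [← Nat.card_eq_fintype_card] at h
      exact (Nat.not_even_iff_odd.mpr hO) (even_iff_two_dvd.mpr
        ((h.trans P.card_dvd_index).trans (index_dvd_card _))))
    (σ := MulAction.toPermHom (MulAut O) (Sylow 5 O) φ) (by rw [← map_pow, hφ, map_one])
  have hP' : φ • (P : Subgroup O) = P := congrArg (fun Q : Sylow 5 O => (Q : Subgroup O)) hP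
  obtain ⟨y, hy⟩ := exists_prime_orderOf_dvd_card' (G := P) 5 (P.dvd_card_of_dvd_card h5)
  have hy5 : ((y : O) : G) ^ 5 = 1 := by
    have := pow_orderOf_eq_one y
    rw [hy] at this
    exact congrArg (fun a : P => ((a : O) : G)) this
  refine ⟨y, (y : O).2, fun e => ?_, hy5, ?_⟩
  · rw [show y = 1 from Subtype.ext (Subtype.ext e), orderOf_one] at hy
    omega
  refine inverts_of_fpf (N := (P : Subgroup O).map O.subtype) hf ?_ ?_ ⟨y, y.2, rfl⟩
  · rintro _ ⟨x, hx, rfl⟩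
    refine ⟨φ x, ?_, rfl⟩
    rw [← hP']
    exact smul_mem_pointwise_smul _ _ _ hx
  · rintro _ ⟨x, hx, rfl⟩ e
    obtain ⟨k, hk⟩ := P.2 ⟨x, hx⟩
    have h1 : (x : G) ^ 5 ^ k = 1 := congrArg (fun a : P => ((a : O) : G)) hk
    change f * (x : G) = x * f at e
    change (x : G) = 1
    generalize (x : G) = a at h1 e
    clear hk
    induction k with
    | zero => simpa using h1
    | succ k ih =>
      refine ih (hc _ ?_ (by rw [← pow_mul, ← pow_succ, h1]))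
      exact (Commute.pow_left (a := a) (b := f) e.symm _).eq

namespace Top

variable [Finite G] {g : ℕ → G} (h : Top g)
include h

omit [Finite G] in
theorem t_ne : g 11 ≠ 1 := fun e => by
  rw [← E_pow g (a := 11) (by norm_num), ← E_zero g] at e
  exact absurd (h.nd _ (by norm_num) _ (by norm_num) e) (by norm_num)

omit [Finite G] in
theorem notD {c : ℕ} (hc : c < 4096) (h7 : Nat.land c 7 = 0) (h1 : c ≠ 2048) (h2 : pur c = false) :
    ¬ Cj (g 11) (E g c) := by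
  intro h3
  rcases h.pure _ (E_mem_QQ g h7) h3 with h4 | ⟨p, hp, h4⟩
  · rw [← E_pow g (a := 11) (by norm_num)] at h4
    exact h1 (h.nd _ hc _ (by norm_num) h4)
  · obtain ⟨c', hc', h5, h6⟩ := h.sys.pur_conj hp
    rw [h.nd _ hc _ hc' (h4.trans h6), h5] at h2
    exact absurd h2 (by simp)

theorem sylow : IsSylowIn 2 (BB g) (HH g) := by
  refine isSylowIn_of_selfnorm (BB_le_HH g)
    (IsPGroup.of_card (n := 12) (h.sys.card_BB h.nd)) fun c _ h2 hn => h.syl c (h.cent c ?_) h2 hn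
  obtain ⟨a, ha, e⟩ := h.sys.mem_BB.mp (hn _ (g_mem_BB g (a := 11) (by norm_num)))
  have hn' : ∀ b ∈ BB g, c⁻¹ * b * c ∈ BB g := fun b hb =>
    (mem_normalizer_iff''.mp (mem_normalizer_fintype hn) b).mp hb
  have h3 := al2_spec chk_z (i := a) ha
  simp only [Bool.or_eq_true, Nat.beq_eq] at h3
  rcases h3 with (rfl | rfl) | h3
  · exact absurd (by simpa using e) h.t_ne
  · rw [show E g 2048 = g 11 from E_pow g (a := 11) (by norm_num)] at e
    exact conj_eq_iff_comm.mp e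
  · obtain ⟨b, hb, h4⟩ := ex_spec h3
    refine absurd (h.nd _ (cjC_lt (Nat.shiftLeft 1 b) a) _ ha ?_)
      (Nat.ne_of_beq_eq_false (by simpa only [Bool.not_eq_true'] using h4))
    rw [h.sys.E_cj1 hb ha, ← e]
    exact conj_eq_iff_comm.mpr
      (by simpa only [mul_assoc, mul_inv_cancel_left, mul_inv_cancel, mul_one] using
        comm_conj (g := c) (h.sys.comm_t (hn' _ (g_mem_BB g hb))))

omit [Finite G] in
theorem toS {c : ℕ} (hc : c < 4096) (h2 : E g c * E g c = 1) : Nat.land c 7 = 0 ∨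
    ∃ b ∈ BB g, ∃ S < 8, ∃ e < 2, S ≠ 0 ∧ b * E g c * b⁻¹ = E g (S + 2048 * e) := by
  have h3 := al2_spec chk_cj (i := c) hc
  rw [← h.sys.E_mul hc hc, ← E_zero g] at h2
  rw [h.nd _ (mulC_lt _ _) _ (by norm_num) h2] at h3
  by_cases h0 : Nat.land c 7 = 0
  · exact Or.inl h0
  simp only [Bool.or_eq_true, Nat.beq_eq, Bool.not_eq_true'] at h3
  rcases h3 with ((h3 | h3) | h3) | h3
  · exact absurd h3 (by decide)
  · exact absurd h3 h0
  · exact Or.inr ⟨_, E_mem_BB g _, _, land_lt c 3, 0, by norm_num, h0, by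
      rw [← h.sys.E_cj (cjT_lt c) hc, h3]; rfl⟩
  · exact Or.inr ⟨_, E_mem_BB g _, _, land_lt c 3, 1, by norm_num, h0, by
      rw [← h.sys.E_cj (cjT_lt c) hc, h3]; rfl⟩

omit [Finite G] in
theorem S_spec {S e : ℕ} (hS : S < 8) (he : e < 2) :
    g 15 * E g (S + 2048 * e) * (g 15)⁻¹ ∈ QQ g ∧ (S ≠ 0 → Cj (g 11) (E g (S + 2048 * e)) →
      ∃ i < 3, E g (S + 2048 * e) = g i) := by
  have h1 := al_spec (al_spec chk_S hS) he
  simp only [frc_eq, Bool.and_eq_true, Bool.not_eq_true', Nat.beq_eq, Bool.or_eq_true] at h1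
  obtain ⟨⟨h2, h3⟩, h4⟩ := h1
  have h5 := h.sys.E_rf (i := 3) (by norm_num) h2
  refine ⟨h5 ▸ E_mem_QQ g h3, fun h0 h6 => ?_⟩
  obtain ⟨h7, h8 | ⟨rfl, h8⟩⟩ := h4.resolve_left h0
  · exact absurd (h5 ▸ h6.conj _) (h.notD (mapC_lt _ _) h3 (Nat.ne_of_beq_eq_false h7) h8)
  · obtain ⟨i, hi, h9⟩ := ex_spec h8
    exact ⟨i, hi, by rw [Nat.eq_of_beq_eq_true h9, mul_zero, add_zero, E_pow g (by omega)]⟩

omit [Finite G] in
theorem s_conj : g 15 * g 11 * (g 15)⁻¹ = g 10 := by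
  rw [h.sys.inv]
  exact h.sys.rfl' 3 (by norm_num) 11 (by norm_num) (by norm_num)

theorem conj_t {e : G} (he : Cj (g 11) e) (hH : e ∈ HH g) : ∃ u ∈ HH g, e = u * g 11 * u⁻¹ := by
  have key : ∀ u ∈ HH g, u * e * u⁻¹ ∈ QQ g → ∃ u ∈ HH g, e = u * g 11 * u⁻¹ := by
    intro u hu hq
    rcases h.pure _ hq (he.conj u) with h1 | ⟨p, hp, h1⟩
    · exact ⟨u⁻¹, inv_mem hu, by rw [← h1]; group⟩
    · refine ⟨u⁻¹ * p * g 15, mul_mem (mul_mem (inv_mem hu) (PP_le_HH g hp))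
        (g_mem_HH g (by norm_num)), ?_⟩
      rw [← h.s_conj] at h1
      calc e = u⁻¹ * (u * e * u⁻¹) * u := by group
        _ = _ := by rw [h1]; group
  have h2 := he.sq (h.sys.sq 11)
  obtain ⟨u, hu, h1⟩ := IsSylowIn.conj_mem_one h.sylow (r := e) ⟨1, by simpa [pow_two] using h2⟩ hH
  obtain ⟨c, hc, h3⟩ := h.sys.mem_BB.mp h1
  rcases h.toS hc (h3 ▸ (Cj.refl e).conj u |>.sq h2) with h4 | ⟨b, hb, S, hS, ε, hε, -, h4⟩
  · exact key u hu (h3 ▸ E_mem_QQ g h4)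
  · refine key (g 15 * b * u) (mul_mem (mul_mem (g_mem_HH g (by norm_num)) (BB_le_HH g hb)) hu) ?_
    have := (h.S_spec hS hε).1
    rw [← h4, ← h3] at this
    simpa only [mul_assoc, mul_inv_rev] using this

/-- A conjugate of `t` lies in a unique conjugate of `H`. -/
theorem uniq {d x : G} (hd : Cj (g 11) d) (hH : d ∈ HH g) (hx : x * d * x⁻¹ ∈ HH g) : x ∈ HH g := by
  obtain ⟨u, hu, rfl⟩ := h.conj_t hd hH
  obtain ⟨v, hv, e⟩ := h.conj_t (hd.conj x) hx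
  have h1 : v⁻¹ * x * u ∈ HH g := PP_le_HH g (h.cent _ (conj_eq_iff_comm.mp (by
    calc _ = v⁻¹ * (x * (u * g 11 * u⁻¹) * x⁻¹) * v := by group
      _ = _ := by rw [e]; group)))
  simpa only [mul_assoc, mul_inv_cancel_left, mul_inv_cancel, mul_one] using
    mul_mem (mul_mem hv h1) (inv_mem hu)

theorem mem_of_comm {d x : G} (hd : Cj (g 11) d) (hH : d ∈ HH g) (hx : x * d = d * x) :
    x ∈ HH g := h.uniq hd hH (by rwa [conj_eq_iff_comm.mpr hx])

theorem prod_t {e : G} (he : Cj (g 11) e) (hc : e * g 11 = g 11 * e) (hne : e ≠ g 11) :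
    Cj (g 11) (g 11 * e) ∨ ∃ u ∈ HH g, ∃ i < 3, g 11 * e = u * (g 11 * g i) * u⁻¹ := by
  have h2 := he.sq (h.sys.sq 11)
  obtain ⟨u, hu, h1⟩ := IsSylowIn.conj_mem_one (h.sylow.mono (BB_le_PP g) (PP_le_HH g)) (r := e)
    ⟨1, by simpa [pow_two] using h2⟩ (h.cent e hc)
  obtain ⟨c, hc, h3⟩ := h.sys.mem_BB.mp h1
  have hut := h.sys.PP_comm hu
  have h5 : u * (g 11 * e) * u⁻¹ = g 11 * E g c := by rw [← h3, ← mul_assoc, hut]; group
  rcases h.toS hc (h3 ▸ (Cj.refl e).conj u |>.sq h2) with h4 | ⟨b, hb, S, hS, ε, hε, h0, h4⟩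
  · left
    have h6 := al2_spec chk_cq (i := c) hc
    simp only [Bool.or_eq_true, Nat.beq_eq, Bool.not_eq_true', h4] at h6
    rcases h6 with ((h6 | rfl) | rfl) | h6
    · exact absurd h6 (by decide)
    · exact absurd (by simpa using h3) (he.ne_one h.t_ne)
    · rw [show E g 2048 = g 11 from E_pow g (a := 11) (by norm_num)] at h3
      refine absurd ?_ hne
      calc e = u⁻¹ * (u * e * u⁻¹) * u := by group
        _ = _ := by rw [h3, mul_assoc, ← hut, inv_mul_cancel_left]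
    · obtain ⟨a, ha, h7⟩ := ex_spec h6
      have h8 := h.sys.E_cj1 ha hc
      rw [Nat.eq_of_beq_eq_true h7, h.sys.E_mul (by norm_num) hc,
        show E g 2048 = g 11 from E_pow g (a := 11) (by norm_num)] at h8
      refine Cj.of_conj (g := u) ?_
      rw [h5, h8, ← h3]
      exact (he.conj u).conj _
  · obtain ⟨i, hi, h6⟩ := (h.S_spec hS hε).2 h0 (by rw [← h4, ← h3]; exact (he.conj u).conj b)
    refine Or.inr ⟨u⁻¹ * b⁻¹, mul_mem (inv_mem (PP_le_HH g hu)) (inv_mem (BB_le_HH g hb)), i, hi, ?_⟩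
    rw [← h6, ← h4, ← mul_assoc (g 11), ← mul_assoc (g 11), ← h.sys.comm_t hb, mul_assoc b, ← h5]
    group

theorem prod_two {d e : G} (hd : Cj (g 11) d) (he : Cj (g 11) e) (hH : d ∈ HH g)
    (hc : e * d = d * e) (hne : e ≠ d) :
    Cj (g 11) (d * e) ∨ ∃ u ∈ HH g, ∃ i < 3, d * e = u * (g 11 * g i) * u⁻¹ := by
  obtain ⟨v, hv, rfl⟩ := h.conj_t hd hH
  have h1 : v * g 11 * v⁻¹ * e = v * (g 11 * (v⁻¹ * e * v)) * v⁻¹ := by group
  rw [h1]
  rcases h.prod_t (e := v⁻¹ * e * v) (by simpa using he.conj v⁻¹) (comm_of_conj hc)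
    (fun h2 => hne (by rw [← h2]; group)) with h2 | ⟨u, hu, i, hi, h2⟩
  · exact Or.inl (h2.conj v)
  · exact Or.inr ⟨v * u, mul_mem hv hu, i, hi, by rw [h2]; group⟩

omit [Finite G] in
theorem ns_notD {u : ℕ} (hu : u < 64) (hn : ns u = true) : ¬ Cj (g 11) (E g (uc u)) := by
  have h1 := al_spec chk_uc hu
  simp only [Bool.and_eq_true, Nat.blt_eq, hn, Bool.not_true, Bool.false_or, Bool.or_eq_true,
    Nat.beq_eq, Bool.not_eq_true'] at h1
  obtain ⟨⟨⟨⟨h2, -⟩, -⟩, -⟩, ⟨⟨h3, h4⟩, h5⟩ | h3⟩ := h1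
  · exact h.notD h2 h3 (Nat.ne_of_beq_eq_false h4) h5
  · intro h4
    have h5 := h4.conj (E g (cjT (uc u)))
    rw [← h.sys.E_cj (cjT_lt _) h2, h3] at h5
    obtain ⟨i, hi, h6⟩ := (h.S_spec (S := 4) (e := 1) (by norm_num) (by norm_num)).2 (by norm_num) h5
    rw [← E_pow g (a := i) (by omega)] at h6
    have := h.nd _ (by norm_num) _
      (lt_of_lt_of_le (Nat.pow_lt_pow_right (by norm_num) hi) (by norm_num)) h6
    interval_cases i <;> omega

omit [Finite G] in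
theorem sing_D {u : ℕ} (hu : u < 64) (hn : ns u = false) (h0 : u ≠ 0) :
    Cj (g 11) (E g (uc u)) := by
  induction hr : rk u using Nat.strong_induction_on generalizing u with
  | _ r ih =>
  have h1 := al_spec chk_sing hu
  simp only [hn, Bool.false_or, Bool.or_eq_true, Nat.beq_eq] at h1
  rcases h1 with (h1 | rfl) | h1
  · exact absurd h1 h0
  · rw [show E g (uc 32) = g 11 from E_pow g (a := 11) (by norm_num)]
    exact Cj.refl _
  obtain ⟨v, hv, h2⟩ := ex_spec h1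
  simp only [Bool.and_eq_true, Nat.blt_eq, Bool.not_eq_true', Bool.or_eq_true] at h2
  obtain ⟨⟨⟨h3, h4⟩, h5⟩, h6⟩ := h2
  have h7 := ih _ (hr ▸ h3) hv h4 (Nat.ne_of_beq_eq_false h5) rfl
  have h8 := al_spec chk_uc hv
  simp only [Bool.and_eq_true, Nat.blt_eq] at h8
  rcases h6 with h6 | h6
  · obtain ⟨a, ha, e⟩ := ex_spec h6
    rw [← Nat.eq_of_beq_eq_true e, h.sys.E_cj1 ha h8.1.1.1.1]
    exact h7.conj _
  · obtain ⟨i, hi, e⟩ := ex_spec h6
    simp only [Bool.and_eq_true, Bool.not_eq_true'] at e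
    rw [← Nat.eq_of_beq_eq_true e.2, h.sys.E_rf hi e.1]
    exact h7.conj _

omit [Finite G] in
theorem g_D {a : ℕ} (ha : a < 12) : Cj (g 11) (g a) := by
  have key : ∀ i < 4, ∀ a < 12, a ≠ i → Cj (g 11) (g a) → Cj (g 11) (g (rf i a)) := by
    intro i hi a ha hn h1
    rw [← h.sys.rfl' i hi a ha hn]
    simpa only [h.sys.inv] using h1.conj (g (12 + i))
  have h10 : Cj (g 11) (g 10) := key 3 (by norm_num) 11 (by norm_num) (by norm_num) (Cj.refl _)
  have h7 : Cj (g 11) (g 7) := key 0 (by norm_num) 10 (by norm_num) (by norm_num) h10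
  have h8 : Cj (g 11) (g 8) := key 1 (by norm_num) 10 (by norm_num) (by norm_num) h10
  have h9 : Cj (g 11) (g 9) := key 2 (by norm_num) 10 (by norm_num) (by norm_num) h10
  have h4 : Cj (g 11) (g 4) := key 1 (by norm_num) 9 (by norm_num) (by norm_num) h9
  have h5 : Cj (g 11) (g 5) := key 0 (by norm_num) 9 (by norm_num) (by norm_num) h9
  have h6 : Cj (g 11) (g 6) := key 0 (by norm_num) 8 (by norm_num) (by norm_num) h8
  interval_cases a
  · exact key 3 (by norm_num) 4 (by norm_num) (by norm_num) h4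
  · exact key 3 (by norm_num) 5 (by norm_num) (by norm_num) h5
  · exact key 3 (by norm_num) 6 (by norm_num) (by norm_num) h6
  · exact key 0 (by norm_num) 4 (by norm_num) (by norm_num) h4
  all_goals first | assumption | exact Cj.refl _

theorem conj_UU {x d : G} (hx : x * (g 11 * g 2) = g 11 * g 2 * x) (hd : d ∈ UU h.sys.toTS)
    (hD : Cj (g 11) d) (hH : x * d * x⁻¹ ∈ HH g) : x * d * x⁻¹ ∈ UU h.sys.toTS := by
  obtain ⟨u, -, e⟩ := id hd
  exact h.sys.norm_UU (h.sys.c4 h.nd (h.uniq hD (e ▸ BB_le_HH g (E_mem_BB g _)) hH) hx) d hd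

theorem cent_aux {k : G} (hk : k * (g 11 * g 2) = g 11 * g 2 * k) (hH : k ∉ HH g) {v : ℕ}
    (hv : v < 64) (h0 : v ≠ 0) (h1 : ns v = false) (h2 : ns (v ^^^ 33) = true) :
    ∃ a < 64, a ≠ 0 ∧ ns (a ^^^ v) = false ∧ k⁻¹ * E g (uc a) * k ∈ UU h.sys.toTS := by
  have ht : E g (uc 32) = g 11 := E_pow g (a := 11) (by norm_num)
  have htU : g 11 ∈ UU h.sys.toTS := ⟨32, by norm_num, ht.symm⟩
  have hz : E g (uc 33) = g 11 * g 2 := by
    rw [show 33 = 32 ^^^ 1 from rfl, h.sys.uc_mul (by norm_num) (by norm_num), ht,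
      show E g (uc 1) = g 2 from E_pow g (a := 2) (by norm_num)]
  set z := g 11 * g 2 with hzdef
  set d := E g (uc v) with hd
  set e := k * g 11 * k⁻¹ with he
  have hdD : Cj (g 11) d := h.sing_D hv h1 h0
  have heD : Cj (g 11) e := (Cj.refl _).conj k
  have hd2 := hdD.sq (h.sys.sq 11)
  have he2 := heD.sq (h.sys.sq 11)
  have hdH : d ∈ HH g := BB_le_HH g (E_mem_BB g _)
  have hdz : Commute d z := by
    show d * z = z * d
    rw [← hz, hd, ← h.sys.uc_mul hv (by norm_num), ← h.sys.uc_mul (by norm_num) hv, Nat.xor_comm]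
  have htz : Commute (g 11) z := by
    show g 11 * z = z * g 11
    rw [hzdef, mul_assoc, h.sys.comm_t (g_mem_BB g (a := 2) (by norm_num))]
  have hk' : Commute k z := hk
  have hez : Commute e z := (hk'.mul_left htz).mul_left hk'.inv_left
  have ha : ∀ j : ℕ, Commute ((d * e) ^ j) z := fun j => (hdz.mul_left hez).pow_left j
  rcases dih_cases hd2 he2 with ⟨j, hj⟩ | ⟨m, hm1, hm2, hm3, hm4⟩
  · refine absurd ?_ (h.ns_notD (Nat.xor_lt_two_pow (n := 6) hv (by norm_num)) h2)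
    rw [h.sys.uc_mul hv (by norm_num), hz]
    refine Cj.of_conj (g := (d * e) ^ j) ?_
    have h3 : (d * e) ^ j * (d * z) * ((d * e) ^ j)⁻¹ = k * g 2 * k⁻¹ := by
      calc _ = (d * e) ^ j * d * ((d * e) ^ j)⁻¹ * z := by
            rw [mul_assoc _ _ z, (ha j).inv_left.eq]; group
        _ = k * (g 11 * z) * k⁻¹ := by
            rw [dih_odd hd2 he2 hj, he, mul_assoc _ k⁻¹, hk'.inv_left.eq]; group
        _ = _ := by rw [hzdef, h.sys.sq']
    rw [h3]
    exact (h.g_D (by norm_num)).conj k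
  have hwH : (d * e) ^ m ∈ HH g := h.mem_of_comm hdD hdH hm3
  have hwH' : k⁻¹ * (d * e) ^ m * k ∈ HH g :=
    h.mem_of_comm (Cj.refl _) (g_mem_HH g (by norm_num)) (comm_of_conj hm4)
  have h3 : (d * e) ^ m * d ∈ HH g := mul_mem hwH hdH
  have h4 : k⁻¹ * ((d * e) ^ m * e) * k = k⁻¹ * (d * e) ^ m * k * g 11 := by rw [he]; group
  have h5 : k⁻¹ * ((d * e) ^ m * e) * k ∈ HH g := h4 ▸ mul_mem hwH' (g_mem_HH g (by norm_num))
  have hdU : d ∈ UU h.sys.toTS := ⟨v, hv, rfl⟩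
  have h6 : (d * e) ^ m * d ∈ UU h.sys.toTS ∧ Cj (g 11) ((d * e) ^ m * d) ∧
      k⁻¹ * ((d * e) ^ m * e) * k ∈ UU h.sys.toTS := by
    obtain ⟨j, ⟨-, e1, e2⟩ | ⟨-, e1, e2⟩⟩ := dih_conj hd2 he2 m
    · have e3 : k⁻¹ * ((d * e) ^ m * e) * k =
          k⁻¹ * (d * e) ^ j * k * g 11 * (k⁻¹ * (d * e) ^ j * k)⁻¹ := by rw [e2, he]; group
      rw [e1] at h3 ⊢
      rw [e3] at h5 ⊢
      exact ⟨h.conj_UU (ha j) hdU hdD h3, hdD.conj _,
        h.conj_UU ((hk'.inv_left.mul_left (ha j)).mul_left hk') htU (Cj.refl _) h5⟩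
    · have e3 : (d * e) ^ m * d = (d * e) ^ (j + 1) * k * g 11 * ((d * e) ^ (j + 1) * k)⁻¹ := by
        rw [e1, he]; group
      have e4 : k⁻¹ * ((d * e) ^ m * e) * k = k⁻¹ * (d * e) ^ j * d * (k⁻¹ * (d * e) ^ j)⁻¹ := by
        rw [e2]; group
      rw [e3] at h3 ⊢
      rw [e4] at h5 ⊢
      exact ⟨h.conj_UU ((ha _).mul_left hk') htU (Cj.refl _) h3, (Cj.refl _).conj _,
        h.conj_UU (hk'.inv_left.mul_left (ha j)) hdU hdD h5⟩
  obtain ⟨a, ha', e1⟩ : (d * e) ^ m ∈ UU h.sys.toTS := by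
    simpa using mul_mem h6.1 (inv_mem hdU)
  refine ⟨a, ha', fun e2 => hm1 (by rw [e1, e2]; rfl), ?_, ?_⟩
  · by_contra h7
    refine h.ns_notD (Nat.xor_lt_two_pow (n := 6) ha' hv) (by simpa using h7) ?_
    rw [h.sys.uc_mul ha' hv, ← e1]
    exact h6.2.1
  · rw [← e1]
    simpa [h4] using mul_mem h6.2.2 (inv_mem htU)

theorem cent_z2 {k : G} (hk : k * (g 11 * g 2) = g 11 * g 2 * k) : k ∈ HH g := by
  by_contra hH
  have hz : E g (uc 33) = g 11 * g 2 := by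
    rw [show 33 = 32 ^^^ 1 from rfl, h.sys.uc_mul (by norm_num) (by norm_num),
      show E g (uc 32) = g 11 from E_pow g (a := 11) (by norm_num),
      show E g (uc 1) = g 2 from E_pow g (a := 2) (by norm_num)]
  have key : ∀ u < 64, k⁻¹ * E g (uc u) * k ∈ UU h.sys.toTS → (Nat.beq u 0 || ns u) = true := by
    rintro u hu ⟨v, -, e⟩
    by_contra h1
    simp only [Bool.or_eq_true, Nat.beq_eq, not_or, Bool.not_eq_true] at h1
    refine hH (inv_inv k ▸ inv_mem (h.uniq (h.sing_D hu h1.2 h1.1) (BB_le_HH g (E_mem_BB g _)) ?_))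
    rw [inv_inv, e]
    exact BB_le_HH g (E_mem_BB g _)
  have mul : ∀ u < 64, ∀ v < 64, k⁻¹ * E g (uc u) * k ∈ UU h.sys.toTS →
      k⁻¹ * E g (uc v) * k ∈ UU h.sys.toTS → k⁻¹ * E g (uc (u ^^^ v)) * k ∈ UU h.sys.toTS := by
    intro u hu v hv h1 h2
    rw [h.sys.uc_mul hu hv]
    simpa only [mul_assoc, mul_inv_cancel_left] using mul_mem h1 h2
  have lt : ∀ {u v : ℕ}, u < 64 → v < 64 → u ^^^ v < 64 := Nat.xor_lt_two_pow (n := 6)
  have h33 : k⁻¹ * E g (uc 33) * k ∈ UU h.sys.toTS := by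
    rw [hz, mul_assoc, ← hk, inv_mul_cancel_left]
    exact ⟨33, by norm_num, hz.symm⟩
  obtain ⟨a, ha, a0, a1, a2⟩ := h.cent_aux hk hH (v := 16) (by norm_num) (by norm_num) rfl rfl
  obtain ⟨b, hb, b0, b1, b2⟩ := h.cent_aux hk hH (v := 4) (by norm_num) (by norm_num) rfl rfl
  obtain ⟨c, hc, c0, c1, c2⟩ := h.cent_aux hk hH (v := 20) (by norm_num) (by norm_num) rfl rfl
  have a3 := mul a ha 33 (by norm_num) a2 h33
  have h1 := al_spec (al_spec (al_spec chk_aniso' ha) hb) hc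
  rw [key a ha a2, key _ (lt ha (by norm_num)) a3, a1, key b hb b2, b1, key c hc c2, c1,
    key _ (lt hb (by norm_num)) (mul b hb 33 (by norm_num) b2 h33),
    key _ (lt hc (by norm_num)) (mul c hc 33 (by norm_num) c2 h33),
    key _ (lt ha hb) (mul a ha b hb a2 b2), key _ (lt ha hc) (mul a ha c hc a2 c2),
    key _ (lt (lt ha (by norm_num)) hb) (mul _ (lt ha (by norm_num)) b hb a3 b2),
    key _ (lt (lt ha (by norm_num)) hc) (mul _ (lt ha (by norm_num)) c hc a3 c2)] at h1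
  simp [a0, b0, c0] at h1

theorem cent_z {k u : G} (hu : u ∈ HH g) {i : ℕ} (hi : i < 3)
    (hk : k * (u * (g 11 * g i) * u⁻¹) = u * (g 11 * g i) * u⁻¹ * k) : k ∈ HH g := by
  obtain ⟨-, -, -, -, h1, h2⟩ := sw_spec i hi
  have h3 := (h.perm hi).cent_z2 (k := u⁻¹ * k * u) (by
    show _ * (g (sw i 11) * g (sw i 2)) = g (sw i 11) * g (sw i 2) * _
    rw [h1, h2]
    exact comm_of_conj hk)
  rw [(perm_eq g hi).1] at h3
  simpa only [mul_assoc, mul_inv_cancel_left, mul_inv_cancel, mul_one] using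
    mul_mem (mul_mem hu h3) (inv_mem hu)

theorem dih_D {d e : G} (hd : Cj (g 11) d) (he : Cj (g 11) e) (m : ℕ) :
    Cj (g 11) ((d * e) ^ m * d) := by
  obtain ⟨j, ⟨-, e1, -⟩ | ⟨-, e1, -⟩⟩ :=
    dih_conj (hd.sq (h.sys.sq 11)) (he.sq (h.sys.sq 11)) m
  · exact e1 ▸ hd.conj _
  · exact e1 ▸ he.conj _

theorem cent_w {d e w : G} (hd : Cj (g 11) d) (hH : d ∈ HH g) (hw : w ≠ 1)
    (hwd : w * d = d * w) (hD : Cj (g 11) (w * d)) (he : e * w = w * e) : e ∈ HH g := by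
  have h1 : d * (w * d) = w := by rw [hwd, ← mul_assoc, hd.sq (h.sys.sq 11), one_mul]
  rcases h.prod_two hd hD hH (by rw [mul_assoc, ← mul_assoc d, ← hwd, mul_assoc])
    (fun e => hw (by simpa using e)) with h2 | ⟨u, hu, i, hi, h2⟩
  · rw [h1] at h2
    exact h.mem_of_comm h2 (h.mem_of_comm hd hH hwd) he
  · rw [h1] at h2
    exact h.cent_z hu hi (h2 ▸ he)

theorem odd_out {d e : G} (hd : Cj (g 11) d) (he : Cj (g 11) e) (hH : d ∈ HH g) (hn : e ∉ HH g) :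
    ∃ j : ℕ, (d * e) ^ (2 * j + 1) = 1 := by
  refine (dih_cases (hd.sq (h.sys.sq 11)) (he.sq (h.sys.sq 11))).resolve_right ?_
  rintro ⟨m, h1, -, h2, h3⟩
  exact hn (h.cent_w hd hH h1 h2 (h.dih_D hd he m) h3.symm)

theorem odd_in {f f' : G} (hf : Cj (g 11) f) (hf' : Cj (g 11) f') (hn : f ∉ HH g)
    (hH : f * f' ∈ HH g) : ∃ j : ℕ, (f * f') ^ (2 * j + 1) = 1 := by
  refine (dih_cases (hf.sq (h.sys.sq 11)) (hf'.sq (h.sys.sq 11))).resolve_right ?_
  rintro ⟨m, h1, h2, h3, -⟩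
  have h4 := h.dih_D hf hf' m
  have h5 := pow_mem hH m
  generalize (f * f') ^ m = w at *
  obtain ⟨c, hc, h6⟩ := IsSylowIn.conj_mem_one h.sylow (r := w) ⟨1, by simpa [pow_two] using h2⟩ h5
  obtain ⟨v, rfl⟩ := hf
  have h7 : v⁻¹ * (c⁻¹ * g 11 * c) * v⁻¹⁻¹ ∈ HH g := by
    refine h.cent_w (w := v⁻¹ * w * v) (Cj.refl _) (g_mem_HH g (by norm_num)) (fun e => h1 ?_)
      (comm_of_conj h3) (by simpa only [mul_assoc, inv_inv, inv_mul_cancel, mul_one] using h4.conj v⁻¹)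
      ?_
    · rw [show w = v * (v⁻¹ * w * v) * v⁻¹ by group, e]; group
    · have := comm_conj (g := v⁻¹ * c⁻¹) (h.sys.comm_t h6).symm
      simpa only [mul_assoc, mul_inv_rev, inv_inv, inv_mul_cancel_left] using this
  have h8 := h.uniq (by simpa using (Cj.refl (g 11)).conj c⁻¹)
    (mul_mem (mul_mem (inv_mem hc) (g_mem_HH g (by norm_num))) hc) h7
  exact hn (by simpa using mul_mem (mul_mem (inv_mem h8) (g_mem_HH g (a := 11) (by norm_num))) h8)

theorem no_five {f y : G} (hf : Cj (g 11) f) (hn : f ∉ HH g) (hy : y ∈ HH g) (hy1 : y ≠ 1)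
    (hy5 : y ^ 5 = 1) (hfy : f * y * f⁻¹ = y⁻¹) : False := by
  obtain ⟨u, hu, i, hi, hc⟩ := (h.sys.five h.nd).2 y hy hy1 hy5
  have hzH : u * (g 11 * g i) * u⁻¹ ∈ HH g :=
    mul_mem (mul_mem hu (mul_mem (g_mem_HH g (by norm_num)) (g_mem_HH g (by omega)))) (inv_mem hu)
  have hz2 : u * (g 11 * g i) * u⁻¹ * (u * (g 11 * g i) * u⁻¹) = 1 := by
    calc _ = u * (g 11 * (g i * g 11) * g i) * u⁻¹ := by group
      _ = _ := by
        rw [h.sys.comm_t (g_mem_BB g (a := i) (by omega)), h.sys.sq', h.sys.sq]; group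
  have hK : ∀ k, k * (u * (g 11 * g i) * u⁻¹) = u * (g 11 * g i) * u⁻¹ * k → k ∈ HH g :=
    fun k => h.cent_z hu hi
  generalize u * (g 11 * g i) * u⁻¹ = z at *
  have hf2 := hf.sq (h.sys.sq 11)
  have h1 : z * y * z⁻¹ = y := conj_eq_iff_comm.mpr hc.symm
  have h2 : z * f * y * (z * f)⁻¹ = y⁻¹ := by
    calc _ = z * (f * y * f⁻¹) * z⁻¹ := by group
      _ = (z * y * z⁻¹)⁻¹ := by rw [hfy]; group
      _ = _ := by rw [h1]
  have h3 : ∀ j : ℕ, (z * f) ^ (2 * j + 1) * y * ((z * f) ^ (2 * j + 1))⁻¹ = y⁻¹ := by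
    intro j
    induction j with
    | zero => simpa using h2
    | succ j ih =>
      calc _ = z * f * (z * f * ((z * f) ^ (2 * j + 1) * y * ((z * f) ^ (2 * j + 1))⁻¹) *
            (z * f)⁻¹) * (z * f)⁻¹ := by
            rw [show 2 * (j + 1) + 1 = 2 * j + 1 + 1 + 1 by ring, pow_succ' _ (2 * j + 1 + 1),
              pow_succ' _ (2 * j + 1)]
            simp only [mul_assoc, mul_inv_rev]
        _ = z * f * (z * f * y * (z * f)⁻¹)⁻¹ * (z * f)⁻¹ := by rw [ih]; group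
        _ = _ := by rw [h2, inv_inv, h2]
  rcases dih_cases hz2 hf2 with ⟨j, hj⟩ | ⟨m, hm1, hm2, hm3, hm4⟩
  · have h4 := h3 j
    rw [hj, one_mul, inv_one, mul_one] at h4
    refine hy1 ?_
    have h5 : y * y = 1 := mul_eq_one_iff_eq_inv.mpr h4
    calc y = y * (y * y) * (y * y) := by rw [h5, mul_one, mul_one]
      _ = y ^ 5 := by simp only [pow_succ, pow_zero, one_mul, mul_assoc]
      _ = 1 := hy5
  have hwH := hK _ hm3
  obtain ⟨j, ⟨-, -, e2⟩ | ⟨rfl, e1, -⟩⟩ := dih_conj hz2 hf2 m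
  · have h4 : f * ((z * f) ^ m * f) = (z * f) ^ m := by rw [hm4, ← mul_assoc, hf2, one_mul]
    obtain ⟨n, hn⟩ := h.odd_in hf (f' := (z * f) ^ m * f) (by rw [e2]; exact hf.conj _) hn
      (by rw [h4]; exact hwH)
    rw [h4, pow_succ, pow_mul, pow_two, hm2, one_pow, one_mul] at hn
    exact hm1 hn
  · have h4 : Cj (g 11) ((z * f) ^ (2 * j + 1) * z) := e1 ▸ hf.conj _
    have h5 : (z * f) ^ (2 * j + 1) * z * y * ((z * f) ^ (2 * j + 1) * z)⁻¹ = y⁻¹ := by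
      rw [← h3 j]
      conv_rhs => rw [← h1]
      simp only [mul_assoc, mul_inv_rev]
    obtain ⟨x, hx, h6⟩ := h.conj_t h4 (mul_mem hwH hzH)
    have h7 := h4.sq (h.sys.sq 11)
    generalize (z * f) ^ (2 * j + 1) * z = d at *
    have h8 := h.sys.c2 (mul_mem (mul_mem (inv_mem hx) hy) hx)
    have h9 : g 11 * (x⁻¹ * y * x * g 11 * (x⁻¹ * y * x)⁻¹) = x⁻¹ * (y ^ 2)⁻¹ * x⁻¹⁻¹ := by
      calc _ = x⁻¹ * (d * y * d * y⁻¹) * x := by rw [h6]; group
        _ = _ := by rw [inv_eq_of_mul_eq_one_right h7] at h5; rw [h5]; group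
    rw [h9, conj_pow, conj_eq_one_iff, inv_pow, inv_eq_one, ← pow_mul] at h8
    refine hy1 ?_
    calc y = y ^ (2 * 12) * y := by rw [h8, one_mul]
      _ = (y ^ 5) ^ 5 := by rw [← pow_succ, ← pow_mul]
      _ = 1 := by rw [hy5, one_pow]

theorem swap_aux {d e : G} (hd : Cj (g 11) d) (he : Cj (g 11) e) (hH : d ∈ HH g)
    (hn : e ∉ HH g) : ∃ f, Cj (g 11) f ∧ f * d * f⁻¹ = e := by
  obtain ⟨j, hj⟩ := h.odd_out hd he hH hn
  refine ⟨_, h.dih_D hd he j, ?_⟩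
  refine Eq.trans ?_ (dih_odd (hd.sq (h.sys.sq 11)) (he.sq (h.sys.sq 11)) hj)
  simp only [mul_assoc, mul_inv_rev, mul_inv_cancel_left]

theorem eq_top : HH g = ⊤ := by
  by_contra hne
  obtain ⟨x, hx⟩ : ∃ x, x ∉ HH g := by
    by_contra h1
    exact hne (eq_top_iff.mpr fun x _ => not_not.mp fun h2 => h1 ⟨x, h2⟩)
  have htH : g 11 ∈ HH g := g_mem_HH g (by norm_num)
  have heH : x * g 11 * x⁻¹ ∉ HH g := fun h1 => hx (h.uniq (Cj.refl _) htH h1)
  obtain ⟨f, hf, hfe⟩ := h.swap_aux (Cj.refl _) ((Cj.refl _).conj x) htH heH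
  have hfH : f ∉ HH g := fun h1 => heH (hfe ▸ mul_mem (mul_mem h1 htH) (inv_mem h1))
  have hf2 := hf.sq (h.sys.sq 11)
  have hfi := inv_eq_of_mul_eq_one_right hf2
  have hff : ∀ a, f * (f * a) = a := fun a => by rw [← mul_assoc, hf2, one_mul]
  let X : Subgroup G :=
    { carrier := {a | (a ∈ HH g ∧ f * a * f ∈ HH g) ∨ (f * a ∈ HH g ∧ a * f ∈ HH g)}
      one_mem' := Or.inl ⟨one_mem _, by rw [mul_one, hf2]; exact one_mem _⟩
      mul_mem' := by
        rintro a b (⟨h1, h2⟩ | ⟨h1, h2⟩) (⟨h3, h4⟩ | ⟨h3, h4⟩)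
        · exact Or.inl ⟨mul_mem h1 h3, by simpa only [mul_assoc, hff] using mul_mem h2 h4⟩
        · exact Or.inr ⟨by simpa only [mul_assoc, hff] using mul_mem h2 h3,
            by simpa only [mul_assoc] using mul_mem h1 h4⟩
        · exact Or.inr ⟨by simpa only [mul_assoc] using mul_mem h1 h3,
            by simpa only [mul_assoc, hff] using mul_mem h2 h4⟩
        · exact Or.inl ⟨by simpa only [mul_assoc, hff] using mul_mem h2 h3,
            by simpa only [mul_assoc] using mul_mem h1 h4⟩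
      inv_mem' := by
        rintro a (⟨h1, h2⟩ | ⟨h1, h2⟩)
        · exact Or.inl ⟨inv_mem h1, by simpa only [mul_inv_rev, hfi, mul_assoc] using inv_mem h2⟩
        · exact Or.inr ⟨by simpa only [mul_inv_rev, hfi] using inv_mem h2,
            by simpa only [mul_inv_rev, hfi] using inv_mem h1⟩ }
  have hfX : f ∈ X := Or.inr ⟨hf2.symm ▸ one_mem _, hf2.symm ▸ one_mem _⟩
  have hZ : InZStar 2 (⟨f, hfX⟩ : X) := by
    refine H3.zStar (orderOf_eq_prime (Subtype.ext (by simpa [pow_two] using hf2))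
      fun e => hf.ne_one h.t_ne (congrArg Subtype.val e)) fun a => ?_
    obtain ⟨j, hj⟩ := h.odd_in hf (hf.conj (a : G)) hfH (by
      rcases a.2 with ⟨h1, h2⟩ | ⟨h1, h2⟩
      · simpa only [mul_assoc] using mul_mem h2 (inv_mem h1)
      · simpa only [mul_assoc, mul_inv_rev, hfi] using mul_mem h1 (inv_mem h2))
    have h1 : (a * ⟨f, hfX⟩ * a⁻¹ * ⟨f, hfX⟩ : X) ^ (2 * j + 1) = 1 := Subtype.ext (by
      show ((a : G) * f * (a : G)⁻¹ * f) ^ (2 * j + 1) = 1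
      rw [show (a : G) * f * (a : G)⁻¹ * f = f * (f * (a * f * (a : G)⁻¹)) * f⁻¹ by rw [hff, hfi],
        conj_pow, hj]
      group)
    exact Nat.coprime_two_right.mpr (Odd.of_dvd_nat ⟨j, rfl⟩ (orderOf_dvd_of_pow_eq_one h1))
  have hchar := pPrimeCore_characteristic 2 X
  let O : Subgroup G := (pPrimeCore 2 X).map X.subtype
  have hO : Odd (Nat.card O) := by
    rw [card_map_of_injective X.subtype_injective]
    exact Nat.coprime_two_right.mp (pPrimeCore_coprime 2 X)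
  have hOH : O ≤ HH g := by
    intro a ha
    obtain ⟨j, hj⟩ := hO
    have h1 : a ^ (2 * j + 1) = 1 := by
      rw [← hj]; exact congrArg Subtype.val (pow_card_eq_one' (x := (⟨a, ha⟩ : O)))
    obtain ⟨a, -, rfl⟩ := ha
    rcases a.2 with ⟨h2, -⟩ | ⟨h2, h3⟩
    · exact h2
    · have h4 : (a : G) ^ 2 ∈ HH g := by simpa only [mul_assoc, hff, pow_two] using mul_mem h3 h2
      rw [pow_succ, pow_mul, mul_eq_one_iff_inv_eq] at h1
      exact h1 ▸ inv_mem (pow_mem h4 j)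
  have hfac : ∀ a ∈ HH g, ∃ b ∈ O, b⁻¹ * a ∈ centralizer {g 11} := by
    intro a ha
    obtain ⟨f', hf', h1⟩ := h.swap_aux ((Cj.refl _).conj a) ((Cj.refl _).conj x)
      (mul_mem (mul_mem ha htH) (inv_mem ha)) heH
    have h2 : f * f' * (a * g 11 * a⁻¹) * (f * f')⁻¹ = g 11 := by
      calc _ = f * (f' * (a * g 11 * a⁻¹) * f'⁻¹) * f⁻¹ := by group
        _ = _ := by rw [h1, ← hfe, hfi]; simp only [mul_assoc, hff, hf2, mul_one]
    have h3 : f * f' ∈ HH g :=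
      h.uniq ((Cj.refl _).conj a) (mul_mem (mul_mem ha htH) (inv_mem ha)) (h2.symm ▸ htH)
    have h4 := inv_eq_of_mul_eq_one_right (hf'.sq (h.sys.sq 11))
    have h5 : f * f' ∈ X :=
      Or.inl ⟨h3, by simpa only [mul_inv_rev, hfi, h4, hff] using inv_mem h3⟩
    have h6 : (f * f') ^ 2 ∈ O := ⟨_, hZ ⟨_, h5⟩, by
      show f * f' * f * (f * f')⁻¹ * f⁻¹ = _
      simp only [mul_inv_rev, hfi, h4, pow_two, mul_assoc, hf2, mul_one]⟩
    obtain ⟨j, hj⟩ := h.odd_in hf hf' hfH h3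
    rw [pow_succ, pow_mul, mul_eq_one_iff_eq_inv] at hj
    refine ⟨(f * f')⁻¹, hj ▸ pow_mem h6 j, mem_centralizer_singleton_iff.mpr
      (conj_eq_iff_comm.mp ?_)⟩
    simpa only [mul_assoc, mul_inv_rev, inv_inv] using h2
  have h5 : 5 ∣ Nat.card O := by
    haveI : Fact (Nat.Prime 5) := ⟨by norm_num⟩
    obtain ⟨y, hy, hy1, hy5⟩ := (h.sys.five h.nd).1
    have h1 : 5 ∣ Nat.card (HH g) := by
      rw [← orderOf_eq_prime (x := (⟨y, hy⟩ : HH g)) (Subtype.ext hy5)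
        fun e => hy1 (congrArg Subtype.val e)]
      exact orderOf_dvd_natCard _
    rw [← ((centralizer {g 11}).subgroupOf (HH g)).card_mul_index] at h1
    rcases (Nat.Prime.dvd_mul (by norm_num)).mp h1 with h2 | h2
    · obtain ⟨c, hc⟩ := exists_prime_orderOf_dvd_card' 5 h2
      have h3 := pow_orderOf_eq_one c
      rw [hc] at h3
      have h4 := h.five ((c : HH g) : G) (mem_centralizer_singleton_iff.mp c.2)
        (congrArg (fun a => ((a.1 : HH g) : G)) h3)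
      rw [show c = 1 from Subtype.ext (Subtype.ext h4), orderOf_one] at hc
      omega
    · have h3 : (centralizer {g 11}).relIndex (HH g) = (centralizer {g 11}).relIndex O := by
        rw [relIndex_eq_ncard, relIndex_eq_ncard]
        congr 1
        refine (Set.image_mono hOH).antisymm' ?_
        rintro _ ⟨x, hx, rfl⟩
        obtain ⟨b, hb, e⟩ := hfac x hx
        exact ⟨b, hb, QuotientGroup.eq.2 e⟩
      exact (h3 ▸ h2 : 5 ∣ (centralizer {g 11}).relIndex O).trans (index_dvd_card _)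
  obtain ⟨y, hy, hy1, hy5, hfy⟩ := exists_inverted hO h5 hf2
    (mem_normalizer_fintype fun _ ⟨a, ha, e⟩ =>
      ⟨_, (inferInstance : (pPrimeCore 2 X).Normal).conj_mem a ha ⟨f, hfX⟩, by rw [← e]; rfl⟩)
    (fun c hc hc5 => by
      obtain ⟨v, rfl⟩ := hf
      have h1 := h.five (v⁻¹ * c * v) (comm_of_conj hc) (by
        simpa only [inv_inv, hc5, mul_one, inv_mul_cancel] using conj_pow (a := v⁻¹) (b := c) (i := 5))
      rw [show c = v * (v⁻¹ * c * v) * v⁻¹ by group, h1]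
      group)
  exact h.no_five hf hfH (hOH hy) hy1 hy5 hfy

theorem iso : Nonempty (G ≃* Omega (ZMod 2) (quadFormPlus 4 (ZMod 2))) :=
  h.sys.iso h.nd h.eq_top

end Top

end Cfsg.Agent.H6.O8
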