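import Cfsg.Agent.H6.O8.Fin
import Mathlib.RingTheory.IntegralDomain

/-!
# Involution centralizers of shape `2^(1+8).(S₃ × S₃ × S₃)`: basic facts
-/

set_option autoImplicit false

namespace Cfsg.Agent.H6.O8

open Subgroup Cfsg.Agent.H7 Cfsg.Agent.H7.Asch
open scoped Pointwise

variable {G : Type*} [Group G]

/-- The group `S₃ × S₃ × S₃`. -/
abbrev L3 := Fin 3 → Equiv.Perm (Fin 3)

/-- The centralizer of one element. -/
abbrev C1 (s : G) : Subgroup G := centralizer {s}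

theorem mem_C1 {s x : G} : x ∈ C1 s ↔ x * s = s * x := mem_centralizer_singleton_iff

/-- The local hypothesis. -/
structure Loc (t : G) (Q : Subgroup G) (ph : G → L3) : Prop where
  tQ : t ∈ Q
  tt : t * t = 1
  t1 : t ≠ 1
  cen : ∀ q ∈ Q, q * t = t * q
  com : ∀ p ∈ Q, ∀ q ∈ Q, p * q = q * p ∨ p * q = q * p * t
  zen : ∀ q ∈ Q, (∀ p ∈ Q, p * q = q * p) → q = 1 ∨ q = t
  card : Nat.card Q = 512
  mul : ∀ a b, a * t = t * a → b * t = t * b → ph (a * b) = ph a * ph b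
  ker : ∀ c, c * t = t * c → (ph c = 1 ↔ c ∈ Q)
  surj : ∀ l, ∃ c, c * t = t * c ∧ ph c = l

/-- Equality modulo `t`. -/
def Md (t a b : G) : Prop := a = b ∨ a = b * t

theorem Md.refl {t a : G} : Md t a a := Or.inl rfl

theorem Md.symm {t a b : G} (ht : t * t = 1) (h : Md t a b) : Md t b a := by
  rcases h with rfl | rfl
  · exact Md.refl
  · exact Or.inr (by rw [mul_assoc, ht, mul_one])

theorem Md.trans {t a b c : G} (ht : t * t = 1) (h : Md t a b) (h' : Md t b c) : Md t a c := by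
  rcases h with rfl | rfl <;> rcases h' with rfl | rfl
  · exact Md.refl
  · exact Or.inr rfl
  · exact Or.inr rfl
  · exact Or.inl (by rw [mul_assoc, ht, mul_one])

theorem Md.mul {t a b c d : G} (ht : t * t = 1) (hd : d * t = t * d) (h : Md t a b)
    (h' : Md t c d) : Md t (a * c) (b * d) := by
  rcases h with rfl | rfl <;> rcases h' with rfl | rfl
  · exact Md.refl
  · exact Or.inr (mul_assoc _ _ _).symm
  · exact Or.inr (by rw [mul_assoc, ← hd, mul_assoc])
  · exact Or.inl (by rw [hd, mul_assoc, ← mul_assoc t, ht, one_mul])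

theorem Md.conj {t a b c : G} (hc : c * t = t * c) (h : Md t a b) :
    Md t (c * a * c⁻¹) (c * b * c⁻¹) := by
  rcases h with rfl | rfl
  · exact Md.refl
  · refine Or.inr ?_
    calc _ = c * b * c⁻¹ * (c * t * c⁻¹) := by group
      _ = _ := by rw [conj_eq_iff_comm.mpr hc]

theorem Md.comm {t a b c : G} (hc : c * t = t * c) (h : Md t a b) (e : c * b = b * c) :
    c * a = a * c := by
  rcases h with rfl | rfl
  · exact e
  · exact Commute.mul_right e hc

theorem Md.mem {t a b : G} {K : Subgroup G} (ht : t ∈ K) (h : Md t a b) (hb : b ∈ K) : a ∈ K := by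
  rcases h with rfl | rfl
  · exact hb
  · exact mul_mem hb ht

open Classical in
/-- The commutator form. -/
noncomputable def bb (p q : G) : ℤ := if p * q = q * p then 1 else -1

theorem bb_congr {p q p' q' : G} (h : p * q = q * p ↔ p' * q' = q' * p') : bb p q = bb p' q' := by
  unfold bb
  by_cases h1 : p * q = q * p
  · rw [if_pos h1, if_pos (h.mp h1)]
  · rw [if_neg h1, if_neg fun h2 => h1 (h.mpr h2)]

theorem bb_symm (p q : G) : bb p q = bb q p := bb_congr eq_comm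

theorem bb_eq_one {p q : G} : bb p q = 1 ↔ p * q = q * p := by
  unfold bb
  split_ifs with h <;> simp [h]

theorem bb_sq (p q : G) : bb p q * bb p q = 1 := by
  unfold bb
  split_ifs <;> rfl

theorem bb_conj (g p q : G) : bb (g * p * g⁻¹) (g * q * g⁻¹) = bb p q :=
  bb_congr ⟨fun h => by
    simpa only [mul_assoc, inv_mul_cancel_left, inv_mul_cancel, mul_one] using comm_of_conj h,
    comm_conj⟩

theorem Md.bb {t a b c : G} (ht : t * t = 1) (hc : c * t = t * c) (h : Md t a b) :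
    bb c a = bb c b := bb_congr ⟨(h.symm ht).comm hc, h.comm hc⟩

section count

variable [Finite G]

/-- The orbit of `s` under conjugation by `K`. -/
def orb (K : Subgroup G) (s : G) : Set G := (fun k => k * s * k⁻¹) '' K

omit [Finite G] in
theorem orb_card (K : Subgroup G) (s : G) :
    (orb K s).ncard * Nat.card (K ⊓ C1 s : Subgroup G) = Nat.card K := by
  have h1 : (C1 s).relIndex K = (orb K s).ncard := by
    rw [relIndex, index, ← Nat.card_coe_set_eq]
    have key : ∀ x y : G, x * s * x⁻¹ = y * s * y⁻¹ ↔ x⁻¹ * y ∈ C1 s := fun x y => by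
      rw [mem_C1, ← conj_eq_iff_comm]
      constructor
      · intro e
        calc _ = x⁻¹ * (y * s * y⁻¹) * x := by group
          _ = _ := by rw [← e]; group
      · intro e
        calc _ = x * (x⁻¹ * y * s * (x⁻¹ * y)⁻¹) * x⁻¹ := by rw [e]
          _ = _ := by group
    refine Nat.card_congr (Equiv.ofBijective (Quotient.lift
      (fun x : K => (⟨x * s * (x : G)⁻¹, x, x.2, rfl⟩ : orb K s)) fun x y e =>
        Subtype.ext ((key _ _).2 (QuotientGroup.leftRel_apply (s := (C1 s).subgroupOf K).1 e)))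
        ⟨?_, ?_⟩)
    · rintro ⟨x⟩ ⟨y⟩ e
      exact Quotient.sound (QuotientGroup.leftRel_apply.2 ((key _ _).1 (congrArg Subtype.val e)))
    · rintro ⟨_, x, hx, rfl⟩
      exact ⟨Quotient.mk _ ⟨x, hx⟩, rfl⟩
  rw [← h1, ← ((C1 s).subgroupOf K).card_mul_index, mul_comm, ← inf_subgroupOf_left,
    Nat.card_congr (subgroupOfEquivOfLe (inf_le_left : K ⊓ C1 s ≤ K)).toEquiv, inf_subgroupOf_left]
  rfl

theorem card_le_two_mul {K : Subgroup G} {s a : G} (h : ∀ k ∈ K, k * s * k⁻¹ = s ∨ k * s * k⁻¹ = a) :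
    Nat.card K ≤ 2 * Nat.card (K ⊓ C1 s : Subgroup G) := by
  rw [← orb_card K s]
  refine Nat.mul_le_mul_right _ ((Set.ncard_le_ncard (t := {s, a}) ?_).trans
    ((Set.ncard_insert_le _ _).trans (by simp)))
  rintro _ ⟨k, hk, rfl⟩
  exact h k hk

theorem half {K : Subgroup G} {a b : G} (hb : b ∈ K) (h : b * a ≠ a * b) :
    2 * Nat.card (K ⊓ C1 a : Subgroup G) ≤ Nat.card K := by
  rw [← orb_card K a]
  refine Nat.mul_le_mul_right _ ((Set.one_lt_ncard (Set.toFinite _)).mpr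
    ⟨_, ⟨1, one_mem K, rfl⟩, _, ⟨b, hb, rfl⟩, fun e => h (conj_eq_iff_comm.mp ?_)⟩)
  simpa using e.symm

theorem dbl {K : Subgroup G} {t : G} {S : Set G} (ht : t ∈ K) (hS : S ⊆ K)
    (h : ∀ x ∈ S, x * t ∉ S) : 2 * S.ncard ≤ Nat.card K ∧
      (Nat.card K ≤ 2 * S.ncard → ∀ k ∈ K, k ∈ S ∨ ∃ x ∈ S, k = x * t) := by
  have h1 : (S ∪ (· * t) '' S).ncard = 2 * S.ncard := by
    rw [Set.ncard_union_eq (Set.disjoint_right.mpr (by rintro _ ⟨x, hx, rfl⟩; exact h x hx)),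
      Set.ncard_image_of_injective _ (mul_left_injective t), two_mul]
  have h2 : S ∪ (· * t) '' S ⊆ K :=
    Set.union_subset hS (by rintro _ ⟨x, hx, rfl⟩; exact mul_mem (hS hx) ht)
  rw [← h1]
  refine ⟨Set.ncard_le_ncard h2, fun h3 k hk => ?_⟩
  rcases (Set.eq_of_subset_of_ncard_le h2 h3).ge hk with h4 | ⟨x, hx, h4⟩
  · exact Or.inl h4
  · exact Or.inr ⟨x, hx, h4.symm⟩

theorem le_of_card_le {H K : Subgroup G} (h : H ≤ K) (hc : Nat.card K ≤ Nat.card H) : K ≤ H :=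
  (eq_of_le_of_card_ge h hc).ge

theorem comm_of_sq {K : Subgroup G} (h : ∀ a ∈ K, a * a = 1) {a b : G} (ha : a ∈ K) (hb : b ∈ K) :
    a * b = b * a := by
  rw [← inv_eq_of_mul_eq_one_right (h _ (mul_mem ha hb)), mul_inv_rev,
    inv_eq_of_mul_eq_one_right (h a ha), inv_eq_of_mul_eq_one_right (h b hb)]

end count

/-- A Sylow `2`-subgroup of `S₃ × S₃ × S₃`. -/
def InT (σ l : L3) : Prop := ∀ i, l i = 1 ∨ l i = σ i

/-- A triple of transpositions. -/
def IsTr (σ : L3) : Prop := ∀ i, σ i ≠ 1 ∧ σ i * σ i = 1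

theorem L3_sq {l : L3} (h : l ^ 4 = 1) : l * l = 1 := by
  funext i
  exact (by decide : ∀ a : Equiv.Perm (Fin 3), a ^ 4 = 1 → a * a = 1) _ (congrFun h i)

theorem InT.mul {σ l l' : L3} (hσ : IsTr σ) (h : InT σ l) (h' : InT σ l') : InT σ (l * l') := by
  intro i
  rcases h i with e | e <;> rcases h' i with e' | e' <;> simp [e, e', (hσ i).2]

theorem InT.sq {σ l : L3} (hσ : IsTr σ) (h : InT σ l) : l * l = 1 := by
  funext i
  rcases h i with e | e <;> simp [e, (hσ i).2]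

theorem InT.of_norm {σ l : L3} (hσ : IsTr σ) (h : ∀ a, InT σ a → InT σ (l * a * l⁻¹)) : InT σ l :=
  fun i => (by decide : ∀ a b : Equiv.Perm (Fin 3), a ≠ 1 → (b * a * b⁻¹ = 1 ∨ b * a * b⁻¹ = a) →
    a * a = 1 → b = 1 ∨ b = a) _ _ (hσ i).1 (h σ (fun _ => Or.inr rfl) i) (hσ i).2

theorem two_sub (P : Subgroup L3) (h : ∀ l ∈ P, l * l = 1) : ∃ σ, IsTr σ ∧ (∀ l ∈ P, InT σ l) ∧
    Nat.card P ≤ 8 ∧ (8 ≤ Nat.card P → ∀ l, InT σ l → l ∈ P) := by
  classical
  have h1 : ∀ i, ∃ a : Equiv.Perm (Fin 3), (a ≠ 1 ∧ a * a = 1) ∧ ∀ l ∈ P, l i = 1 ∨ l i = a := by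
    intro i
    by_cases h2 : ∃ l ∈ P, l i ≠ 1
    · obtain ⟨l, hl, h3⟩ := h2
      exact ⟨l i, ⟨h3, congrFun (h l hl) i⟩, fun l' hl' =>
        (by decide : ∀ a b : Equiv.Perm (Fin 3), a ≠ 1 → a * a = 1 → b * b = 1 →
          a * b * (a * b) = 1 → b = 1 ∨ b = a) _ _ h3 (congrFun (h l hl) i) (congrFun (h l' hl') i)
          (congrFun (h _ (mul_mem hl hl')) i)⟩
    · exact ⟨Equiv.swap 0 1, by decide, fun l hl => Or.inl (not_not.mp fun h3 => h2 ⟨l, hl, h3⟩)⟩
  choose σ h2 h3 using h1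
  have h4 : (P : Set L3) ⊆ Fintype.piFinset fun i => ({1, σ i} : Finset _) := by
    intro l hl
    simpa using fun i => h3 i l hl
  have h5 : ((Fintype.piFinset fun i => ({1, σ i} : Finset _) : Finset L3) : Set L3).ncard = 8 := by
    rw [Set.ncard_coe_finset, Fintype.card_piFinset]
    simp [Finset.card_pair (h2 _).1.symm]
  refine ⟨σ, h2, fun l hl i => h3 i l hl, h5 ▸ Set.ncard_le_ncard h4, fun h6 l hl => ?_⟩
  exact (Set.eq_of_subset_of_ncard_le h4 (h5 ▸ h6)).ge (by simpa [InT] using hl)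

namespace Loc

variable {t : G} {Q : Subgroup G} {ph : G → L3} (h : Loc t Q ph)
include h

theorem sq {q : G} (hq : q ∈ Q) : q * q = 1 ∨ q * q = t := by
  refine h.zen _ (Q.mul_mem hq hq) fun p hp => ?_
  rcases h.com p hp q hq with e | e
  · exact (Commute.mul_right e e).eq
  · calc p * (q * q) = p * q * q := by group
      _ = q * (p * q) * t := by rw [e, mul_assoc, ← h.cen q hq, ← e]; group
      _ = q * q * p * (t * t) := by rw [e]; group
      _ = _ := by rw [h.tt, mul_one]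

theorem pow4 {q : G} (hq : q ∈ Q) : q ^ 4 = 1 := by
  rw [show q ^ 4 = q * q * (q * q) by simp only [pow_succ, pow_zero, one_mul, mul_assoc]]
  rcases h.sq hq with e | e <;> rw [e]
  · exact one_mul _
  · exact h.tt

/-- The homomorphism to `S₃ × S₃ × S₃`. -/
def hom : C1 t →* L3 := MonoidHom.mk' (fun c => ph c) fun a b =>
  h.mul a b (mem_C1.mp a.2) (mem_C1.mp b.2)

theorem ph_one : ph 1 = 1 := map_one h.hom

theorem ph_inv {c : G} (hc : c * t = t * c) : ph c⁻¹ = (ph c)⁻¹ :=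
  map_inv h.hom ⟨c, mem_C1.mpr hc⟩

theorem ph_pow {c : G} (hc : c * t = t * c) (n : ℕ) : ph (c ^ n) = ph c ^ n :=
  map_pow h.hom ⟨c, mem_C1.mpr hc⟩ n

theorem ph_Q {q : G} (hq : q ∈ Q) : ph q = 1 := (h.ker q (h.cen q hq)).mpr hq

theorem ph_conj {c a : G} (hc : c * t = t * c) (ha : a * t = t * a) :
    ph (c * a * c⁻¹) = ph c * ph a * (ph c)⁻¹ := by
  rw [h.mul _ _ (Commute.mul_left hc ha) (Commute.inv_left hc), h.mul _ _ hc ha, h.ph_inv hc]

theorem norm {c q : G} (hc : c * t = t * c) (hq : q ∈ Q) : c * q * c⁻¹ ∈ Q := by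
  rw [← h.ker _ (((Commute.mul_left hc (h.cen q hq)).mul_left (Commute.inv_left hc))),
    h.ph_conj hc (h.cen q hq), h.ph_Q hq, mul_one, mul_inv_cancel]

theorem div_mem {a b : G} (ha : a * t = t * a) (hb : b * t = t * b) (e : ph a = ph b) :
    a * b⁻¹ ∈ Q := by
  rw [← h.ker _ (Commute.mul_left ha (Commute.inv_left hb)), h.mul _ _ ha (Commute.inv_left hb),
    h.ph_inv hb, e, mul_inv_cancel]

theorem md_conj {q x : G} (hq : q ∈ Q) (hx : x ∈ Q) : Md t (q * x * q⁻¹) x := by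
  rcases h.com q hq x hx with e | e
  · exact Or.inl (conj_eq_iff_comm.mpr e)
  · exact Or.inr (by rw [e, mul_assoc x, h.cen q hq]; group)

theorem md_of_ph {a b x : G} (ha : a * t = t * a) (hb : b * t = t * b) (e : ph a = ph b)
    (hx : x ∈ Q) : Md t (a * x * a⁻¹) (b * x * b⁻¹) := by
  simpa only [mul_assoc, mul_inv_rev, inv_inv, inv_mul_cancel_left] using
    h.md_conj (h.div_mem ha hb e) (h.norm hb hx)

theorem conj (g : G) : Loc (g * t * g⁻¹) (Q.map (MulAut.conj g).toMonoidHom)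
    fun x => ph (g⁻¹ * x * g) := by
  refine ⟨⟨t, h.tQ, rfl⟩, by rw [conj_mul, h.tt]; group, fun e => h.t1 (conj_eq_one_iff.mp e), ?_,
    ?_, ?_, ?_, fun a b ha hb => ?_, fun c hc => ?_, fun l => ?_⟩
  · rintro _ ⟨q, hq, rfl⟩
    exact comm_conj (h.cen q hq)
  · rintro _ ⟨p, hp, rfl⟩ _ ⟨q, hq, rfl⟩
    refine (h.com p hp q hq).imp comm_conj fun e => ?_
    show g * p * g⁻¹ * (g * q * g⁻¹) = g * q * g⁻¹ * (g * p * g⁻¹) * _
    rw [conj_mul, conj_mul, conj_mul, e]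
  · rintro _ ⟨q, hq, rfl⟩ e
    refine (h.zen q hq fun p hp => ?_).imp (fun e => by simp [e]) fun e => by simp [e]
    exact (MulAut.conj g).injective (by rw [map_mul, map_mul]; exact e _ ⟨p, hp, rfl⟩)
  · rw [card_map_of_injective (MulAut.conj g).injective, h.card]
  · show ph _ = ph _ * ph _
    rw [← h.mul _ _ (comm_of_conj ha) (comm_of_conj hb)]
    congr 1
    group
  · show ph _ = 1 ↔ _
    rw [h.ker _ (comm_of_conj hc)]
    exact ⟨fun e => ⟨_, e, by simp [mul_assoc]⟩, by rintro ⟨q, hq, rfl⟩; simpa [mul_assoc] using hq⟩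
  · obtain ⟨c, hc, e⟩ := h.surj l
    exact ⟨_, comm_conj hc, by simpa [mul_assoc] using e⟩

theorem twist (l : L3) : Loc t Q fun x => l * ph x * l⁻¹ := by
  refine ⟨h.tQ, h.tt, h.t1, h.cen, h.com, h.zen, h.card, fun a b ha hb => ?_, fun c hc => ?_,
    fun l' => ?_⟩
  · show _ = _ * _
    rw [h.mul a b ha hb, conj_mul]
  · rw [← h.ker c hc]
    exact conj_eq_one_iff
  · obtain ⟨c, hc, e⟩ := h.surj (l⁻¹ * l' * l)
    exact ⟨c, hc, by rw [e]; group⟩

theorem anti {p q : G} (hp : p ∈ Q) (hq : q ∈ Q) (e : p * q ≠ q * p) : p * q * p⁻¹ = q * t :=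
  (h.md_conj hp hq).resolve_left fun e' => e (conj_eq_iff_comm.mp e')

theorem bb_mul {p q r : G} (hp : p ∈ Q) (hq : q ∈ Q) (hr : r ∈ Q) :
    bb p (q * r) = bb p q * bb p r := by
  by_cases h1 : p * q = q * p <;> by_cases h2 : p * r = r * p
  · rw [bb_eq_one.mpr h1, bb_eq_one.mpr h2, bb_eq_one.mpr (Commute.mul_right h1 h2)]; rfl
  · rw [bb_eq_one.mpr h1, one_mul, bb, bb, if_neg h2, if_neg]
    exact fun e => h2 (by simpa using ((Commute.inv_right h1).mul_right e).eq)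
  · rw [bb_eq_one.mpr h2, mul_one, bb, bb, if_neg h1, if_neg]
    exact fun e => h1 (by simpa using (Commute.mul_right e (Commute.inv_right h2)).eq)
  · rw [bb, bb, bb, if_neg h1, if_neg h2, if_pos]
    · rfl
    · rw [← conj_eq_iff_comm, ← conj_mul, h.anti hp hq h1, h.anti hp hr h2, h.cen r hr, mul_assoc,
        ← mul_assoc t, h.tt, one_mul]

theorem exists_anti {s : G} (hs : s ∈ Q) (h1 : s ≠ 1) (h2 : s ≠ t) :
    ∃ x ∈ Q, x * s * x⁻¹ = s * t := by
  by_contra h3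
  exact (h.zen s hs fun p hp => not_not.mp fun e => h3 ⟨p, hp, h.anti hp hs e⟩).elim h1 h2

theorem perp {s d : G} (hs : s ∈ Q) (hd : d ∈ Q) (e : ∀ p ∈ Q, p * s = s * p → p * d = d * p) :
    Md t d 1 ∨ Md t d s := by
  by_cases h1 : ∀ p ∈ Q, p * d = d * p
  · exact Or.inl ((h.zen d hd h1).imp_right fun e => by rw [e, one_mul])
  push Not at h1
  obtain ⟨p, hp, h1⟩ := h1
  have h2 : ∀ q ∈ Q, bb q d = bb q s := by
    intro q hq
    by_cases h3 : q * s = s * q
    · rw [bb_eq_one.mpr h3, bb_eq_one.mpr (e q hq h3)]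
    · have h4 : bb d (q * p) = 1 := by
        rw [bb_symm, bb_eq_one]
        refine e _ (mul_mem hq hp) (bb_eq_one.mp ?_)
        rw [bb_symm, h.bb_mul hs hq hp, bb, bb, if_neg (Ne.symm h3),
          if_neg fun h5 => h1 (e p hp h5.symm)]
        rfl
      rw [h.bb_mul hd hq hp, bb_symm d p, bb, bb, if_neg h1] at h4
      rw [bb, bb, if_neg h3, if_neg]
      intro h5
      rw [if_pos h5.symm] at h4
      omega
  refine Or.inr ((h.zen _ (mul_mem (inv_mem hs) hd) fun q hq => bb_eq_one.mp ?_).imp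
    (fun e => (inv_mul_eq_one.mp e).symm) fun e => inv_mul_eq_iff_eq_mul.mp e)
  have h3 := h.bb_mul hq hs (mul_mem (inv_mem hs) hd)
  rw [mul_inv_cancel_left, h2 q hq] at h3
  rw [← one_mul (bb q _), ← bb_sq q s, mul_assoc, ← h3]

variable [Finite G]

theorem card_cent {R : Subgroup G} (hR : R ≤ Q) :
    Nat.card R * Nat.card (Q ⊓ centralizer (R : Set G) : Subgroup G) ≤ 1024 := by
  classical
  have := Fintype.ofFinite G
  have key : ∀ K : Subgroup G, K ≤ Q → ∀ p ∈ Q, ∑ k : K, bb p k =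
      if ∀ k ∈ K, p * k = k * p then (Nat.card K : ℤ) else 0 := by
    intro K hK p hp
    let f : K →* ℤ :=
      { toFun := fun k => bb p k
        map_one' := bb_eq_one.mpr (by simp)
        map_mul' := fun a b => h.bb_mul hp (hK a.2) (hK b.2) }
    split_ifs with h1
    · rw [Finset.sum_congr rfl fun (k : K) _ => bb_eq_one.mpr (h1 k k.2)]
      simp
    · refine sum_hom_units_eq_zero f fun e => h1 fun k hk => bb_eq_one.mp ?_
      exact DFunLike.congr_fun e ⟨k, hk⟩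
  have h1 : ∑ q : Q, ∑ r : R, bb (q : G) r = ∑ r : R, ∑ q : Q, bb (r : G) q := by
    rw [Finset.sum_comm]
    simp only [bb_symm]
  rw [Finset.sum_congr rfl fun (q : Q) _ => key R hR q q.2,
    Finset.sum_congr rfl fun (r : R) _ => key Q le_rfl r (hR r.2), ← Finset.sum_filter,
    ← Finset.sum_filter, Finset.sum_const, Finset.sum_const, h.card] at h1
  have h2 : (Finset.univ.filter fun r : R => ∀ k ∈ Q, (r : G) * k = k * r).card ≤ 2 := by
    refine (Finset.card_le_card_of_injOn (t := ({1, t} : Finset G)) (fun r : R => (r : G))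
      (fun r hr => ?_) fun a _ b _ e => Subtype.ext e).trans Finset.card_le_two
    simpa using h.zen r (hR r.2) fun p hp => ((Finset.mem_filter.mp hr).2 p hp).symm
  have h3 : (Finset.univ.filter fun q : Q => ∀ k ∈ R, (q : G) * k = k * q).card =
      Nat.card (Q ⊓ centralizer (R : Set G) : Subgroup G) := by
    rw [← Fintype.card_subtype, ← Nat.card_eq_fintype_card]
    exact Nat.card_congr ⟨fun q => ⟨q.1, q.1.2, fun k hk => (q.2 k hk).symm⟩,
      fun q => ⟨⟨q, q.2.1⟩, fun k hk => (q.2.2 k hk).symm⟩, fun _ => rfl, fun _ => rfl⟩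
  rw [h3, nsmul_eq_mul, nsmul_eq_mul] at h1
  norm_cast at h1
  rw [mul_comm, h1]
  omega

theorem abel {R : Subgroup G} (hR : R ≤ Q) (ha : ∀ a ∈ R, ∀ b ∈ R, a * b = b * a) :
    Nat.card R ≤ 32 ∧ (32 ≤ Nat.card R → ∀ q ∈ Q, (∀ r ∈ R, r * q = q * r) → q ∈ R) := by
  have h1 := h.card_cent hR
  have h2 : R ≤ Q ⊓ centralizer (R : Set G) := le_inf hR fun a ha' b hb => ha b hb a ha'
  have h3 := card_le_of_le h2
  refine ⟨by nlinarith, fun h4 q hq e => le_of_card_le h2 (by nlinarith) ⟨hq, e⟩⟩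

theorem syl {A : Subgroup G} (hA : ∀ a ∈ A, a * t = t * a) (h4 : ∀ a ∈ A, a ^ 4 = 1) :
    ∃ σ, IsTr σ ∧ (∀ a ∈ A, InT σ (ph a)) ∧ Nat.card A ≤ 8 * Nat.card (A ⊓ Q : Subgroup G) ∧
      (8 * Nat.card (A ⊓ Q : Subgroup G) ≤ Nat.card A → ∀ l, InT σ l → ∃ a ∈ A, ph a = l) := by
  let f : A →* L3 := h.hom.comp (inclusion fun a ha => mem_C1.mpr (hA a ha))
  obtain ⟨σ, h1, h2, h3, h5⟩ := two_sub f.range (by
    rintro _ ⟨a, rfl⟩
    exact L3_sq (by rw [← map_pow, show a ^ 4 = 1 from Subtype.ext (h4 a a.2), map_one]))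
  have h6 : Nat.card (A ⊓ Q : Subgroup G) * Nat.card f.range = Nat.card A := by
    rw [← f.ker.card_mul_index, index_ker]
    congr 1
    exact Nat.card_congr ⟨fun a => ⟨⟨a, a.2.1⟩, h.ph_Q a.2.2⟩,
      fun a => ⟨a.1, a.1.2, (h.ker _ (hA _ a.1.2)).mp a.2⟩, fun _ => rfl, fun _ => rfl⟩
  have h7 : 0 < Nat.card (A ⊓ Q : Subgroup G) := Nat.card_pos
  refine ⟨σ, h1, fun a ha => h2 _ ⟨⟨a, ha⟩, rfl⟩, by nlinarith, fun h8 l hl => ?_⟩
  obtain ⟨a, e⟩ := h5 (by nlinarith) l hl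
  exact ⟨a, a.2, e⟩

end Loc

end Cfsg.Agent.H6.O8
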