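import Cfsg.Agent.H6.O8.Loc1

/-!
# The weakly closed case does not occur
-/

set_option autoImplicit false

namespace Cfsg.Agent.H6.O8

open Subgroup Cfsg.Agent.H7 Cfsg.Agent.H7.Asch

variable {G : Type*} [Group G]

/-- A commuting pair of conjugates, each weakly closed in its extraspecial group. -/
structure WP (t : G) (Q : Subgroup G) (ph : G → L3) (s : G) (Q' : Subgroup G) (ph' : G → L3) :
    Prop where
  a : Loc t Q ph
  b : Loc s Q' ph'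
  c : s * t = t * s
  ne : s ≠ t
  D : Cj t s
  wa : ∀ q ∈ Q, Cj t q → q = t
  wb : ∀ q ∈ Q', Cj s q → q = s

namespace WP

variable {t s : G} {Q Q' : Subgroup G} {ph ph' : G → L3} (h : WP t Q ph s Q' ph')
include h

theorem symm : WP s Q' ph' t Q ph := ⟨h.b, h.a, h.c.symm, h.ne.symm, h.D.symm, h.wb, h.wa⟩

theorem sq {r : G} (hr : r ∈ Q ⊓ C1 s) : r * r = 1 := by
  have h1 := mem_C1.mp hr.2
  refine (h.a.sq hr.1).resolve_right fun e => h.ne (h.wb t ?_ h.D.symm).symm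
  rw [← h.b.ker t h.c.symm, ← e, h.b.mul _ _ h1 h1]
  exact L3_sq (by rw [← h.b.ph_pow h1, h.a.pow4 hr.1, h.b.ph_one])

theorem one_of {d : G} (hd : d ∈ Q') (e : Cj s (d * s)) : d = 1 := by
  simpa using h.wb _ (mul_mem hd h.b.tQ) e

theorem orb_mem {x : G} (hx : x ∈ orb Q s) : x * s ∈ Q ∧ Md t (x * s * s * (x * s)⁻¹) s := by
  obtain ⟨u, hu, rfl⟩ := hx
  have h1 : u * s * u⁻¹ * s ∈ Q := by
    simpa only [mul_assoc, inv_eq_of_mul_eq_one_right h.b.tt] using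
      mul_mem hu (h.a.norm h.c (inv_mem hu))
  refine ⟨h1, ?_⟩
  have h2 : u * s * u⁻¹ * s * s * (u * s * u⁻¹ * s)⁻¹ = u * s * u⁻¹ * s * (u * s * u⁻¹ * s) * s := by
    simp only [mul_assoc, mul_inv_rev, inv_inv, inv_eq_of_mul_eq_one_right h.b.tt, h.b.tt, mul_one]
  show Md t (u * s * u⁻¹ * s * s * (u * s * u⁻¹ * s)⁻¹) s
  rw [h2]
  rcases h.a.sq h1 with e | e <;> rw [e]
  · exact Or.inl (one_mul s)
  · exact Or.inr h.c.symm

variable [Finite G]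

theorem abel : Nat.card (Q ⊓ C1 s : Subgroup G) ≤ 32 ∧ (32 ≤ Nat.card (Q ⊓ C1 s : Subgroup G) →
    ∀ q ∈ Q, (∀ r ∈ Q ⊓ C1 s, r * q = q * r) → q ∈ Q ⊓ C1 s) :=
  h.a.abel inf_le_left fun _ ha _ hb => comm_of_sq (fun _ => h.sq) ha hb

theorem syl : ∃ σ, IsTr σ ∧ (∀ a ∈ Q ⊓ C1 s, InT σ (ph' a)) ∧
    Nat.card (Q ⊓ C1 s : Subgroup G) ≤ 8 * Nat.card (Q ⊓ C1 s ⊓ Q' : Subgroup G) ∧
      (8 * Nat.card (Q ⊓ C1 s ⊓ Q' : Subgroup G) ≤ Nat.card (Q ⊓ C1 s : Subgroup G) →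
        ∀ l, InT σ l → ∃ a ∈ Q ⊓ C1 s, ph' a = l) :=
  h.b.syl (fun _ ha => mem_C1.mp ha.2) fun _ ha => h.a.pow4 ha.1

theorem no_st {q : G} (hq : q ∈ Q) : q * s * q⁻¹ ≠ s * t := by
  intro e
  have key : ∀ K : Subgroup G, Q ⊓ C1 s ≤ K → (∀ x ∈ orb Q s, x * s ∈ K) →
      Nat.card (Q ⊓ C1 s ⊓ Q' : Subgroup G) * (orb Q s).ncard ≤ Nat.card K := by
    intro K h1 h2
    rw [← Nat.card_coe_set_eq, ← Nat.card_prod]
    refine Nat.card_le_card_of_injective (fun p : (Q ⊓ C1 s ⊓ Q' : Subgroup G) × orb Q s =>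
      (⟨p.1 * (p.2 * s), mul_mem (h1 p.1.2.1) (h2 _ p.2.2)⟩ : K)) ?_
    rintro ⟨⟨d, hd⟩, _, u, hu, rfl⟩ ⟨⟨d', hd'⟩, _, v, hv, rfl⟩ e1
    have e2 : d * (u * s * u⁻¹ * s) = d' * (v * s * v⁻¹ * s) := congrArg Subtype.val e1
    have e3 : u⁻¹ * v * s * (u⁻¹ * v)⁻¹ = u⁻¹ * (d'⁻¹ * d) * u⁻¹⁻¹ * s := by
      calc _ = u⁻¹ * d'⁻¹ * (d' * (v * s * v⁻¹ * s)) * s⁻¹ * u := by group
        _ = _ := by rw [← e2]; group
    have hδ := mul_mem (inv_mem hd') hd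
    have e4 : d'⁻¹ * d = 1 := by
      refine h.one_of hδ.2 ?_
      rcases h.a.md_conj (inv_mem hu) hδ.1.1 with e4 | e4 <;> rw [e4] at e3
      · exact ⟨_, e3⟩
      · refine ⟨u⁻¹ * v * q, ?_⟩
        calc _ = u⁻¹ * v * (q * s * q⁻¹) * (u⁻¹ * v)⁻¹ := by group
          _ = u⁻¹ * v * s * (u⁻¹ * v)⁻¹ * (u⁻¹ * v * t * (u⁻¹ * v)⁻¹) := by rw [e]; group
          _ = _ := by
            rw [e3, conj_eq_iff_comm.mpr (h.a.cen _ (mul_mem (inv_mem hu) hv)), mul_assoc _ s, h.c,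
              mul_assoc _ t, ← mul_assoc t, h.a.tt, one_mul]
    obtain rfl := inv_mul_eq_one.mp e4
    exact Prod.ext rfl (Subtype.ext (mul_right_cancel (mul_left_cancel e2)))
  let K : Subgroup G :=
    { carrier := {k | k ∈ Q ∧ Md t (k * s * k⁻¹) s}
      one_mem' := ⟨one_mem _, Or.inl (by group)⟩
      mul_mem' := fun {a b} ha hb => ⟨mul_mem ha.1 hb.1, by
        simpa only [mul_assoc, mul_inv_rev] using (hb.2.conj (h.a.cen a ha.1)).trans h.a.tt ha.2⟩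
      inv_mem' := fun {a} ha => ⟨inv_mem ha.1, by
        simpa only [mul_assoc, inv_inv, inv_mul_cancel_left, inv_mul_cancel, mul_one] using
          (ha.2.conj (h.a.cen _ (inv_mem ha.1))).symm h.a.tt⟩ }
  have h1 := key K (fun r hr => ⟨hr.1, Or.inl (conj_eq_iff_comm.mpr (mem_C1.mp hr.2))⟩)
    fun x hx => h.orb_mem hx
  have h2 : Nat.card K ≤ 2 * Nat.card (Q ⊓ C1 s : Subgroup G) :=
    (card_le_two_mul (K := K) fun k hk => hk.2).trans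
      (Nat.mul_le_mul_left _ (card_le_of_le (inf_le_inf_right _ fun k hk => hk.1)))
  have h3 := orb_card Q s
  rw [h.a.card] at h3
  obtain ⟨-, -, -, h4, -⟩ := h.syl
  obtain ⟨h5, h6⟩ := h.abel
  have h7 : 32 ≤ Nat.card (Q ⊓ C1 s : Subgroup G) := by nlinarith
  have h8 := key _ le_rfl fun x hx => h6 h7 _ (h.orb_mem hx).1 fun r hr => by
    obtain ⟨u, hu, rfl⟩ := hx
    refine Commute.mul_right ?_ (mem_C1.mp hr.2)
    have := comm_conj (g := u) ((h.a.md_conj (inv_mem hu) hr.1).comm h.c (mem_C1.mp hr.2).symm)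
    show r * _ = _ * r
    simpa only [mul_assoc, inv_inv, mul_inv_cancel_left, mul_inv_cancel, mul_one] using this.symm
  rw [le_antisymm h5 h7] at *
  nlinarith

theorem main : Nat.card (Q ⊓ C1 s : Subgroup G) = 32 ∧
    ∀ r ∈ Q ⊓ C1 s, ∃ u ∈ Q, Md t (u * s * u⁻¹) (r * s) := by
  have h1 := dbl (K := Q ⊓ C1 s) (S := (· * s) '' orb Q s) (t := t) ⟨h.a.tQ, mem_C1.mpr h.c.symm⟩
    (by
      rintro _ ⟨x, hx, rfl⟩
      exact ⟨(h.orb_mem hx).1, mem_C1.mpr (conj_eq_iff_comm.mp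
        ((h.orb_mem hx).2.resolve_right (h.no_st (h.orb_mem hx).1)))⟩)
    (by
      rintro _ ⟨_, ⟨u, hu, rfl⟩, rfl⟩ ⟨_, ⟨v, hv, rfl⟩, e⟩
      refine h.no_st (mul_mem (inv_mem hu) hv) ?_
      have e1 : v * s * v⁻¹ * s = u * s * u⁻¹ * s * t := e
      rw [mul_assoc _ s t, h.c, ← mul_assoc, mul_left_inj] at e1
      calc _ = u⁻¹ * (v * s * v⁻¹) * u := by group
        _ = s * (u⁻¹ * t * u⁻¹⁻¹) := by rw [e1]; group
        _ = _ := by rw [conj_eq_iff_comm.mpr (h.a.cen _ (inv_mem hu))])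
  rw [Set.ncard_image_of_injective _ (mul_left_injective s)] at h1
  have h2 := orb_card Q s
  rw [h.a.card] at h2
  have h3 := h.abel.1
  have h4 : 32 ≤ Nat.card (Q ⊓ C1 s : Subgroup G) := by nlinarith [h1.1]
  have h5 := le_antisymm h3 h4
  refine ⟨h5, fun r hr => ?_⟩
  rw [h5] at h2
  rcases h1.2 (by omega) r hr with ⟨_, ⟨u, hu, rfl⟩, rfl⟩ | ⟨_, ⟨_, ⟨u, hu, rfl⟩, rfl⟩, rfl⟩
  · exact ⟨u, hu, Or.inl (by simp only [mul_assoc, h.b.tt, mul_one])⟩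
  · refine ⟨u, hu, Md.symm h.a.tt (Or.inr ?_)⟩
    show u * s * u⁻¹ * s * t * s = _
    rw [mul_assoc _ t, ← h.c, ← mul_assoc, mul_assoc _ s s, h.b.tt, mul_one]

theorem exists_u {d : G} (hd : d ∈ Q ⊓ Q') (h1 : d ≠ 1) : ∃ u ∈ Q, u * s * u⁻¹ = d * s * t := by
  obtain ⟨u, hu, e | e⟩ := h.main.2 d ⟨hd.1, mem_C1.mpr (h.b.cen d hd.2)⟩
  · exact absurd (h.one_of hd.2 ⟨u, e⟩) h1
  · exact ⟨u, hu, e⟩

theorem u_spec {d u : G} (hd : d ∈ Q ⊓ Q') (hu : u ∈ Q) (e : u * s * u⁻¹ = d * s * t) :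
    u * d * u⁻¹ = d ∧ ∀ d' ∈ Q ⊓ Q', d' ≠ 1 → d' ≠ d → u * d' * u⁻¹ = d' * t := by
  have hut := conj_eq_iff_comm.mpr (h.a.cen u hu)
  have hd2 := h.sq ⟨hd.1, mem_C1.mpr (h.b.cen d hd.2)⟩
  have key : ∀ d', u * (d' * s * t) * u⁻¹ = u * d' * u⁻¹ * d * s := fun d' => by
    rw [← conj_mul, ← conj_mul, e, hut]
    simp only [mul_assoc, h.a.tt, mul_one]
  constructor
  · have h1 : u * (u * s * u⁻¹) * u⁻¹ = s := by
      calc _ = u * u * s * (u * u)⁻¹ := by group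
        _ = s := conj_eq_iff_comm.mpr (by
          rcases h.a.sq hu with e1 | e1 <;> rw [e1]
          · group
          · exact h.c.symm)
    rw [e, key, mul_eq_right] at h1
    rw [eq_inv_of_mul_eq_one_left h1, inv_eq_of_mul_eq_one_right hd2]
  · intro d' hd' h1 h2
    refine (h.a.md_conj hu hd'.1).resolve_left fun e1 => h2 ?_
    obtain ⟨v, -, e2⟩ := h.exists_u hd' h1
    have h3 := h.one_of (mul_mem hd'.2 hd.2) (by
      have := (Cj.refl s).conj (u * v)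
      rwa [show u * v * s * (u * v)⁻¹ = u * (v * s * v⁻¹) * u⁻¹ by group, e2, key, e1] at this)
    rw [eq_inv_of_mul_eq_one_left h3, inv_eq_of_mul_eq_one_right hd2]

theorem card_D : Nat.card (Q ⊓ C1 s ⊓ Q' : Subgroup G) ≤ 4 ∧
    ∃ d ∈ Q ⊓ Q', ∃ d' ∈ Q ⊓ Q', d ≠ 1 ∧ d' ≠ 1 ∧ d' ≠ d := by
  obtain ⟨-, -, -, h1, -⟩ := h.syl
  rw [h.main.1] at h1
  have key : ∀ (K : Subgroup G) (d : G), (∀ k ∈ K, k = 1 ∨ k = d) → Nat.card K ≤ 2 := fun K d e =>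
    (Set.ncard_le_ncard (s := (K : Set G)) (t := {1, d}) fun k hk => e k hk).trans ((Set.ncard_insert_le _ _).trans (by simp))
  obtain ⟨d, hd, h2⟩ : ∃ d ∈ Q ⊓ C1 s ⊓ Q', d ≠ 1 := by
    by_contra h2
    have := key _ 1 fun k hk => Or.inl (not_not.mp fun e => h2 ⟨k, hk, e⟩)
    omega
  obtain ⟨d', hd', h3⟩ : ∃ d' ∈ Q ⊓ C1 s ⊓ Q', d' ≠ 1 ∧ d' ≠ d := by
    by_contra h3
    have := key _ d fun k hk => not_not.mp fun e => h3 ⟨k, hk, not_or.mp e⟩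
    omega
  refine ⟨?_, d, ⟨hd.1.1, hd.2⟩, d', ⟨hd'.1.1, hd'.2⟩, h2, h3⟩
  obtain ⟨u, hu, e⟩ := h.exists_u ⟨hd.1.1, hd.2⟩ h2
  have h4 := card_le_two_mul (K := Q ⊓ C1 s ⊓ Q') fun k hk => h.a.md_conj hk.1.1 hu
  have h5 := key (Q ⊓ C1 s ⊓ Q' ⊓ C1 u) d fun k hk => not_not.mp fun e1 => h.a.t1 (by
    have := (h.u_spec ⟨hd.1.1, hd.2⟩ hu e).2 k ⟨hk.1.1.1, hk.1.2⟩ (not_or.mp e1).1 (not_or.mp e1).2
    rwa [conj_eq_iff_comm.mpr (mem_C1.mp hk.2).symm, left_eq_mul] at this)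
  omega

theorem pow8 {g : G} (h1 : g * s = s * g) (h2 : g * t = t * g) : g ^ 8 = 1 := by
  obtain ⟨σ, h3, h4, -, h5⟩ := h.syl
  have h6 : InT σ (ph' g) := InT.of_norm h3 fun l hl => by
    obtain ⟨a, ha, rfl⟩ := h5 (by have := h.card_D.1; have := h.main.1; omega) l hl
    rw [← h.b.ph_conj h1 (mem_C1.mp ha.2)]
    exact h4 _ ⟨h.a.norm h2 ha.1,
      (C1 s).mul_mem (mul_mem (mem_C1.mpr h1) ha.2) (inv_mem (mem_C1.mpr h1))⟩
  have h7 := h.b.pow4 ((h.b.ker (g * g) (Commute.mul_left h1 h1)).mp (by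
    rw [h.b.mul _ _ h1 h1, h6.sq h3]))
  rwa [← pow_two, ← pow_mul] at h7

theorem swap {d d' u : G} (hd : d ∈ Q ⊓ Q') (hd' : d' ∈ Q ⊓ Q') (h1 : d ≠ 1) (h2 : d' ≠ 1)
    (h3 : d' ≠ d) (hu : u ∈ Q) (e : u * s * u⁻¹ = d * s * t) :
    u * (d * s * t) * u⁻¹ = s ∧ u * (d' * s * t) * u⁻¹ = d * d' * s * t ∧
      u * (d * d' * s * t) * u⁻¹ = d' * s * t := by
  obtain ⟨h4, h5⟩ := h.u_spec hd hu e
  have hut := conj_eq_iff_comm.mpr (h.a.cen u hu)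
  have hR : ∀ d ∈ Q ⊓ Q', d ∈ Q ⊓ C1 s := fun d hd => ⟨hd.1, mem_C1.mpr (h.b.cen d hd.2)⟩
  have hd2 := h.sq (hR d hd)
  have hc := comm_of_sq (fun _ => h.sq) (hR d hd) (hR d' hd')
  have h6 := h5 d' hd' h2 h3
  have h7 : d' * t * (d * s * t) * t = d * d' * s * t := by
    rw [mul_assoc _ _ t, mul_assoc _ t t, h.a.tt, mul_one, hc, mul_assoc d', ← mul_assoc t,
      ← h.a.cen d hd.1, mul_assoc d, ← h.c]
    group
  refine ⟨?_, ?_, ?_⟩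
  · rw [← conj_mul, ← conj_mul, e, h4, hut, mul_assoc, mul_assoc _ t, h.a.tt, mul_one, ← mul_assoc,
      hd2, one_mul]
  · rw [← conj_mul, ← conj_mul, e, h6, hut, h7]
  · rw [← conj_mul, ← conj_mul, ← conj_mul, e, h4, h6, hut, mul_assoc d, mul_assoc d, h7,
      mul_assoc d, mul_assoc d, ← mul_assoc, ← mul_assoc, ← mul_assoc, hd2, one_mul]

end WP

theorem Loc.wp {t : G} {Q : Subgroup G} {ph : G → L3} (h : Loc t Q ph)
    (w : ∀ q ∈ Q, Cj t q → q = t) {a b : G} (ha : Cj t a) (hb : Cj t b) (hc : b * a = a * b)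
    (hne : b ≠ a) : ∃ Q1 ph1 Q2 ph2, WP a Q1 ph1 b Q2 ph2 := by
  have key : ∀ g : G, ∀ q ∈ Q.map (MulAut.conj g).toMonoidHom, Cj (g * t * g⁻¹) q →
      q = g * t * g⁻¹ := by
    rintro g _ ⟨q, hq, rfl⟩ e
    rw [w q hq (((Cj.refl t).conj g).trans e).of_conj]
    rfl
  have hab := ha.symm.trans hb
  obtain ⟨x, rfl⟩ := ha
  obtain ⟨y, rfl⟩ := hb
  exact ⟨_, _, _, _, h.conj x, h.conj y, hc, hne, hab, key x, key y⟩

theorem Loc.isolated [Finite G] {t : G} {Q : Subgroup G} {ph : G → L3} (h : Loc t Q ph)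
    (w : ∀ q ∈ Q, Cj t q → q = t) : IsIsolated t := by
  intro g hg
  by_contra hne
  obtain ⟨Q1, ph1, Q2, ph2, h1⟩ := h.wp w (Cj.refl t) ((Cj.refl t).conj g) hg.symm hne
  generalize g * t * g⁻¹ = s at h1
  obtain ⟨-, d, hd, d', hd', h2, h3, h4⟩ := h1.card_D
  obtain ⟨u, hu, e⟩ := h1.exists_u hd h2
  obtain ⟨v, hv, e'⟩ := h1.symm.exists_u hd.symm h2
  obtain ⟨k1, k2, k3⟩ := h1.swap hd hd' h2 h3 h4 hu e
  obtain ⟨-, k5, k6⟩ := h1.symm.swap hd.symm hd'.symm h2 h3 h4 hv e'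
  have k4 := (h1.symm.swap hd.symm hd'.symm h2 h3 h4 hv e').1
  simp only [mul_assoc _ t s, ← h1.c] at e' k4 k5 k6
  simp only [← mul_assoc _ s t] at e' k4 k5 k6
  have hD : ∀ a ∈ Q1 ⊓ Q2, a ≠ 1 → Cj t (a * s * t) := fun a ha h5 => by
    obtain ⟨x, -, e1⟩ := h1.exists_u ha h5
    exact e1 ▸ h1.D.conj x
  have hR : ∀ a ∈ Q1 ⊓ Q2, a ∈ Q1 ⊓ C1 s := fun a ha => ⟨ha.1, mem_C1.mpr (h1.b.cen a ha.2)⟩
  have h5 : d * d' ≠ 1 := fun e1 => h4 (by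
    rw [eq_inv_of_mul_eq_one_right e1, inv_eq_of_mul_eq_one_right (h1.sq (hR d hd))])
  obtain ⟨Q3, ph3, Q4, ph4, h6⟩ := h.wp w (hD d' hd' h3) (hD _ (mul_mem hd hd') h5) (by
      have : Commute d (d' * s * t) :=
        ((Commute.mul_right (comm_of_sq (fun _ => h1.sq) (hR d hd) (hR d' hd'))
          (h1.b.cen d hd.2)).mul_right (h1.a.cen d hd.1))
      simpa only [mul_assoc] using (this.mul_left (Commute.refl _)).eq)
    fun e1 => h2 (by simpa using e1)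
  have cj : ∀ x, u * v * x * (u * v)⁻¹ = u * (v * x * v⁻¹) * u⁻¹ := fun x => by group
  have h7 := h6.pow8 (g := u * v) (conj_eq_iff_comm.mp (by rw [cj, k6, k2]))
    (conj_eq_iff_comm.mp (by rw [cj, k5, k3]))
  have h8 : u * v * t * (u * v)⁻¹ = s := by rw [cj, e', k1]
  have h9 : (u * v) ^ 3 * t = t * (u * v) ^ 3 := conj_eq_iff_comm.mp (by
    calc _ = u * v * (u * v * (u * v * t * (u * v)⁻¹) * (u * v)⁻¹) * (u * v)⁻¹ := by
          simp only [pow_succ, pow_zero, one_mul, mul_assoc, mul_inv_rev]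
      _ = _ := by
          rw [h8, cj s, conj_eq_iff_comm.mpr (h1.b.cen v hv), e, cj, k4,
            conj_eq_iff_comm.mpr (h1.a.cen u hu)])
  have h10 := (Commute.pow_left h9 3).eq
  rw [← pow_mul, show 3 * 3 = 8 + 1 from rfl, pow_succ, h7, one_mul, ← conj_eq_iff_comm, h8] at h10
  exact h1.ne h10

end Cfsg.Agent.H6.O8
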