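import Cfsg.Agent.H6.O8.Loc2

/-!
# The action of the involution centralizer on the extraspecial group
-/

set_option autoImplicit false

namespace Cfsg.Agent.H6.O8

open Subgroup Cfsg.Agent.H7 Cfsg.Agent.H7.Asch

variable {G : Type*} [Group G]

/-- A pair of conjugates, each in the extraspecial group of the other. -/
structure NP (t : G) (Q : Subgroup G) (ph : G → L3) (s : G) (Q' : Subgroup G) (ph' : G → L3) :
    Prop where
  a : Loc t Q ph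
  b : Loc s Q' ph'
  sQ : s ∈ Q
  tQ : t ∈ Q'
  ne : s ≠ t

theorem Loc.card_R [Finite G] {t s : G} {Q : Subgroup G} {ph : G → L3} (h : Loc t Q ph)
    (hs : s ∈ Q) : 256 ≤ Nat.card (Q ⊓ C1 s : Subgroup G) := by
  have := card_le_two_mul (K := Q) fun k hk => h.md_conj hk hs
  rw [h.card] at this
  omega

theorem Loc.np [Finite G] {t s : G} {Q Q' : Subgroup G} {ph ph' : G → L3} (h : Loc t Q ph)
    (h' : Loc s Q' ph') (hs : s ∈ Q) (hne : s ≠ t) : NP t Q ph s Q' ph' := by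
  refine ⟨h, h', hs, ?_, hne⟩
  by_contra h1
  have h2 := (h.abel (R := Q ⊓ C1 s) inf_le_left fun a ha b hb => ?_).1
  · have := h.card_R hs
    omega
  refine (h.com a ha.1 b hb.1).resolve_right fun e => h1 ?_
  have sq : ∀ r ∈ Q ⊓ C1 s, ph' r * ph' r = 1 := fun r hr =>
    L3_sq (by rw [← h'.ph_pow (mem_C1.mp hr.2), h.pow4 hr.1, h'.ph_one])
  have ha' := mem_C1.mp ha.2
  have hb' := mem_C1.mp hb.2
  have h3 := sq _ (mul_mem ha hb)
  rw [h'.mul _ _ ha' hb'] at h3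
  have h4 := congrArg ph' e
  rw [h'.mul _ _ (Commute.mul_left hb' ha') (h.cen s hs).symm, h'.mul _ _ ha' hb',
    h'.mul _ _ hb' ha', ← inv_eq_of_mul_eq_one_right h3, mul_inv_rev,
    inv_eq_of_mul_eq_one_right (sq a ha), inv_eq_of_mul_eq_one_right (sq b hb), left_eq_mul] at h4
  exact (h'.ker t (h.cen s hs).symm).mp h4

theorem Md.both {t s a b : G} (h1 : Md t a b) (h2 : Md s a b) (h : s ≠ t) : a = b := by
  rcases h1 with e | e
  · exact e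
  · exact h2.resolve_right fun e' => h (mul_left_cancel (e'.symm.trans e))

namespace NP

variable {t s : G} {Q Q' : Subgroup G} {ph ph' : G → L3} (h : NP t Q ph s Q' ph')
include h

theorem symm : NP s Q' ph' t Q ph := ⟨h.b, h.a, h.tQ, h.sQ, h.ne.symm⟩

theorem c : s * t = t * s := h.a.cen s h.sQ

theorem abel {a b : G} (ha : a ∈ Q ⊓ Q') (hb : b ∈ Q ⊓ Q') : a * b = b * a :=
  Md.both (h.a.com a ha.1 b hb.1) (h.b.com a ha.2 b hb.2) h.ne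

variable [Finite G]

theorem main : 32 ≤ Nat.card (Q ⊓ Q' : Subgroup G) ∧ ∃ σ, IsTr σ ∧
    (∀ a ∈ Q' ⊓ C1 t, InT σ (ph a)) ∧ ∀ l, InT σ l → ∃ a ∈ Q' ⊓ C1 t, ph a = l := by
  obtain ⟨σ, h1, h2, h3, h4⟩ := h.a.syl (A := Q' ⊓ C1 t) (fun _ ha => mem_C1.mp ha.2)
    fun _ ha => h.b.pow4 ha.1
  have h5 : Q' ⊓ C1 t ⊓ Q = Q ⊓ Q' := le_antisymm (fun a ha => ⟨ha.2, ha.1.1⟩)
    fun a ha => ⟨⟨ha.2, mem_C1.mpr (h.a.cen a ha.1)⟩, ha.1⟩
  rw [h5] at h3 h4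
  have h6 := h.b.card_R h.tQ
  have h7 := (h.a.abel (R := Q ⊓ Q') inf_le_left fun _ ha _ hb => h.abel ha hb).1
  exact ⟨by omega, σ, h1, h2, h4 (by omega)⟩

theorem self {q : G} (hq : q ∈ Q) (e : ∀ d ∈ Q ⊓ Q', d * q = q * d) : q ∈ Q' :=
  ((h.a.abel (R := Q ⊓ Q') inf_le_left fun _ ha _ hb => h.abel ha hb).2 h.main.1 q hq e).2

end NP

/-- The standard transpositions. -/
def σ0 : L3 := fun _ => Equiv.swap 0 1

/-- A `3`-cycle. -/
def c3 : Equiv.Perm (Fin 3) := Equiv.swap 0 1 * Equiv.swap 1 2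

/-- The `3`-cycles in the factors. -/
def ε (i : ℕ) : L3 := fun j => if j.val = i then c3 else 1

/-- The transpositions in the factors. -/
def τ (i : ℕ) : L3 := fun j => if j.val = i then Equiv.swap 0 1 else 1

/-- The labels of the root elements in the extraspecial group. -/
def lam (a : ℕ) : L3 := fun j =>
  if ([0, 0, 0, 7, 6, 5, 3, 1, 2, 4, 0].getD a 0).testBit j then c3 else 1

instance (σ l : L3) : Decidable (InT σ l) := inferInstanceAs (Decidable (∀ _, _ ∨ _))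

theorem σ0_tr : IsTr σ0 := by unfold IsTr; decide

/-- Some component lies in the Sylow `2`-subgroup. -/
def Near (l : L3) : Prop := ∃ i, l i = 1 ∨ l i = Equiv.swap 0 1

instance (l : L3) : Decidable (Near l) := inferInstanceAs (Decidable (∃ _, _ ∨ _))

/-- The standard position. -/
structure Std (t : G) (Q : Subgroup G) (ph : G → L3) (s : G) (Q' : Subgroup G) (ph' : G → L3) :
    Prop extends NP t Q ph s Q' ph' where
  inT : ∀ a ∈ Q' ⊓ C1 t, InT σ0 (ph a)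
  onto : ∀ l, InT σ0 l → ∃ a ∈ Q' ⊓ C1 t, ph a = l

theorem exists_conj_σ {σ : L3} (h : IsTr σ) : ∃ l : L3, ∀ a, InT σ a ↔ InT σ0 (l * a * l⁻¹) := by
  choose l hl using fun i => (by decide : ∀ x : Equiv.Perm (Fin 3), x ≠ 1 → x * x = 1 →
    ∃ y : Equiv.Perm (Fin 3), ∀ a, (a = 1 ∨ a = x) ↔
      (y * a * y⁻¹ = 1 ∨ y * a * y⁻¹ = Equiv.swap 0 1)) (σ i) (h i).1 (h i).2
  exact ⟨l, fun a => forall_congr' fun i => hl i (a i)⟩

theorem NP.std [Finite G] {t s : G} {Q Q' : Subgroup G} {ph ph' : G → L3}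
    (h : NP t Q ph s Q' ph') : ∃ ph1, Std t Q ph1 s Q' ph' := by
  obtain ⟨-, σ, h1, h2, h3⟩ := h.main
  obtain ⟨l, hl⟩ := exists_conj_σ h1
  refine ⟨_, ⟨h.a.twist l, h.b, h.sQ, h.tQ, h.ne⟩, fun a ha => (hl _).mp (h2 a ha), fun l' h4 => ?_⟩
  obtain ⟨a, ha, e⟩ := h3 (l⁻¹ * l' * l) ((hl _).mpr (by simpa [mul_assoc] using h4))
  exact ⟨a, ha, by rw [e]; group⟩

theorem cinv {c t : G} (h : c * t = t * c) : c⁻¹ * t = t * c⁻¹ := Commute.inv_left h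

theorem cmul {a b t : G} (h : a * t = t * a) (h' : b * t = t * b) : a * b * t = t * (a * b) :=
  Commute.mul_left h h'

namespace Std

variable {t s : G} {Q Q' : Subgroup G} {ph ph' : G → L3} (h : Std t Q ph s Q' ph')
include h

theorem flip : ∃ Q1 ph1, Std t Q ph (s * t) Q1 ph1 := by
  obtain ⟨x, hx, e⟩ := h.a.exists_anti h.sQ h.b.t1 h.ne
  have hxt := h.a.cen x hx
  have key : ∀ a, a * t = t * a → ph (x * a * x⁻¹) = ph a := fun a ha => by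
    rw [h.a.ph_conj hxt ha, h.a.ph_Q hx, one_mul, inv_one, mul_one]
  refine ⟨Q'.map (MulAut.conj x).toMonoidHom, _, ⟨h.a, e ▸ h.b.conj x, mul_mem h.sQ h.a.tQ,
    ⟨t, h.tQ, conj_eq_iff_comm.mpr hxt⟩,
    fun e => h.b.t1 (by simpa using e)⟩, ?_, fun l hl => ?_⟩
  · rintro _ ⟨⟨a, ha, rfl⟩, h1⟩
    have h2 : a * t = t * a := by
      have := cmul (cmul (cinv hxt) (mem_C1.mp h1)) hxt
      simpa [mul_assoc] using this
    exact (key a h2).symm ▸ h.inT a ⟨ha, mem_C1.mpr h2⟩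
  · obtain ⟨a, ha, e⟩ := h.onto l hl
    exact ⟨_, ⟨⟨a, ha.1, rfl⟩, mem_C1.mpr (cmul (cmul hxt (mem_C1.mp ha.2)) (cinv hxt))⟩,
      (key a (mem_C1.mp ha.2)).trans e⟩

theorem stab0 {c : G} (hc : c * t = t * c) (e : c * s = s * c) : InT σ0 (ph c) := by
  refine InT.of_norm σ0_tr fun l hl => ?_
  obtain ⟨a, ha, rfl⟩ := h.onto l hl
  rw [← h.a.ph_conj hc (mem_C1.mp ha.2)]
  exact h.inT _ ⟨h.b.norm e ha.1, mem_C1.mpr (cmul (cmul hc (mem_C1.mp ha.2)) (cinv hc))⟩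

theorem stab {c c' : G} (hc : c * t = t * c) (hc' : c' * t = t * c')
    (e : Md t (c * s * c⁻¹) (c' * s * c'⁻¹)) : InT σ0 ((ph c')⁻¹ * ph c) := by
  rw [← h.a.ph_inv hc', ← h.a.mul _ _ (cinv hc') hc]
  have h1 : Md t (c'⁻¹ * c * s * (c'⁻¹ * c)⁻¹) s := by
    simpa only [mul_assoc, mul_inv_rev, inv_inv, inv_mul_cancel_left, inv_mul_cancel, mul_one]
      using e.conj (cinv hc')
  have h2 := cmul (cinv hc') hc
  generalize c'⁻¹ * c = d at h1 h2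
  rcases h1 with h1 | h1
  · exact h.stab0 h2 (conj_eq_iff_comm.mp h1)
  · obtain ⟨x, hx, e1⟩ := h.a.exists_anti h.sQ h.b.t1 h.ne
    have h3 := h.stab0 (cmul (h.a.cen _ (inv_mem hx)) h2) (conj_eq_iff_comm.mp (by
      calc _ = x⁻¹ * (d * s * d⁻¹) * x := by group
        _ = _ := by rw [h1, ← e1]; group))
    rwa [h.a.mul _ _ (h.a.cen _ (inv_mem hx)) h2, h.a.ph_Q (inv_mem hx), one_mul] at h3

theorem md {c c' : G} (hc : c * t = t * c) (hc' : c' * t = t * c')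
    (e : InT σ0 ((ph c')⁻¹ * ph c)) : Md t (c * s * c⁻¹) (c' * s * c'⁻¹) := by
  obtain ⟨a, ha, e1⟩ := h.onto _ e
  have h1 := h.a.md_of_ph hc (cmul hc' (mem_C1.mp ha.2))
    (by rw [h.a.mul _ _ hc' (mem_C1.mp ha.2), e1, mul_inv_cancel_left]) h.sQ
  rwa [mul_assoc c' a, h.b.cen a ha.1, mul_inv_rev, ← mul_assoc, ← mul_assoc,
    mul_inv_cancel_right] at h1

theorem md' {a c c' : G} (ha : a * t = t * a) (hc : c * t = t * c) (hc' : c' * t = t * c')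
    (e : InT σ0 ((ph c')⁻¹ * (ph a * ph c))) :
    Md t (a * (c * s * c⁻¹) * a⁻¹) (c' * s * c'⁻¹) := by
  simpa only [mul_assoc, mul_inv_rev] using h.md (cmul ha hc) hc' (by rwa [h.a.mul _ _ ha hc])

theorem sq (c : G) : c * s * c⁻¹ * (c * s * c⁻¹) = 1 := by rw [conj_mul, h.b.tt]; group

variable [Finite G]

theorem comm1 {c : G} (hc : c * t = t * c) (e : Near (ph c)) :
    c * s * c⁻¹ * s = s * (c * s * c⁻¹) := by
  obtain ⟨i, e⟩ := e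
  obtain ⟨a, ha, e1⟩ := h.onto (τ i) ((by decide : ∀ i : Fin 3, InT σ0 (τ i)) i)
  have hat := mem_C1.mp ha.2
  have h1 := h.md' hat hc hc (by
    rw [e1]
    intro j
    by_cases h1 : j = i
    · subst h1
      rcases e with e | e <;> simp [τ, σ0, e]
    · simp [τ, Fin.val_ne_of_ne h1])
  obtain ⟨d, hd, h2⟩ : ∃ d ∈ Q' ⊓ Q, d * a ≠ a * d := by
    by_contra h2
    have h3 := h.a.ph_Q (h.symm.self ha.1 fun d hd => not_not.mp fun e => h2 ⟨d, hd, e⟩)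
    exact (by decide : ∀ i : Fin 3, τ i ≠ 1) i (e1 ▸ h3)
  have hx := h.a.norm hc h.sQ
  have h3 := bb_conj a d (c * s * c⁻¹)
  rw [h.b.anti ha.1 hd.1 h2.symm, h1.bb h.a.tt (h.a.cen _ (mul_mem hd.2 h.sQ)), bb_symm,
    h.a.bb_mul hx hd.2 h.sQ, bb_symm d] at h3
  rw [← bb_eq_one, ← one_mul (bb _ s), ← bb_sq (c * s * c⁻¹) d, mul_assoc, h3]

theorem tri1 {c : G} (hc : c * t = t * c) {i : ℕ} (hi : i < 3) (e : ph c = ε i) :
    Md t (c⁻¹ * s * c⁻¹⁻¹ * (c * s * c⁻¹)) s := by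
  have hc' := cinv hc
  have e' := h.a.ph_inv hc
  rw [e] at e'
  have hx := h.a.norm hc h.sQ
  have hx' := h.a.norm hc' h.sQ
  have hD : c⁻¹ * s * c⁻¹⁻¹ * (c * s * c⁻¹) ∈ Q' := by
    obtain ⟨a, ha, e1⟩ := h.onto (τ i) ((by decide : ∀ i < 3, InT σ0 (τ i)) i hi)
    have h1 := h.md' (mem_C1.mp ha.2) hc hc' (by
      rw [e, e', e1]
      exact (by decide : ∀ i < 3, InT σ0 ((ε i)⁻¹⁻¹ * (τ i * ε i))) i hi)
    refine ((h1.symm h.a.tt).mul h.a.tt (h.a.cen _ hx) Md.refl).mem h.tQ ?_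
    have h2 := Q'.mul_mem ha.1 (h.b.norm (h.comm1 hc
      (e ▸ (by decide : ∀ i < 3, Near (ε i)) i hi)) (inv_mem ha.1))
    rw [inv_eq_of_mul_eq_one_right (h.sq c)] at h2
    simpa only [mul_assoc] using h2
  have h1 := h.b.perp h.tQ hD fun a ha hat => conj_eq_iff_comm.mp
    (Md.both ?_ (h.b.md_conj ha hD) h.ne)
  · have h2 : ¬ Md t (c⁻¹ * s * c⁻¹⁻¹ * (c * s * c⁻¹)) 1 := fun h2 => by
      have h3 := h2.mul h.a.tt (h.a.cen _ hx) Md.refl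
      rw [mul_assoc _ _ (c * s * c⁻¹), h.sq, mul_one, one_mul] at h3
      have h4 := h.stab hc' hc h3
      rw [e, e'] at h4
      exact (by decide : ∀ i < 3, ¬ InT σ0 ((ε i)⁻¹ * (ε i)⁻¹)) i hi h4
    rcases h1 with (h1 | h1) | h1 | h1
    · exact absurd (Or.inl h1) h2
    · exact Or.inl (by rw [h1, one_mul])
    · exact absurd (Or.inr (by rw [h1, one_mul])) h2
    · exact Or.inr (by rw [h1, h.c])
  · rw [← conj_mul]
    rcases (by decide +kernel : ∀ i < 3, ∀ l, InT σ0 l →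
      (InT σ0 ((ε i)⁻¹⁻¹ * (l * (ε i)⁻¹)) ∧ InT σ0 ((ε i)⁻¹ * (l * ε i))) ∨
      (InT σ0 ((ε i)⁻¹ * (l * (ε i)⁻¹)) ∧ InT σ0 ((ε i)⁻¹⁻¹ * (l * ε i)))) i hi _
        (h.inT a ⟨ha, mem_C1.mpr hat⟩) with ⟨h2, h3⟩ | ⟨h2, h3⟩
    · exact (h.md' hat hc' hc' (by rwa [e'])).mul h.a.tt (h.a.cen _ hx) (h.md' hat hc hc (by rwa [e]))
    · exact ((h.md' hat hc' hc (by rwa [e, e'])).mul h.a.tt (h.a.cen _ hx')
        (h.md' hat hc hc' (by rwa [e, e']))).trans h.a.tt (h.a.com _ hx _ hx')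

theorem comm2 {c c' : G} (hc : c * t = t * c) (hc' : c' * t = t * c')
    (e : Near ((ph c')⁻¹ * ph c)) :
    c * s * c⁻¹ * (c' * s * c'⁻¹) = c' * s * c'⁻¹ * (c * s * c⁻¹) := by
  have := comm_conj (g := c') (h.comm1 (cmul (cinv hc') hc)
    (by rwa [h.a.mul _ _ (cinv hc') hc, h.a.ph_inv hc']))
  simpa only [mul_assoc, mul_inv_rev, inv_inv, mul_inv_cancel_left, mul_inv_cancel, mul_one]
    using this

theorem anti2 {c c' : G} (hc : c * t = t * c) (hc' : c' * t = t * c')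
    (e : ¬ Near ((ph c')⁻¹ * ph c)) :
    c * s * c⁻¹ * (c' * s * c'⁻¹) ≠ c' * s * c'⁻¹ * (c * s * c⁻¹) := by
  intro h0
  have h1 : c'⁻¹ * c * s * (c'⁻¹ * c)⁻¹ * s = s * (c'⁻¹ * c * s * (c'⁻¹ * c)⁻¹) := by
    simpa only [mul_assoc, mul_inv_rev, inv_inv] using comm_of_conj h0
  have h2 := cmul (cinv hc') hc
  rw [← h.a.ph_inv hc', ← h.a.mul _ _ (cinv hc') hc] at e
  generalize c'⁻¹ * c = d at h1 h2 e
  have h3 : ∀ x, x * t = t * x → x * s * x⁻¹ * s = s * (x * s * x⁻¹) := by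
    intro x hx
    by_cases h3 : Near (ph x)
    · exact h.comm1 hx h3
    choose l hl using fun i => (by decide : ∀ a b : Equiv.Perm (Fin 3),
      ¬ (a = 1 ∨ a = Equiv.swap 0 1) → ¬ (b = 1 ∨ b = Equiv.swap 0 1) → ∃ l : Equiv.Perm (Fin 3),
      (l = 1 ∨ l = Equiv.swap 0 1) ∧ (a⁻¹ * (l * b) = 1 ∨ a⁻¹ * (l * b) = Equiv.swap 0 1))
      _ _ (fun e1 => h3 ⟨i, e1⟩) fun e1 => e ⟨i, e1⟩
    obtain ⟨a, ha, rfl⟩ := h.onto l fun i => (hl i).1
    refine (((h.md' (mem_C1.mp ha.2) h2 hx fun i => (hl i).2).symm h.a.tt).comm h.c ?_).symm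
    have := comm_conj (g := a) h1
    rw [conj_eq_iff_comm.mpr (h.b.cen a ha.1)] at this
    exact this.symm
  let S : Set G := {x | ∃ c, c * t = t * c ∧ c * s * c⁻¹ = x}
  have h4 : closure S ≤ centralizer S := by
    rw [closure_le]
    rintro _ ⟨x, hx, rfl⟩ _ ⟨y, hy, rfl⟩
    simpa only [mul_assoc, mul_inv_rev, inv_inv, mul_inv_cancel_left, mul_inv_cancel, mul_one]
      using comm_conj (g := x) (h3 _ (cmul (cinv hx) hy))
  have h5 := (h.a.abel (R := closure S) ((closure_le _).mpr (by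
    rintro _ ⟨x, hx, rfl⟩; exact h.a.norm hx h.sQ)) fun a ha b hb =>
      ((closure_le (centralizer (closure S : Set G))).mpr
        (fun x hx y hy => (h4 hy x hx).symm) hb a ha)).1
  choose sec h6 h7 using h.a.surj
  let F : (Fin 3 → Fin 3) → G := fun w => sec (fun i => c3 ^ (w i).val) * s *
    (sec fun i => c3 ^ (w i).val)⁻¹
  have h8 : ∀ w w', Md t (F w) (F w') → w = w' := fun w w' e1 => by
    have h8 := h.stab (h6 _) (h6 _) e1
    rw [h7, h7] at h8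
    exact funext fun i => (by decide : ∀ a b : Fin 3, ((c3 ^ b.val)⁻¹ * c3 ^ a.val = 1 ∨
      (c3 ^ b.val)⁻¹ * c3 ^ a.val = Equiv.swap 0 1) → a = b) _ _ (h8 i)
  have h9 := (dbl (K := closure S) (S := F '' Set.univ) (t := t) (by
      obtain ⟨x, hx, e1⟩ := h.a.exists_anti h.sQ h.b.t1 h.ne
      simpa using mul_mem (inv_mem (subset_closure (k := S) (show s ∈ S from ⟨1, by group, by group⟩)))
        (subset_closure (k := S) ⟨x, h.a.cen x hx, e1⟩))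
    (by rintro _ ⟨w, -, rfl⟩; exact subset_closure ⟨_, h6 _, rfl⟩)
    (by
      rintro _ ⟨w, -, rfl⟩ ⟨w', -, e1⟩
      rw [h8 w' w (Or.inr e1), left_eq_mul] at e1
      exact h.a.t1 e1)).1
  rw [Set.ncard_image_of_injective _ fun w w' e1 => h8 w w' (Or.inl e1), Set.ncard_univ,
    Nat.card_eq_fintype_card] at h9
  simp at h9
  omega

theorem peel {y : ℕ → G} (hy : ∀ a, ∃ c, c * t = t * c ∧ ph c = lam a ∧ y a = c * s * c⁻¹) :
    Nat.card (Q ⊓ C1 (y 10) ⊓ C1 (y 7) ⊓ C1 (y 8) ⊓ C1 (y 9) : Subgroup G) ≤ 32 ∧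
    ∀ q ∈ Q, (∀ a < 11, 3 ≤ a → q * y a = y a * q) → q = 1 ∨ q = t := by
  have hQ : ∀ a, y a ∈ Q := fun a => by
    obtain ⟨c, hc, -, e⟩ := hy a
    exact e ▸ h.a.norm hc h.sQ
  have k1 : ∀ a b, Near ((lam b)⁻¹ * lam a) → y a ∈ C1 (y b) := fun a b e => by
    obtain ⟨c, hc, e1, e2⟩ := hy a
    obtain ⟨c', hc', e1', e2'⟩ := hy b
    rw [mem_C1, e2, e2']
    exact h.comm2 hc hc' (by rwa [e1, e1'])
  have k2 : ∀ a b, ¬ Near ((lam b)⁻¹ * lam a) → y a * y b ≠ y b * y a := fun a b e => by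
    obtain ⟨c, hc, e1, e2⟩ := hy a
    obtain ⟨c', hc', e1', e2'⟩ := hy b
    rw [e2, e2']
    exact h.anti2 hc hc' (by rwa [e1, e1'])
  have p1 := half (K := Q) (hQ 3) (k2 3 10 (by decide))
  have p2 := half (K := Q ⊓ C1 (y 10)) ⟨hQ 4, k1 _ _ (by decide)⟩ (k2 4 7 (by decide))
  have p3 := half (K := Q ⊓ C1 (y 10) ⊓ C1 (y 7)) ⟨⟨hQ 5, k1 _ _ (by decide)⟩, k1 _ _ (by decide)⟩
    (k2 5 8 (by decide))
  have p4 := half (K := Q ⊓ C1 (y 10) ⊓ C1 (y 7) ⊓ C1 (y 8))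
    ⟨⟨⟨hQ 6, k1 _ _ (by decide)⟩, k1 _ _ (by decide)⟩, k1 _ _ (by decide)⟩ (k2 6 9 (by decide))
  have k3 : ∀ a < 11, 7 ≤ a → y a ∈ Q ⊓ C1 (y 10) ⊓ C1 (y 7) ⊓ C1 (y 8) ⊓ C1 (y 9) := by
    intro a h1 h2
    refine ⟨⟨⟨⟨hQ a, k1 _ _ ?_⟩, k1 _ _ ?_⟩, k1 _ _ ?_⟩, k1 _ _ ?_⟩ <;> interval_cases a <;> decide
  rw [h.a.card] at p1
  refine ⟨by omega, fun q hq e => ?_⟩
  generalize hK : Q ⊓ C1 (y 10) ⊓ C1 (y 7) ⊓ C1 (y 8) ⊓ C1 (y 9) = K at p4 k3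
  have p5 := half (k3 7 (by omega) (by omega)) (k2 7 4 (by decide))
  have p6 := half (K := K ⊓ C1 (y 4)) ⟨k3 8 (by omega) (by omega), k1 _ _ (by decide)⟩
    (k2 8 5 (by decide))
  have p7 := half (K := K ⊓ C1 (y 4) ⊓ C1 (y 5))
    ⟨⟨k3 9 (by omega) (by omega), k1 _ _ (by decide)⟩, k1 _ _ (by decide)⟩ (k2 9 6 (by decide))
  have p8 := half (K := K ⊓ C1 (y 4) ⊓ C1 (y 5) ⊓ C1 (y 6))
    ⟨⟨⟨k3 10 (by omega) (by omega), k1 _ _ (by decide)⟩, k1 _ _ (by decide)⟩, k1 _ _ (by decide)⟩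
    (k2 10 3 (by decide))
  have key : ∀ q ∈ Q, (∀ a < 11, 3 ≤ a → q * y a = y a * q) →
      q ∈ K ⊓ C1 (y 4) ⊓ C1 (y 5) ⊓ C1 (y 6) ⊓ C1 (y 3) := fun q hq e => by
    subst hK
    refine ⟨⟨⟨⟨⟨⟨⟨⟨hq, ?_⟩, ?_⟩, ?_⟩, ?_⟩, ?_⟩, ?_⟩, ?_⟩, ?_⟩ <;>
      exact mem_C1.mpr (e _ (by omega) (by omega))
  refine (Set.eq_of_subset_of_ncard_le (s := {1, t}) (Set.insert_subset (one_mem _)
    (Set.singleton_subset_iff.mpr (key t h.a.tQ fun a _ _ => (h.a.cen _ (hQ a)).symm))) ?_).ge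
    (key q hq e)
  rw [Set.ncard_pair h.a.t1.symm]
  show Nat.card (K ⊓ C1 (y 4) ⊓ C1 (y 5) ⊓ C1 (y 6) ⊓ C1 (y 3) : Subgroup G) ≤ 2
  omega

theorem fpf {c q : G} (hc : c * t = t * c) (e : ph c = ε 0) (hq : q ∈ Q) (hcq : q * c = c * q) :
    q = 1 ∨ q = t := by
  have h1 : ∀ x, bb q (c * x * c⁻¹) = bb q x := fun x => by
    rw [← bb_conj c q x, conj_eq_iff_comm.mpr hcq.symm]
  have h2 : ∀ d, d * t = t * d → ph d 0 = 1 → bb q (d * s * d⁻¹) = 1 := by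
    intro d hd e1
    have h2 := (h.tri1 (c := d⁻¹ * c * d⁻¹⁻¹) (cmul (cmul (cinv hd) hc) (cinv (cinv hd))) (i := 0)
      (by norm_num) (by
        rw [h.a.ph_conj (cinv hd) hc, h.a.ph_inv hd, e]
        funext j
        fin_cases j <;> simp [ε, e1])).conj hd
    have hx := h.a.norm hd h.sQ
    have h3 : Md t (c⁻¹ * (d * s * d⁻¹) * c⁻¹⁻¹ * (c * (d * s * d⁻¹) * c⁻¹)) (d * s * d⁻¹) := by
      simpa only [mul_assoc, mul_inv_rev, inv_inv, mul_inv_cancel_left, mul_inv_cancel, mul_one]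
        using h2
    rw [← h3.bb h.a.tt (h.a.cen q hq), h.a.bb_mul hq (h.a.norm (cinv hc) hx) (h.a.norm hc hx), h1,
      ← h1 (c⁻¹ * _ * _)]
    simp only [mul_assoc, inv_inv, mul_inv_cancel_left, mul_inv_cancel, mul_one, bb_sq]
  choose sec h6 h7 using h.a.surj
  refine (h.peel (y := fun a => sec (lam a) * s * (sec (lam a))⁻¹)
    fun a => ⟨_, h6 _, h7 _, rfl⟩).2 q hq fun a _ _ => bb_eq_one.mp ?_
  by_cases h3 : lam a 0 = 1
  · exact h2 _ (h6 _) (by rw [h7, h3])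
  · have h4 := h2 _ (cmul (cinv hc) (h6 (lam a))) (by
      rw [h.a.mul _ _ (cinv hc) (h6 _), h.a.ph_inv hc, h7, e]
      have : lam a 0 = c3 := by
        unfold lam at h3 ⊢
        split_ifs at h3 ⊢
        · rfl
        · exact absurd rfl h3
      simp [this, ε])
    rw [← h1] at h4
    simpa only [mul_assoc, mul_inv_rev, inv_inv, mul_inv_cancel_left, mul_inv_cancel, mul_one]
      using h4

theorem exists_M : ∃ M : Subgroup G, t ∈ M ∧ (∀ m ∈ M, m * t = t * m) ∧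
    (∀ m ∈ M, m ∈ Q → m = 1 ∨ m = t) ∧ ∀ l, ∃ m ∈ M, ph m = l := by
  obtain ⟨e, he, he1, he3⟩ : ∃ e, e * t = t * e ∧ ph e = ε 0 ∧ e ^ 3 = 1 := by
    obtain ⟨c, hc, e⟩ := h.a.surj (ε 0)
    refine ⟨c ^ 4, Commute.pow_left hc 4, by rw [h.a.ph_pow hc, e]; decide, ?_⟩
    rw [← pow_mul, mul_comm, pow_mul]
    exact h.a.pow4 ((h.a.ker _ (Commute.pow_left hc 3)).mp (by rw [h.a.ph_pow hc, e]; decide))
  let Y : Set G := {z | z * t = t * z ∧ ph z = ε 0 ∧ z ^ 3 = 1}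
  have h1 := (dbl (K := Q) (S := (· * e⁻¹) '' Y) h.a.tQ
    (by rintro _ ⟨z, hz, rfl⟩; exact h.a.div_mem hz.1 he (hz.2.1.trans he1.symm))
    (by
      rintro _ ⟨z, hz, rfl⟩ ⟨z', hz', e1⟩
      have e2 : z' * e⁻¹ = z * e⁻¹ * t := e1
      rw [mul_assoc, cinv he, ← mul_assoc, mul_left_inj] at e2
      have h1 := hz'.2.2
      rw [e2, Commute.mul_pow hz.1, hz.2.2, one_mul, pow_succ, pow_two, h.a.tt, one_mul] at h1
      exact h.a.t1 h1)).1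
  rw [Set.ncard_image_of_injective _ (mul_left_injective _), h.a.card] at h1
  have h2 := orb_card Q e
  have h3 : Nat.card (Q ⊓ C1 e : Subgroup G) ≤ 2 :=
    (Set.ncard_le_ncard (s := (Q ⊓ C1 e : Subgroup G)) (t := {1, t})
      fun k hk => h.fpf he he1 hk.1 (mem_C1.mp hk.2)).trans
      ((Set.ncard_insert_le _ _).trans (by simp))
  rw [h.a.card] at h2
  have h4 : orb Q e = Y := Set.eq_of_subset_of_ncard_le (by
    rintro _ ⟨q, hq, rfl⟩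
    have hqt := h.a.cen q hq
    exact ⟨cmul (cmul hqt he) (cinv hqt), by rw [h.a.ph_conj hqt he, h.a.ph_Q hq, he1]; simp,
      by rw [conj_pow, he3]; group⟩) (by nlinarith)
  let M : Subgroup G :=
    { carrier := {m | m * t = t * m ∧ (m * e * m⁻¹ = e ∨ m * e * m⁻¹ = e⁻¹)}
      one_mem' := ⟨by group, Or.inl (by group)⟩
      mul_mem' := fun {a b} ha hb => ⟨cmul ha.1 hb.1, by
        rw [show a * b * e * (a * b)⁻¹ = a * (b * e * b⁻¹) * a⁻¹ by group]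
        rcases hb.2 with e1 | e1 <;> rw [e1]
        · exact ha.2
        · rw [← conj_inv]
          rcases ha.2 with e2 | e2 <;> simp [e2]⟩
      inv_mem' := fun {a} ha => ⟨cinv ha.1, ha.2.imp
        (fun e1 => conj_eq_iff_comm.mpr (cinv (conj_eq_iff_comm.mp e1))) fun e1 => by
          calc a⁻¹ * e * a⁻¹⁻¹ = a⁻¹ * (a * e * a⁻¹)⁻¹ * a⁻¹⁻¹ := by rw [e1, inv_inv e]
            _ = _ := by group⟩ }
  refine ⟨M, ⟨rfl, Or.inl (conj_eq_iff_comm.mpr he.symm)⟩, fun m hm => hm.1, fun m hm hq => ?_,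
    fun l => ?_⟩
  · refine h.fpf he he1 hq (conj_eq_iff_comm.mp (hm.2.resolve_right fun e1 => ?_))
    have := congrArg ph e1
    rw [h.a.ph_conj hm.1 he, h.a.ph_Q hq, h.a.ph_inv he, he1] at this
    exact absurd this (by decide)
  · obtain ⟨c, hc, rfl⟩ := h.a.surj l
    have key : ∀ q ∈ Q, (q * e * q⁻¹ = c * e * c⁻¹ ∨ q * e * q⁻¹ = (c * e * c⁻¹)⁻¹) →
        ∃ m ∈ M, ph m = ph c := fun q hq e1 => by
      have hq' := h.a.cen _ (inv_mem hq)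
      refine ⟨q⁻¹ * c, ⟨cmul hq' hc, ?_⟩, by rw [h.a.mul _ _ hq' hc, h.a.ph_Q (inv_mem hq), one_mul]⟩
      rw [show q⁻¹ * c * e * (q⁻¹ * c)⁻¹ = q⁻¹ * (c * e * c⁻¹) * q by group]
      rcases e1 with e1 | e1
      · exact Or.inl (by rw [← e1]; group)
      · exact Or.inr (by rw [← inv_inv (c * e * c⁻¹), ← e1]; group)
    have h5 := cmul (cmul hc he) (cinv hc)
    have h6 : (c * e * c⁻¹) ^ 3 = 1 := by rw [conj_pow, he3]; group
    rcases (by decide +kernel : ∀ l : L3, l * ε 0 * l⁻¹ = ε 0 ∨ (l * ε 0 * l⁻¹)⁻¹ = ε 0) (ph c)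
      with e1 | e1
    · obtain ⟨q, hq, e2⟩ := h4.ge ⟨h5, by rw [h.a.ph_conj hc he, he1, e1], h6⟩
      exact key q hq (Or.inl e2)
    · obtain ⟨q, hq, e2⟩ := h4.ge ⟨cinv h5, by rw [h.a.ph_inv h5, h.a.ph_conj hc he, he1, e1],
        by rw [inv_pow, h6, inv_one]⟩
      exact key q hq (Or.inr e2)

end Std

end Cfsg.Agent.H6.O8
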