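import Cfsg.Agent.H6.O8.Loc3

/-!
# The relations in the involution centralizer
-/

set_option autoImplicit false

namespace Cfsg.Agent.H6.O8

open Subgroup Cfsg.Agent.H7 Cfsg.Agent.H7.Asch
open Cfsg.Agent.H5 (TwoEl)

variable {G : Type*} [Group G]

/-- A measure increasing along commutators. -/
def lb (c : ℕ) : ℕ := Nat.sub 4096 (Nat.xor c (Nat.land c (Nat.pred c)))

theorem chk_nd1 : al2 64 64 (fun c => Nat.beq c 0 || Nat.beq c 2048 || ex 12 fun a =>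
    frc (mulC (cjC (Nat.shiftLeft 1 a) c) (invC c)) fun d =>
      !(Nat.beq d 0) && Nat.blt (lb d) (lb c)) = true := by
  decide +kernel

theorem chk_fix : al2 16 32 (fun c => !(al 3 fun i =>
    Nat.beq (cjC (Nat.shiftLeft 1 i) (8 * c)) (8 * c) ||
      Nat.beq (cjC (Nat.shiftLeft 1 i) (8 * c)) (mulC (8 * c) 2048)) ||
    Nat.beq c 0 || Nat.beq c 128 || Nat.beq c 256 || Nat.beq c 384) = true := by
  decide +kernel

theorem al_intro {n : ℕ} {p : ℕ → Bool} (h : ∀ i < n, p i = true) : al n p = true := by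
  induction n with
  | zero => rfl
  | succ n ih =>
    show (p n).rec false (al n p) = true
    rw [h n (by omega)]
    exact ih fun i hi => h i (by omega)

theorem TS.nd {g : ℕ → G} (h : TS g) (ht : g 11 ≠ 1) : ND g := by
  have key : ∀ n c, lb c = n → c < 4096 → E g c = 1 → c = 0 := by
    intro n
    induction n using Nat.strong_induction_on with
    | _ n ih =>
    intro c hn hc e
    have h1 := al2_spec chk_nd1 (i := c) hc
    simp only [Bool.or_eq_true, Nat.beq_eq] at h1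
    rcases h1 with (h1 | rfl) | h1
    · exact h1
    · exact absurd ((E_pow g (a := 11) (by norm_num)).symm.trans e) ht
    · obtain ⟨a, ha, h2⟩ := ex_spec h1
      simp only [frc_eq, Bool.and_eq_true, Bool.not_eq_true', Nat.blt_eq] at h2
      refine absurd (ih _ (hn ▸ h2.2) _ rfl (mulC_lt _ _) ?_) (Nat.ne_of_beq_eq_false h2.1)
      rw [h.E_mul (cjC_lt _ _) (invC_lt _), h.E_cj1 ha hc, h.E_inv hc, e]
      group
  intro c hc c' hc' e
  have h1 := key _ _ rfl (mulC_lt c (invC c')) (by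
    rw [h.E_mul hc (invC_lt _), h.E_inv hc', e, mul_inv_cancel])
  refine ndM c hc c' hc' (mul_inv_eq_one.mp ?_)
  rw [← sysM.E_inv hc', ← sysM.E_mul hc (invC_lt _), h1, E_zero]

/-- The data from which the missing reflection is constructed. -/
structure Pre (g : ℕ → G) (Q' : Subgroup G) (ph' : G → L3) : Prop where
  ts : TS g
  rfl' : ∀ i < 3, ∀ a < 12, a ≠ i → g (12 + i) * g a * g (12 + i) = g (rf i a)
  nx : ∀ i < 3, g (12 + i) * g i * g (12 + i) = g i * g (12 + i) * g i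
  nc : ∀ i < 3, ∀ j < 3, g (12 + i) * g (12 + j) = g (12 + j) * g (12 + i)
  t1 : g 11 ≠ 1
  loc : Loc (g 10) Q' ph'
  mem : ∀ a ∈ [0, 1, 2, 7, 8, 9, 11], g a ∈ Q'
  cs : ∀ c, c * g 10 = g 10 * c → c * g 11 = g 11 * c → c ∈ BB g
  cent : ∀ c, c * g 11 = g 11 * c → c ∈ PP g
  five : ∀ c, c * g 11 = g 11 * c → c ^ 5 = 1 → c = 1
  syl : ∀ c ∈ PP g, TwoEl c → (∀ b ∈ BB g, c * b * c⁻¹ ∈ BB g) → c ∈ BB g
  pure : ∀ q ∈ QQ g, Cj (g 11) q → q = g 11 ∨ ∃ p ∈ PP g, q = p * g 10 * p⁻¹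

/-- A supplement of the extraspecial group with elements of order three. -/
structure MM (t : G) (Q : Subgroup G) (ph : G → L3) (M : Subgroup G) (e : ℕ → G) (sec : L3 → G) :
    Prop where
  tM : t ∈ M
  cen : ∀ m ∈ M, m * t = t * m
  inter : ∀ m ∈ M, m ∈ Q → m = 1 ∨ m = t
  eM : ∀ i, e i ∈ M
  eph : ∀ i, ph (e i) = ε i
  e3 : ∀ i, e i ^ 3 = 1
  sM : ∀ l, sec l ∈ M
  sph : ∀ l, ph (sec l) = l

theorem Std.exists_MM [Finite G] {t s : G} {Q Q' : Subgroup G} {ph ph' : G → L3}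
    (h : Std t Q ph s Q' ph') : ∃ M e sec, MM t Q ph M e sec := by
  obtain ⟨M, h1, h2, h3, h4⟩ := h.exists_M
  choose sec h5 h6 using h4
  have h7 : ∀ i, ε i ^ 3 = 1 := fun i => funext fun j => by
    unfold ε
    rw [Pi.pow_apply, Pi.one_apply]
    split_ifs <;> decide
  refine ⟨M, fun i => sec (ε i) ^ 4, sec, h1, h2, h3, fun i => pow_mem (h5 _) 4, fun i => ?_,
    fun i => ?_, h5, h6⟩
  · rw [h.a.ph_pow (h2 _ (h5 _)), h6, pow_succ, h7, one_mul]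
  · rw [← pow_mul, mul_comm, pow_mul]
    exact h.a.pow4 ((h.a.ker _ (h2 _ (pow_mem (h5 _) 3))).mp (by
      rw [h.a.ph_pow (h2 _ (h5 _)), h6, h7]))

namespace MM

variable {t : G} {Q M : Subgroup G} {ph : G → L3} {e : ℕ → G} {sec : L3 → G}
  (h : MM t Q ph M e sec) (ha : Loc t Q ph)
include h ha

theorem md {m m' : G} (hm : m ∈ M) (hm' : m' ∈ M) (e1 : ph m = ph m') : Md t m m' := by
  rcases h.inter _ (mul_mem hm (inv_mem hm')) (ha.div_mem (h.cen m hm) (h.cen m' hm') e1) with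
    e2 | e2
  · exact Or.inl (mul_inv_eq_one.mp e2)
  · exact Or.inr (by rw [h.cen m' hm', ← e2, inv_mul_cancel_right])

theorem uniq {m m' : G} (hm : m ∈ M) (hm' : m' ∈ M) (e1 : ph m = ph m') (h1 : m ^ 3 = 1)
    (h2 : m' ^ 3 = 1) : m = m' := by
  refine (h.md ha hm hm' e1).resolve_right fun e2 => ha.t1 ?_
  rwa [e2, Commute.mul_pow (h.cen m' hm'), h2, one_mul, pow_succ, pow_two, ha.tt, one_mul] at h1

theorem cj1 {m : G} (hm : m ∈ M) {i : ℕ} (e1 : ph m * ε i * (ph m)⁻¹ = ε i) :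
    m * e i * m⁻¹ = e i :=
  h.uniq ha (mul_mem (mul_mem hm (h.eM i)) (inv_mem hm)) (h.eM i)
    (by rw [ha.ph_conj (h.cen m hm) (h.cen _ (h.eM i)), h.eph, e1])
    (by rw [conj_pow, h.e3]; group) (h.e3 i)

theorem cj2 {m : G} (hm : m ∈ M) {i : ℕ} (e1 : ph m * ε i * (ph m)⁻¹ = (ε i)⁻¹) :
    m * e i * m⁻¹ = (e i)⁻¹ :=
  h.uniq ha (mul_mem (mul_mem hm (h.eM i)) (inv_mem hm)) (inv_mem (h.eM i))
    (by rw [ha.ph_conj (h.cen m hm) (h.cen _ (h.eM i)), ha.ph_inv (h.cen _ (h.eM i)), h.eph, e1])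
    (by rw [conj_pow, h.e3]; group) (by rw [inv_pow, h.e3, inv_one])

end MM

/-- The exact form of the standard position. -/
structure Ex (t : G) (Q : Subgroup G) (ph : G → L3) (s : G) (Q' : Subgroup G) (ph' : G → L3)
    (M : Subgroup G) (e : ℕ → G) (sec : L3 → G) : Prop extends Std t Q ph s Q' ph' where
  m : MM t Q ph M e sec
  tri : ∀ i < 3, (e i)⁻¹ * s * (e i)⁻¹⁻¹ * (e i * s * (e i)⁻¹) = s

theorem Std.exists_Ex [Finite G] {t s : G} {Q Q' : Subgroup G} {ph ph' : G → L3}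
    (h : Std t Q ph s Q' ph') : ∃ s Q' ph' M e sec, Ex t Q ph s Q' ph' M e sec := by
  obtain ⟨M, e, sec, hm⟩ := h.exists_MM
  have het := fun i => hm.cen _ (hm.eM i)
  have key : ∀ i < 3, ∀ j < 3, (e i)⁻¹ * s * (e i)⁻¹⁻¹ * (e i * s * (e i)⁻¹) = s →
      (e j)⁻¹ * s * (e j)⁻¹⁻¹ * (e j * s * (e j)⁻¹) ≠ s * t := by
    intro i hi j hj h1 h2
    have h3 : Commute (e i) (e j) := conj_eq_iff_comm.mp (hm.cj1 h.a (hm.eM i) (by
      rw [hm.eph]; exact (by decide : ∀ i < 3, ∀ j < 3, ε i * ε j * (ε i)⁻¹ = ε j) i hi j hj))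
    have h4 := h.comm2 (cmul (het i) (cinv (het j))) (cmul (cinv (het i)) (het j)) (by
      rw [h.a.mul _ _ (het i) (cinv (het j)), h.a.mul _ _ (cinv (het i)) (het j),
        h.a.ph_inv (het i), h.a.ph_inv (het j), hm.eph, hm.eph]
      exact (by decide : ∀ i < 3, ∀ j < 3, Near (((ε i)⁻¹ * ε j)⁻¹ * (ε i * (ε j)⁻¹))) i hi j hj)
    have hx := het i
    generalize e i = x at *
    generalize e j = y at *
    have cj : ∀ u v w : G, u * (v * s * v⁻¹ * (w * s * w⁻¹)) * u⁻¹ =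
        u * v * s * (u * v)⁻¹ * (u * w * s * (u * w)⁻¹) := fun u v w => by group
    have cj' : ∀ u : G, u * t = t * u → u * (s * t) * u⁻¹ = u * s * u⁻¹ * t := fun u hu => by
      rw [← conj_mul, conj_eq_iff_comm.mpr hu]
    have k1 := cj y x⁻¹ x
    have k2 := cj y⁻¹ x⁻¹ x
    have k3 := cj x y⁻¹ y
    have k4 := cj x⁻¹ y⁻¹ y
    rw [h1] at k1 k2
    rw [h2, cj' _ hx] at k3
    rw [h2, cj' _ (cinv hx)] at k4
    rw [← h3.inv_left.eq, ← h3.eq] at k1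
    rw [← h3.inv_inv.eq, ← h3.inv_right.eq] at k2
    rw [k1, k2, mul_assoc, ← mul_assoc (x * y⁻¹ * s * _), h4, mul_assoc (x⁻¹ * y * s * _),
      ← mul_assoc, ← k3, ← k4, h.a.cen _ (h.a.norm hx h.sQ), mul_assoc _ t, ← mul_assoc t t, h.a.tt,
      one_mul, h1, left_eq_mul] at h2
    exact h.a.t1 h2
  have h1 := fun i hi => h.tri1 (het i) (i := i) hi (hm.eph i)
  rcases h1 0 (by norm_num) with h2 | h2
  · exact ⟨s, Q', ph', M, e, sec, h, hm, fun i hi =>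
      (h1 i hi).resolve_right (key 0 (by norm_num) i hi h2)⟩
  · obtain ⟨Q1, ph1, h3⟩ := h.flip
    refine ⟨_, Q1, ph1, M, e, sec, h3, hm, fun i hi => ?_⟩
    rw [← conj_mul, ← conj_mul, conj_eq_iff_comm.mpr (het i), conj_eq_iff_comm.mpr (cinv (het i)),
      h.a.cen _ (h.a.norm (het i) h.sQ), mul_assoc _ t, ← mul_assoc t t, h.a.tt, one_mul]
    exact (h1 i hi).resolve_left fun h4 => key i hi 0 (by norm_num) h4 h2

/-- The generators of the involution centralizer. -/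
def lt0 (t s : G) (e : ℕ → G) (sec : L3 → G) (k : ℕ → G) (a : ℕ) : G :=
  if a < 3 then k a else if a < 11 then sec (lam a) * s * (sec (lam a))⁻¹ else if a = 11 then t
  else if a < 15 then e (a - 12) * k (a - 12) else 1

namespace Ex

variable {t s : G} {Q Q' M : Subgroup G} {ph ph' : G → L3} {e : ℕ → G} {sec : L3 → G}
  (h : Ex t Q ph s Q' ph' M e sec)
include h

theorem st (l : L3) : sec l * t = t * sec l := h.m.cen _ (h.m.sM l)

theorem fix {m : G} (hm : m ∈ M) (e1 : InT σ0 (ph m)) : m * s * m⁻¹ = s := by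
  have hmt := h.m.cen m hm
  have het := h.m.cen _ (h.m.eM 0)
  have h1 := h.md hmt (c' := 1) (by group) (by rwa [h.a.ph_one, inv_one, one_mul])
  rw [one_mul, inv_one, mul_one] at h1
  refine h1.resolve_right fun h2 => h.a.t1 ?_
  have h3 := h.tri 0 (by norm_num)
  have h4 : m * s * m⁻¹ = (m * e 0 * m⁻¹)⁻¹ * (m * s * m⁻¹) * (m * e 0 * m⁻¹)⁻¹⁻¹ *
      (m * e 0 * m⁻¹ * (m * s * m⁻¹) * (m * e 0 * m⁻¹)⁻¹) := by
    conv_lhs => rw [← h3]
    group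
  have h5 : ∀ x, x * t = t * x → x⁻¹ * (s * t) * x⁻¹⁻¹ * (x * (s * t) * x⁻¹) =
      x⁻¹ * s * x⁻¹⁻¹ * (x * s * x⁻¹) := fun x hx => by
    rw [← conj_mul, ← conj_mul, conj_eq_iff_comm.mpr hx, conj_eq_iff_comm.mpr (cinv hx),
      h.a.cen _ (h.a.norm hx h.sQ), mul_assoc _ t, ← mul_assoc t t, h.a.tt, one_mul]
  rcases (by decide +kernel : ∀ l : L3, l * ε 0 * l⁻¹ = ε 0 ∨ l * ε 0 * l⁻¹ = (ε 0)⁻¹) (ph m)
    with e2 | e2
  · rwa [h.m.cj1 h.a hm e2, h2, h5 _ het, h3, mul_eq_left] at h4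
  · rw [h.m.cj2 h.a hm e2, h2, h5 _ (cinv het), inv_inv] at h4
    rw [← inv_inj, mul_inv_rev, inv_eq_of_mul_eq_one_right (h.sq _),
      inv_eq_of_mul_eq_one_right (h.sq _), inv_eq_of_mul_eq_one_right h.b.tt, inv_inv] at h3
    rwa [h3, mul_eq_left] at h4

theorem cjS {m : G} (hm : m ∈ M) {l l' : L3} (e1 : InT σ0 (l'⁻¹ * (ph m * l))) :
    m * (sec l * s * (sec l)⁻¹) * m⁻¹ = sec l' * s * (sec l')⁻¹ := by
  have h1 := h.fix (mul_mem (inv_mem (h.m.sM l')) (mul_mem hm (h.m.sM l))) (by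
    rwa [h.a.mul _ _ (cinv (h.st _)) (cmul (h.m.cen m hm) (h.st _)), h.a.mul _ _ (h.m.cen m hm)
      (h.st _), h.a.ph_inv (h.st _), h.m.sph, h.m.sph])
  conv_rhs => rw [← h1]
  group

theorem s_eq : sec (lam 10) * s * (sec (lam 10))⁻¹ = s :=
  h.fix (h.m.sM _) (by rw [h.m.sph]; decide)

theorem triS {i : ℕ} (hi : i < 3) {l l1 l2 : L3} (e1 : InT σ0 (l1⁻¹ * (l * (ε i)⁻¹ * lam 10)))
    (e2 : InT σ0 (l2⁻¹ * (l * ε i * lam 10))) :
    sec l1 * s * (sec l1)⁻¹ = sec l2 * s * (sec l2)⁻¹ * (sec l * s * (sec l)⁻¹) := by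
  have het := h.m.cen _ (h.m.eM i)
  have h1 := h.cjS (mul_mem (h.m.sM l) (inv_mem (h.m.eM i))) (l := lam 10) (l' := l1) (by
    rwa [h.a.mul _ _ (h.st _) (cinv het), h.a.ph_inv het, h.m.sph, h.m.eph])
  have h2 := h.cjS (mul_mem (h.m.sM l) (h.m.eM i)) (l := lam 10) (l' := l2) (by
    rwa [h.a.mul _ _ (h.st _) het, h.m.sph, h.m.eph])
  rw [h.s_eq] at h1 h2
  have h3 : sec l1 * s * (sec l1)⁻¹ * (sec l2 * s * (sec l2)⁻¹) = sec l * s * (sec l)⁻¹ := by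
    rw [← h1, ← h2]
    conv_rhs => rw [← h.tri i hi]
    group
  rw [← inv_eq_of_mul_eq_one_right (h.sq (sec l)), ← h3, mul_inv_rev,
    inv_eq_of_mul_eq_one_right (h.sq _), inv_eq_of_mul_eq_one_right (h.sq _), ← mul_assoc, h.sq,
    one_mul]

variable {k : ℕ → G} (hk : ∀ i < 3, k i ∈ M ∧ ph (k i) = τ i)
include hk

theorem kS {i a : ℕ} (hi : i < 3) (h1 : 3 ≤ a) (h2 : a < 11) :
    (k i)⁻¹ * (sec (lam a) * s * (sec (lam a))⁻¹) * (k i)⁻¹⁻¹ = sec (lam a) * s * (sec (lam a))⁻¹ *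
      (if sm i a = 0 then 1 else sec (lam (sm i a)) * s * (sec (lam (sm i a)))⁻¹) := by
  have h3 := h.a.ph_inv (h.m.cen _ (hk i hi).1)
  rw [(hk i hi).2] at h3
  have h4 := (by decide +kernel : ∀ i < 3, ∀ a < 11, 3 ≤ a →
    (sm i a = 0 → InT σ0 ((lam a)⁻¹ * ((τ i)⁻¹ * lam a))) ∧ (sm i a ≠ 0 →
      InT σ0 (((τ i)⁻¹ * lam a)⁻¹ * (lam (sm i a) * (ε i)⁻¹ * lam 10)) ∧
      InT σ0 ((lam a)⁻¹ * (lam (sm i a) * ε i * lam 10)))) i hi a h2 h1
  split_ifs with h5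
  · rw [mul_one]
    exact h.cjS (inv_mem (hk i hi).1) (h3 ▸ h4.1 h5)
  · rw [← h.triS hi (h4.2 h5).1 (h4.2 h5).2]
    exact h.cjS (inv_mem (hk i hi).1) (by rw [h3, inv_mul_cancel]; decide)

theorem kS' {i a : ℕ} (hi : i < 3) (h1 : 7 ≤ a) (h2 : a < 11) :
    Md s ((k i)⁻¹ * (sec (lam a) * s * (sec (lam a))⁻¹) * (k i)⁻¹⁻¹)
      (sec (lam a) * s * (sec (lam a))⁻¹) := by
  rw [h.kS hk hi (by omega) h2]
  rcases (by decide : ∀ i < 3, ∀ a < 11, 7 ≤ a → sm i a = 0 ∨ sm i a = 10) i hi a h2 h1 with e1 | e1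
  · exact Or.inl (by rw [if_pos e1, mul_one])
  · exact Or.inr (by rw [e1, if_neg (by norm_num), h.s_eq])

variable [Finite G]

theorem d_mem {a : ℕ} (h1 : 7 ≤ a) (h2 : a < 11) : sec (lam a) * s * (sec (lam a))⁻¹ ∈ Q ⊓ Q' := by
  refine ⟨h.a.norm (h.st _) h.sQ, ?_⟩
  by_cases h3 : a = 10
  · rw [h3, h.s_eq]; exact h.b.tQ
  obtain ⟨i, hi, b, hb, h4, h5, h6⟩ := (by decide +kernel : ∀ a < 10, 7 ≤ a → ∃ i < 3, ∃ b < 11,
    3 ≤ b ∧ sm i b = a ∧ Near (lam b)) a (by omega) h1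
  obtain ⟨x, hx, e1⟩ := h.onto (τ i) ((by decide : ∀ i < 3, InT σ0 (τ i)) i hi)
  have hxt := mem_C1.mp hx.2
  have hkt := h.m.cen _ (hk i hi).1
  have h7 := h.a.md_of_ph (cinv hkt) (cinv hxt) (by
    rw [h.a.ph_inv hkt, h.a.ph_inv hxt, e1, (hk i hi).2]) (h.a.norm (h.st (lam b)) h.sQ)
  rw [h.kS hk hi h4 hb, h5, if_neg (by omega)] at h7
  have h8 := h.comm1 (h.st (lam b)) (by rwa [h.m.sph])
  have h9 := h.a.cen _ (h.a.norm (h.st (lam b)) h.sQ)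
  generalize sec (lam b) * s * (sec (lam b))⁻¹ = y at h7 h8 h9
  have h10 := (Md.refl (a := y⁻¹)).mul h.a.tt (cmul (cmul (cinv hxt) h9) (cinv (cinv hxt))) h7
  rw [inv_mul_cancel_left] at h10
  refine h10.mem h.tQ ?_
  simpa only [mul_assoc, inv_inv] using
    Q'.mul_mem (h.b.norm (cinv h8) (inv_mem hx.1)) hx.1

theorem k_mem {i : ℕ} (hi : i < 3) : k i ∈ Q' := by
  obtain ⟨x, hx, e1⟩ := h.onto (τ i) ((by decide : ∀ i < 3, InT σ0 (τ i)) i hi)
  have hxt := mem_C1.mp hx.2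
  have hkt := h.m.cen _ (hk i hi).1
  have hks : k i * s = s * k i := conj_eq_iff_comm.mp (h.fix (hk i hi).1
    ((hk i hi).2 ▸ (by decide : ∀ i < 3, InT σ0 (τ i)) i hi))
  have hq : (k i)⁻¹ * x ∈ Q := (h.a.ker _ (cmul (cinv hkt) hxt)).mp (by
    rw [h.a.mul _ _ (cinv hkt) hxt, h.a.ph_inv hkt, e1, (hk i hi).2, inv_mul_cancel])
  have h1 : ∀ a < 11, 7 ≤ a → (k i)⁻¹ * x ∈ C1 (sec (lam a) * s * (sec (lam a))⁻¹) := by
    intro a h2 h1
    have hd := h.d_mem hk h1 h2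
    refine mem_C1.mpr (conj_eq_iff_comm.mp (Md.both (h.a.md_conj hq hd.1) ?_ h.ne))
    simpa only [mul_assoc, mul_inv_rev] using
      ((h.b.md_conj hx.1 hd.2).conj (cinv hks)).trans h.b.tt (h.kS' hk hi h1 h2)
  have h2 : ∀ a < 11, 7 ≤ a → Q ⊓ Q' ≤ C1 (sec (lam a) * s * (sec (lam a))⁻¹) :=
    fun a h2 h1 d hd => mem_C1.mpr (h.abel hd (h.d_mem hk h1 h2))
  have h3 := le_of_card_le (le_inf (le_inf (le_inf (le_inf inf_le_left (h2 10 (by omega) (by omega)))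
    (h2 7 (by omega) (by omega))) (h2 8 (by omega) (by omega))) (h2 9 (by omega) (by omega)))
    ((h.peel (y := fun a => sec (lam a) * s * (sec (lam a))⁻¹)
      fun a => ⟨_, h.st _, h.m.sph _, rfl⟩).1.trans h.main.1)
    ⟨⟨⟨⟨hq, h1 10 (by omega) (by omega)⟩, h1 7 (by omega) (by omega)⟩, h1 8 (by omega) (by omega)⟩,
      h1 9 (by omega) (by omega)⟩
  simpa using Q'.mul_mem hx.1 (inv_mem h3.2)

theorem k_sq {i : ℕ} (hi : i < 3) : k i * k i = 1 := by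
  have hkt := h.m.cen _ (hk i hi).1
  refine Md.both (h.m.md h.a (mul_mem (hk i hi).1 (hk i hi).1) (one_mem _) ?_)
    ((h.b.sq (h.k_mem hk hi)).imp_right fun e1 => by rw [e1, one_mul]) h.ne
  rw [h.a.mul _ _ hkt hkt, h.a.ph_one, (hk i hi).2]
  exact (by decide : ∀ i < 3, τ i * τ i = 1) i hi

theorem k_comm {i j : ℕ} (hi : i < 3) (hj : j < 3) : k i * k j = k j * k i := by
  have h1 := h.m.cen _ (hk i hi).1
  have h2 := h.m.cen _ (hk j hj).1
  refine Md.both (h.m.md h.a (mul_mem (hk i hi).1 (hk j hj).1) (mul_mem (hk j hj).1 (hk i hi).1) ?_)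
    (h.b.com _ (h.k_mem hk hi) _ (h.k_mem hk hj)) h.ne
  rw [h.a.mul _ _ h1 h2, h.a.mul _ _ h2 h1, (hk i hi).2, (hk j hj).2]
  exact (by decide : ∀ i < 3, ∀ j < 3, τ i * τ j = τ j * τ i) i hi j hj

omit [Finite G] in
theorem k_e {i : ℕ} (hi : i < 3) : k i * e i * (k i)⁻¹ = (e i)⁻¹ :=
  h.m.cj2 h.a (hk i hi).1 (by
    rw [(hk i hi).2]; exact (by decide : ∀ i < 3, τ i * ε i * (τ i)⁻¹ = (ε i)⁻¹) i hi)

omit [Finite G] in
theorem k_e' {i j : ℕ} (hi : i < 3) (hj : j < 3) (hn : i ≠ j) : k i * e j = e j * k i :=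
  conj_eq_iff_comm.mp (h.m.cj1 h.a (hk i hi).1 (by
    rw [(hk i hi).2]
    exact (by decide : ∀ i < 3, ∀ j < 3, i ≠ j → τ i * ε j * (τ i)⁻¹ = ε j) i hi j hj hn))

theorem n_sq {i : ℕ} (hi : i < 3) : e i * k i * (e i * k i) = 1 := by
  calc _ = e i * (k i * e i * (k i)⁻¹) * (k i * k i) := by group
    _ = _ := by rw [h.k_e hk hi, h.k_sq hk hi]; group

omit h hk [Finite G] in
theorem lt_k {a : ℕ} (ha : a < 3) : lt0 t s e sec k a = k a := if_pos ha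

omit h hk [Finite G] in
theorem lt_S {a : ℕ} (h1 : 3 ≤ a) (h2 : a < 11) :
    lt0 t s e sec k a = sec (lam a) * s * (sec (lam a))⁻¹ := by
  rw [lt0, if_neg (by omega), if_pos h2]

omit h hk [Finite G] in
theorem lt_n {a : ℕ} (ha : a < 3) : lt0 t s e sec k (12 + a) = e a * k a := by
  rw [lt0, if_neg (by omega), if_neg (by omega), if_neg (by omega), if_pos (by omega),
    Nat.add_sub_cancel_left]

omit [Finite G] in
theorem lt_t (a : ℕ) : lt0 t s e sec k a * t = t * lt0 t s e sec k a := by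
  unfold lt0
  split_ifs with h1 h2 h3 h4
  · exact h.m.cen _ (hk a h1).1
  · exact h.a.cen _ (h.a.norm (h.st _) h.sQ)
  · rfl
  · exact cmul (h.m.cen _ (h.m.eM _)) (h.m.cen _ (hk _ (by omega)).1)
  · group

theorem ts : TS (lt0 t s e sec k) := by
  refine ⟨fun a => ?_, fun a ha b hb => ?_⟩
  · unfold lt0
    split_ifs with h1 h2 h3 h4
    · exact h.k_sq hk h1
    · exact h.sq _
    · exact h.a.tt
    · exact h.n_sq hk (by omega)
    · exact one_mul _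
  by_cases h1 : a < 3
  · rw [lt_k h1, lt_k (hb.trans h1), if_pos ((by decide : ∀ a < 3, ∀ b < a, sm b a = 0) a h1 b hb),
      mul_one, h.k_comm hk h1 (hb.trans h1)]
  by_cases h2 : a = 11
  · subst h2
    rw [if_pos ((by decide : ∀ b < 11, sm b 11 = 0) b hb), mul_one]
    exact (h.lt_t hk b).symm
  rw [lt_S (by omega) (by omega)]
  by_cases h3 : b < 3
  · have h4 := h.kS hk h3 (a := a) (by omega) (by omega)
    rw [inv_inv, mul_assoc, inv_mul_eq_iff_eq_mul] at h4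
    rw [lt_k h3, h4, mul_assoc (k b)]
    split_ifs with h5
    · rfl
    · have := (by decide : ∀ b < 3, ∀ a < 11, sm b a < 11) b h3 a (by omega)
      rw [lt_S (by have := sm_ne b (by omega) a ha h5; omega) this]
  · rw [lt_S (by omega) (by omega)]
    rcases (by decide +kernel : ∀ a < 11, ∀ b < a, 3 ≤ b →
      (sm b a = 0 ∧ Near ((lam b)⁻¹ * lam a)) ∨ (sm b a = 11 ∧ ¬ Near ((lam b)⁻¹ * lam a)))
      a (by omega) b hb (by omega) with ⟨h4, h5⟩ | ⟨h4, h5⟩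
    · rw [if_pos h4, mul_one]
      exact h.comm2 (h.st _) (h.st _) (by rwa [h.m.sph, h.m.sph])
    · rw [h4, if_neg (by norm_num)]
      exact (h.a.com _ (h.a.norm (h.st _) h.sQ) _ (h.a.norm (h.st _) h.sQ)).resolve_left
        (h.anti2 (h.st _) (h.st _) (by rwa [h.m.sph, h.m.sph]))

omit [Finite G] in
theorem QQ_le : QQ (lt0 t s e sec k) ≤ Q := by
  refine (closure_le _).mpr ?_
  rintro _ ⟨a, ha, h1, rfl⟩
  by_cases h2 : a = 11
  · subst h2; exact h.a.tQ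
  · rw [lt_S h1 (by omega)]
    exact h.a.norm (h.st _) h.sQ

theorem code {q : G} (hq : q ∈ Q) : ∃ c < 512, q = E (lt0 t s e sec k) (8 * c) := by
  have h1 := (Nat.bijective_iff_injective_and_card (fun c : Fin 512 =>
    (⟨E (lt0 t s e sec k) (8 * c), h.QQ_le hk (E_mem_QQ _ (by
      show 8 * (c : ℕ) &&& (2 ^ 3 - 1) = 0
      rw [Nat.and_two_pow_sub_one_eq_mod]; omega))⟩ : Q))).mpr
    ⟨fun a b e1 => Fin.ext (by
      have := (h.ts hk).nd h.a.t1 _ (by omega) _ (by omega) (congrArg Subtype.val e1)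
      omega), by rw [h.a.card, Nat.card_fin]⟩
  obtain ⟨c, e1⟩ := h1.2 ⟨q, hq⟩
  exact ⟨c, c.2, (congrArg Subtype.val e1).symm⟩

theorem mem_BB {c : G} (hc : c * t = t * c) (e1 : InT σ0 (ph c)) : c ∈ BB (lt0 t s e sec k) := by
  obtain ⟨a, -, b, -, d, -, e2⟩ := (by decide +kernel : ∀ l, InT σ0 l → ∃ a < 2, ∃ b < 2, ∃ d < 2,
    l = τ 0 ^ a * τ 1 ^ b * τ 2 ^ d) _ e1
  have h0 := h.m.cen _ (hk 0 (by norm_num)).1
  have h1 := h.m.cen _ (hk 1 (by norm_num)).1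
  have h2 := h.m.cen _ (hk 2 (by norm_num)).1
  have h3 := cmul (Commute.pow_left h0 a) (Commute.pow_left h1 b)
  obtain ⟨q, -, e3⟩ := h.code hk (h.a.div_mem hc (cmul h3 (Commute.pow_left h2 d)) (by
    rw [h.a.mul _ _ h3 (Commute.pow_left h2 d), h.a.mul _ _ (Commute.pow_left h0 a)
      (Commute.pow_left h1 b), h.a.ph_pow h0, h.a.ph_pow h1, h.a.ph_pow h2, (hk 0 (by norm_num)).2,
      (hk 1 (by norm_num)).2, (hk 2 (by norm_num)).2, e2]))
  rw [mul_inv_eq_iff_eq_mul.mp e3]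
  exact mul_mem (E_mem_BB _ _) (mul_mem (mul_mem (pow_mem (g_mem_BB _ (a := 0) (by norm_num)) a)
    (pow_mem (g_mem_BB _ (a := 1) (by norm_num)) b)) (pow_mem (g_mem_BB _ (a := 2) (by norm_num)) d))

omit [Finite G] in
theorem PP_t {p : G} (hp : p ∈ PP (lt0 t s e sec k)) : p * t = t * p :=
  mem_C1.mp ((closure_le (C1 t)).mpr (by rintro _ ⟨a, -, rfl⟩; exact mem_C1.mpr (h.lt_t hk a)) hp)

theorem PP_onto (l : L3) : ∃ p ∈ PP (lt0 t s e sec k), ph p = l := by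
  have h1 : ∀ i : Fin 3, ∃ p ∈ PP (lt0 t s e sec k), ph p = Pi.mulSingle i (l i) := fun i => by
    obtain ⟨a, -, b, -, e1⟩ := (by decide +kernel : ∀ (i : Fin 3) (x : Equiv.Perm (Fin 3)), ∃ a < 3,
      ∃ b < 2, (ε i * τ i * τ i) ^ a * τ i ^ b = Pi.mulSingle i x) i (l i)
    have h1 := g_mem_PP (lt0 t s e sec k) (a := i) (by omega)
    have h2 := g_mem_PP (lt0 t s e sec k) (a := 12 + i) (by omega)
    rw [lt_k i.2] at h1
    rw [lt_n i.2] at h2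
    refine ⟨_, mul_mem (pow_mem (mul_mem h2 h1) a) (pow_mem h1 b), ?_⟩
    rw [h.a.mul _ _ (h.PP_t hk (pow_mem (mul_mem h2 h1) a)) (h.PP_t hk (pow_mem h1 b)),
      h.a.ph_pow (h.PP_t hk (mul_mem h2 h1)), h.a.ph_pow (h.PP_t hk h1),
      h.a.mul _ _ (h.PP_t hk h2) (h.PP_t hk h1), h.a.mul _ _ (h.m.cen _ (h.m.eM i)) (h.PP_t hk h1),
      h.m.eph, (hk i i.2).2, e1]
  obtain ⟨p0, h2, e0⟩ := h1 0
  obtain ⟨p1, h3, e1⟩ := h1 1
  obtain ⟨p2, h4, e2⟩ := h1 2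
  refine ⟨_, mul_mem (mul_mem h2 h3) h4, ?_⟩
  rw [h.a.mul _ _ (h.PP_t hk (mul_mem h2 h3)) (h.PP_t hk h4), h.a.mul _ _ (h.PP_t hk h2)
    (h.PP_t hk h3), e0, e1, e2]
  funext j
  fin_cases j <;> simp

omit [Finite G] in
theorem BB_T {b : G} (hb : b ∈ BB (lt0 t s e sec k)) : InT σ0 (ph b) := by
  induction hb using closure_induction with
  | mem x hx =>
    obtain ⟨a, ha, rfl⟩ := hx
    by_cases h1 : a < 3
    · rw [lt_k h1, (hk a h1).2]
      exact (by decide : ∀ i < 3, InT σ0 (τ i)) a h1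
    · rw [h.a.ph_Q (h.QQ_le hk (subset_closure ⟨a, ha, by omega, rfl⟩))]
      decide
  | one => rw [h.a.ph_one]; decide
  | mul x y hx hy h1 h2 =>
    rw [h.a.mul _ _ (h.PP_t hk (BB_le_PP _ hx)) (h.PP_t hk (BB_le_PP _ hy))]
    exact h1.mul σ0_tr h2
  | inv x hx h1 =>
    rwa [h.a.ph_inv (h.PP_t hk (BB_le_PP _ hx)), inv_eq_of_mul_eq_one_right (h1.sq σ0_tr)]

theorem pure {q : G} (hq : q ∈ QQ (lt0 t s e sec k)) (hD : Cj t q) :
    q = t ∨ ∃ p ∈ PP (lt0 t s e sec k), q = p * lt0 t s e sec k 10 * p⁻¹ := by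
  refine or_iff_not_imp_left.mpr fun hne => ?_
  have h0 := hD.ne_one h.a.t1
  obtain ⟨x, rfl⟩ := hD
  obtain ⟨-, σ, h1, -, h2⟩ := (h.a.np (h.a.conj x) (h.QQ_le hk hq) hne).main
  obtain ⟨l, hl⟩ := exists_conj_σ h1
  obtain ⟨p, hp, rfl⟩ := h.PP_onto hk l
  have hpt := h.PP_t hk hp
  have hq' := h.a.norm hpt (h.QQ_le hk hq)
  have h3 : ∀ i < 3, Md t (k i * (p * (x * t * x⁻¹) * p⁻¹) * (k i)⁻¹) (p * (x * t * x⁻¹) * p⁻¹) := by
    intro i hi
    obtain ⟨a, ha, e1⟩ := h2 ((ph p)⁻¹ * τ i * ph p) ((hl _).mpr (by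
      simpa [mul_assoc] using (by decide : ∀ i < 3, InT σ0 (τ i)) i hi))
    have hat := mem_C1.mp ha.2
    have h3 := h.a.md_of_ph (h.m.cen _ (hk i hi).1) (cmul (cmul hpt hat) (cinv hpt)) (by
      rw [h.a.ph_conj hpt hat, e1, (hk i hi).2]; group) hq'
    rwa [conj_eq_iff_comm.mpr (comm_conj ((h.a.conj x).cen a ha.1))] at h3
  obtain ⟨c, hc, e1⟩ := h.code hk hq'
  have hs := h.ts hk
  have hn := hs.nd h.a.t1
  have ht : E (lt0 t s e sec k) 2048 = t := E_pow _ (a := 11) (by norm_num)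
  have h4 := al2_spec chk_fix (i := c) hc
  rw [al_intro fun i hi => by
    have h4 := h3 i hi
    rw [e1, ← lt_k (t := t) (s := s) (e := e) (sec := sec) (k := k) hi,
      ← hs.E_cj1 (by omega) (by omega)] at h4
    rw [Bool.or_eq_true, Nat.beq_eq, Nat.beq_eq]
    exact h4.imp (hn _ (cjC_lt _ _) _ (by omega)) fun e2 => hn _ (cjC_lt _ _) _ (mulC_lt _ _)
      (by rw [hs.E_mul (by omega) (by norm_num), ht, e2])] at h4
  simp only [Bool.not_true, Bool.false_or, Bool.or_eq_true, Nat.beq_eq] at h4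
  have h5 : x * t * x⁻¹ = p⁻¹ * E (lt0 t s e sec k) (8 * c) * p := by rw [← e1]; group
  rcases h4 with ((rfl | rfl) | rfl) | rfl
  · exact absurd (by rw [h5]; simp) h0
  · exact ⟨p⁻¹, inv_mem hp, by
      rw [h5, inv_inv, ← E_pow (lt0 t s e sec k) (a := 10) (by norm_num)]; rfl⟩
  · exact absurd (by rw [h5, ht, mul_assoc, ← hpt, inv_mul_cancel_left]) hne
  · refine ⟨p⁻¹ * lt0 t s e sec k 3, mul_mem (inv_mem hp) (g_mem_PP _ (by norm_num)), ?_⟩
    have h6 := hs.E_cj1 (a := 3) (c := 2 ^ 10) (by norm_num) (by norm_num)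
    rw [E_pow _ (by norm_num), show cjC (Nat.shiftLeft 1 3) (2 ^ 10) = 8 * 384 by decide +kernel] at h6
    rw [h5, h6]
    group

theorem pre : Pre (lt0 t s e sec k) Q' ph' := by
  have h10 : lt0 t s e sec k 10 = s := (lt_S (by norm_num) (by norm_num)).trans h.s_eq
  have he : ∀ i < 3, ∀ j < 3, Commute (e i) (e j) := fun i hi j hj =>
    conj_eq_iff_comm.mp (h.m.cj1 h.a (h.m.eM i) (by
      rw [h.m.eph]; exact (by decide : ∀ i < 3, ∀ j < 3, ε i * ε j * (ε i)⁻¹ = ε j) i hi j hj))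
  refine ⟨h.ts hk, fun i hi a ha hn => ?_, fun i hi => ?_, fun i hi j hj => ?_, h.a.t1,
    h10.symm ▸ h.b, ?_, fun c h1 h2 => h.mem_BB hk h2 (h.stab0 h2 (h10 ▸ h1)), fun c hc => ?_,
    fun c hc h5 => ?_, fun c hc _ hn => ?_, fun q hq hD => h.pure hk hq hD⟩
  · rw [lt_n hi]
    nth_rewrite 2 [← inv_eq_of_mul_eq_one_right (h.n_sq hk hi)]
    by_cases h1 : a < 3
    · rw [(by decide : ∀ i < 3, ∀ a < 3, a ≠ i → rf i a = a) i hi a h1 hn, lt_k h1]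
      exact conj_eq_iff_comm.mpr (cmul (h.k_e' hk h1 hi hn).symm (h.k_comm hk hi h1))
    by_cases h2 : a = 11
    · rw [h2, (by decide : ∀ i < 3, rf i 11 = 11) i hi]
      exact conj_eq_iff_comm.mpr (cmul (h.m.cen _ (h.m.eM i)) (h.m.cen _ (hk i hi).1))
    obtain ⟨h3, h4, h5⟩ := (by decide +kernel : ∀ i < 3, ∀ a < 11, 3 ≤ a → 3 ≤ rf i a ∧ rf i a < 11 ∧
      InT σ0 ((lam (rf i a))⁻¹ * (ε i * τ i * lam a))) i hi a (by omega) (by omega)
    rw [lt_S (by omega) (by omega), lt_S h3 h4]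
    exact h.cjS (mul_mem (h.m.eM i) (hk i hi).1) (by
      rwa [h.a.mul _ _ (h.m.cen _ (h.m.eM i)) (h.m.cen _ (hk i hi).1), h.m.eph, (hk i hi).2])
  · rw [lt_n hi, lt_k hi]
    calc _ = e i * (k i * k i) * e i * k i := by group
      _ = e i ^ 3 * (e i)⁻¹ * k i := by
          rw [h.k_sq hk hi, mul_one, pow_succ, mul_inv_cancel_right, pow_two]
      _ = k i * e i * (k i)⁻¹ * k i := by rw [h.m.e3, h.k_e hk hi, one_mul]
      _ = _ := by rw [mul_assoc (k i) _ (k i), mul_assoc (e i), h.k_sq hk hi]; group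
  · rw [lt_n hi, lt_n hj]
    by_cases hij : i = j
    · rw [hij]
    · exact cmul (Commute.mul_right (he i hi j hj) (h.k_e' hk hj hi (Ne.symm hij)).symm)
        (Commute.mul_right (h.k_e' hk hi hj hij) (h.k_comm hk hi hj))
  · intro a ha
    simp only [List.mem_cons, List.not_mem_nil, or_false] at ha
    rcases ha with rfl | rfl | rfl | rfl | rfl | rfl | rfl
    · exact h.k_mem hk (by norm_num)
    · exact h.k_mem hk (by norm_num)
    · exact h.k_mem hk (by norm_num)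
    · exact (h.d_mem hk (a := 7) (by norm_num) (by norm_num)).2
    · exact (h.d_mem hk (a := 8) (by norm_num) (by norm_num)).2
    · exact (h.d_mem hk (a := 9) (by norm_num) (by norm_num)).2
    · exact h.tQ
  · obtain ⟨p, hp, e1⟩ := h.PP_onto hk (ph c)
    obtain ⟨q, -, e2⟩ := h.code hk (h.a.div_mem hc (h.PP_t hk hp) e1.symm)
    rw [mul_inv_eq_iff_eq_mul.mp e2]
    exact mul_mem (BB_le_PP _ (E_mem_BB _ _)) hp
  · have h1 : ph c = 1 := funext fun i => (by decide +kernel : ∀ a : Equiv.Perm (Fin 3),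
      a ^ 5 = 1 → a = 1) _
      (congrFun ((h.a.ph_pow hc 5).symm.trans (by rw [h5, h.a.ph_one])) i)
    rwa [pow_succ, h.a.pow4 ((h.a.ker c hc).mp h1), one_mul] at h5
  · have hct := h.PP_t hk hc
    refine h.mem_BB hk hct (InT.of_norm σ0_tr fun l hl => ?_)
    have h1 := h.mem_BB hk (h.st l) (by rwa [h.m.sph])
    rw [← h.m.sph l, ← h.a.ph_conj hct (h.st l)]
    exact h.BB_T hk (hn _ h1)

end Ex

end Cfsg.Agent.H6.O8
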