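import Cfsg.Agent.H6.O8.Mod

/-!
# Properties of the model and their transfer to abstract systems
-/

set_option autoImplicit false

namespace Cfsg.Agent.H6.O8

open Subgroup Matrix Cfsg.Agent.H7
open scoped commutatorElement Pointwise

/-- The order in which the basis vectors are fixed. -/
def ord (k : ℕ) : ℕ := [1, 16, 2, 32, 4, 64, 8, 128].getD k 0

/-- The word for step `k` and vector `v`. -/
def tw (k v : ℕ) : List ℕ := ((trW.getD k []).lookup v).getD []

theorem ord_lt : ∀ k < 8, ord k < 256 ∧ ord k ≠ 0 := by decide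

theorem chk_step : al 6 (fun k => al 256 fun v => Nat.beq v 0 || (qb v != qb (ord k)) ||
    ex k (fun j => qb (v ^^^ ord j) != qb (ord k ^^^ ord j)) ||
    (Nat.beq (aw (tw k v) v) (ord k) && al k (fun j => Nat.beq (aw (tw k v) (ord j)) (ord j)) &&
      (tw k v).all (Nat.blt · 16))) = true := by
  decide +kernel

theorem chk_last : al 256 (fun v => al 256 fun v' => qb v || qb v' || !(qb (v ^^^ v')) ||
    ex 6 (fun j => qb (v ^^^ ord j) || qb (v' ^^^ ord j)) ||
    (Nat.beq v 8 && Nat.beq v' 128) || (Nat.beq v 128 && Nat.beq v' 8)) = true := by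
  decide +kernel

theorem qb_eq {g : OO} {u v : ℕ} (hu : u < 256) (hv : v < 256) (e : ap g (vec u) = vec v) :
    qb v = qb u := by
  have := ap_quad g (vec u)
  rw [e, quad_vec u hu, quad_vec v hv] at this
  revert this
  cases qb u <;> cases qb v <;> decide

theorem qb_xor {g : OO} {u v u' v' : ℕ} (hu : u < 256) (hv : v < 256) (hu' : u' < 256)
    (hv' : v' < 256) (e : ap g (vec u) = vec v) (e' : ap g (vec u') = vec v') :
    qb (v ^^^ v') = qb (u ^^^ u') :=
  qb_eq (g := g) (Nat.xor_lt_two_pow (n := 8) hu hu') (Nat.xor_lt_two_pow (n := 8) hv hv')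
    (by rw [vec_xor, vec_xor, ap_add, e, e'])

theorem ne_zero {g : OO} {u v : ℕ} (hu : u < 256) (h0 : u ≠ 0) (e : ap g (vec u) = vec v) :
    v ≠ 0 := by
  rintro rfl
  have h1 := ap_inv e
  have h2 : vec 0 = 0 := by decide
  rw [h2, ap, mulVec_zero, ← h2] at h1
  exact h0 (vec_inj (by norm_num) hu h1).symm

theorem step (g : OO) {k : ℕ} (hk : k ≤ 6) :
    ∃ m ∈ HH elt, ∀ j < k, ap (m * g) (vec (ord j)) = vec (ord j) := by
  induction k with
  | zero => exact ⟨1, one_mem _, fun j hj => by omega⟩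
  | succ k ih =>
    obtain ⟨m, hm, h⟩ := ih (by omega)
    obtain ⟨v, hv, e⟩ := vec_surj (ap (m * g) (vec (ord k)))
    have h1 := al_spec (al_spec chk_step (show k < 6 by omega)) hv
    have hk' := ord_lt k (by omega)
    simp only [Bool.or_eq_true, Bool.and_eq_true, Nat.beq_eq, bne_iff_ne, List.all_eq_true,
      Nat.blt_eq] at h1
    rcases h1 with ((h1 | h1) | h1) | ⟨⟨h1, h2⟩, h3⟩
    · exact absurd h1 (ne_zero hk'.1 hk'.2 e.symm)
    · exact absurd (qb_eq hk'.1 hv e.symm) h1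
    · obtain ⟨j, hj, h1⟩ := ex_spec h1
      have hj' := (ord_lt j (by omega)).1
      exact absurd (qb_xor hk'.1 hv hj' hj' e.symm (h j hj)) (bne_iff_ne.mp h1)
    · refine ⟨ev elt (tw k v) * m, mul_mem (ev_mem fun a ha => g_mem_HH _ (h3 a ha)) hm,
        fun j hj => ?_⟩
      rw [mul_assoc, ap_mul]
      rcases Nat.lt_succ_iff_lt_or_eq.mp hj with hj | rfl
      · rw [h j hj, (ap_ev _ (ord_lt j (by omega)).1).2, Nat.eq_of_beq_eq_true (al_spec h2 hj)]
      · rw [← e, (ap_ev _ hv).2, h1]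

theorem cover (g : OO) : g ∈ HH elt ∨ g * elt 16 ∈ HH elt := by
  obtain ⟨m, hm, h⟩ := step g le_rfl
  obtain ⟨v, hv, e⟩ := vec_surj (ap (m * g) (vec 8))
  obtain ⟨v', hv', e'⟩ := vec_surj (ap (m * g) (vec 128))
  have h1 := al_spec (al_spec chk_last hv) hv'
  rw [qb_eq (by norm_num) hv e.symm, qb_eq (by norm_num) hv' e'.symm,
    qb_xor (by norm_num) hv (by norm_num) hv' e.symm e'.symm] at h1
  simp only [Bool.or_eq_true, Bool.and_eq_true, Nat.beq_eq] at h1
  have key : ∀ w : List ℕ, (∀ j < 6, aw w (ord j) = ord j) → aw w 8 = v → aw w 128 = v' →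
      m * g = ev elt w := by
    intro w h1 h2 h3
    refine OO_ext fun j hj => ?_
    obtain ⟨i, hi, e1⟩ : ∃ i < 8, ord i = 2 ^ j := by revert j; decide
    rw [← e1, (ap_ev w (ord_lt i hi).1).2]
    by_cases h6 : i < 6
    · rw [h i h6, h1 i h6]
    · have : i = 6 ∨ i = 7 := by omega
      rcases this with rfl | rfl
      · exact e.symm.trans (congrArg vec h2.symm)
      · exact e'.symm.trans (congrArg vec h3.symm)
  rcases h1 with ((h1 | h1) | ⟨rfl, rfl⟩) | ⟨rfl, rfl⟩
  · exact absurd h1 (by decide)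
  · obtain ⟨j, hj, h1⟩ := ex_spec h1
    have hj' := (ord_lt j (by omega)).1
    rw [qb_xor (by norm_num) hv hj' hj' e.symm (h j hj),
      qb_xor (by norm_num) hv' hj' hj' e'.symm (h j hj)] at h1
    exact absurd h1 (by interval_cases j <;> decide)
  · left
    have := key [] (fun _ _ => rfl) rfl rfl
    rw [ev_nil, mul_eq_one_iff_inv_eq] at this
    exact this ▸ inv_mem hm
  · right
    have := key [16] (by decide +kernel) (by decide +kernel) (by decide +kernel)
    rw [ev_cons, ev_nil, mul_one] at this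
    rw [eq_inv_mul_of_mul_eq this, mul_assoc, sysM.sq, mul_one]
    exact inv_mem hm

/-- The graph automorphism exchanging the nodes `0` and `1`. -/
def sw01 (a : ℕ) : ℕ := [1, 0, 2, 3, 5, 4, 6, 8, 7, 9, 10, 11, 13, 12, 14, 15].getD a a

theorem chk_r : al 16 (fun a => weq [16, a, 16] [sw01 a] && Nat.blt (sw01 a) 16) = true := by
  decide +kernel

theorem r_norm {x : OO} (hx : x ∈ HH elt) : elt 16 * x * elt 16 ∈ HH elt := by
  induction hx using closure_induction with
  | mem x hx =>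
    obtain ⟨a, ha, rfl⟩ := hx
    have := al_spec chk_r ha
    simp only [Bool.and_eq_true, Nat.blt_eq] at this
    have h1 := weq_spec this.1
    simp only [ev_cons, ev_nil, mul_one] at h1
    rw [mul_assoc, h1]
    exact g_mem_HH _ this.2
  | one => rw [mul_one, sysM.sq]; exact one_mem _
  | mul x y _ _ hx hy => simpa only [mul_assoc, sysM.sq'] using mul_mem hx hy
  | inv x _ hx => simpa only [_root_.mul_inv_rev, sysM.inv, mul_assoc] using inv_mem hx

theorem HH_eq : HH elt = commutator OO := by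
  refine le_antisymm ?_ ?_
  · have hN : ∀ u x : OO, x ∈ commutator OO → u * x * u⁻¹ ∈ commutator OO := fun u x hx =>
      Normal.conj_mem inferInstance x hx u
    have h4 : ∀ i < 3, elt (4 + i) ∈ commutator OO := by
      intro i hi
      have h1 := sysM.cm 3 (by norm_num) i hi
      rw [if_neg (by interval_cases i <;> decide),
        show sm i 3 = 4 + i by interval_cases i <;> decide] at h1
      have h2 : elt (4 + i) = ⁅elt 3, elt i⁆ := by
        rw [commutatorElement_def, sysM.inv, sysM.inv, mul_assoc (elt 3 * elt i)]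
        nth_rewrite 2 [h1]
        simp only [mul_assoc, sysM.sq']
      rw [h2]
      exact commutator_mem_commutator (mem_top _) (mem_top _)
    have hr : ∀ i < 4, ∀ a < 12, a ≠ i → elt a ∈ commutator OO → elt (rf i a) ∈ commutator OO := by
      intro i hi a ha hn h
      rw [← sysM.rfl' i hi a ha hn]
      simpa only [sysM.inv] using hN (elt (12 + i)) _ h
    have h12 : ∀ a < 12, elt a ∈ commutator OO := by
      have a4 := h4 0 (by norm_num)
      have a5 := h4 1 (by norm_num)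
      have a6 := h4 2 (by norm_num)
      have a9 := hr 1 (by norm_num) 4 (by norm_num) (by norm_num) a4
      have a10 := hr 2 (by norm_num) 9 (by norm_num) (by norm_num) a9
      intro a ha
      interval_cases a
      · exact hr 3 (by norm_num) 4 (by norm_num) (by norm_num) a4
      · exact hr 3 (by norm_num) 5 (by norm_num) (by norm_num) a5
      · exact hr 3 (by norm_num) 6 (by norm_num) (by norm_num) a6
      · exact hr 0 (by norm_num) 4 (by norm_num) (by norm_num) a4
      · exact a4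
      · exact a5
      · exact a6
      · exact hr 0 (by norm_num) 10 (by norm_num) (by norm_num) a10
      · exact hr 1 (by norm_num) 10 (by norm_num) (by norm_num) a10
      · exact a9
      · exact a10
      · exact hr 3 (by norm_num) 10 (by norm_num) (by norm_num) a10
    refine (closure_le _).mpr ?_
    rintro _ ⟨a, ha, rfl⟩
    show elt a ∈ commutator OO
    by_cases h1 : a < 12
    · exact h12 a h1
    · have h2 := sysM.nx (a - 12) (by omega)
      have h3 := hN (elt (a - 12) * elt a) _ (h12 (a - 12) (by omega))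
      rw [show 12 + (a - 12) = a by omega] at h2
      rw [_root_.mul_inv_rev, sysM.inv, sysM.inv, ← h2] at h3
      simpa only [mul_assoc, sysM.sq', sysM.sq, mul_one] using h3
  · have hn : (HH elt).Normal := ⟨fun x hx g => by
      rcases cover g with h | h
      · exact mul_mem (mul_mem h hx) (inv_mem h)
      · simpa only [_root_.mul_inv_rev, sysM.inv, mul_assoc, sysM.sq'] using
          mul_mem (mul_mem h (r_norm hx)) (inv_mem h)⟩
    rw [_root_.commutator_def, commutator_le]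
    intro a _ b _
    rw [commutatorElement_def]
    rcases cover a with ha | ha
    · have := mul_mem ha (hn.conj_mem _ (inv_mem ha) b)
      simpa only [mul_assoc] using this
    rcases cover b with hb | hb
    · exact mul_mem (hn.conj_mem _ hb a) (inv_mem hb)
    · simpa only [_root_.mul_inv_rev, sysM.inv, mul_assoc, sysM.sq'] using
        mul_mem (mul_mem (mul_mem ha (r_norm hb)) (r_norm (inv_mem ha))) (inv_mem hb)

theorem chk_c2 : repsA.all (fun w =>
    weq (List.replicate 12 (11 :: (w ++ 11 :: w.reverse))).flatten []) = true := by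
  decide +kernel

theorem ev_replicate {H : Type*} [Group H] (g : ℕ → H) (n : ℕ) (w : List ℕ) :
    ev g (List.replicate n w).flatten = ev g w ^ n := by
  induction n with
  | zero => simp
  | succ n ih => rw [List.replicate_succ, List.flatten_cons, ev_append, ih, pow_succ']

theorem chk_c4 : al 256 (fun u => frc (aw [11, 2] u ^^^ u) fun v =>
    Nat.beq v 0 || qb v || Nat.beq v 1) = true := by
  decide +kernel

theorem c4M {k : OO} (hk : k ∈ HH elt) (hc : k * (elt 11 * elt 2) = elt 11 * elt 2 * k) :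
    k ∈ P3 elt := by
  have hz : elt 11 * elt 2 = ev elt [11, 2] := by simp
  have h1 : ap k (vec 1) = vec 1 := by
    obtain ⟨u, hu, e⟩ := vec_surj (ap k (vec 2))
    have h2 : vec 1 = ap (elt 11 * elt 2) (vec 2) + vec 2 := by
      rw [hz, (ap_ev _ (by norm_num)).2, ← vec_xor]
      exact congrArg vec (by decide +kernel)
    have h3 : ap k (vec 1) = vec (aw [11, 2] u ^^^ u) := by
      rw [h2, ap_add, ← ap_mul, hc, ap_mul, ← e, hz, (ap_ev _ hu).2, vec_xor]
    have h4 := al_spec chk_c4 hu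
    have h5 : aw [11, 2] u ^^^ u < 256 := Nat.xor_lt_two_pow (n := 8) (ap_ev _ hu).1 hu
    rw [frc_eq, qb_eq (by norm_num) h5 h3] at h4
    simp only [Bool.or_eq_true, Nat.beq_eq] at h4
    rcases h4 with (h4 | h4) | h4
    · exact absurd h4 (ne_zero (by norm_num) (by norm_num) h3)
    · exact absurd h4 (by decide)
    · rw [h3, h4]
  have h2 : ∀ p ∈ P3 elt, ap p (vec 1) = vec 1 := by
    intro p hp
    induction hp using closure_induction with
    | mem x hx =>
      obtain ⟨a, ha, hn, rfl⟩ := hx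
      refine (ax_spec a (by norm_num)).2.1.trans (congrArg vec ?_)
      revert a
      decide +kernel
    | one => exact ap_one _
    | mul x y _ _ hx hy => rw [ap_mul, hy, hx]
    | inv x _ hx => exact ap_inv hx
  obtain ⟨b, hb, w, hw, p, hp, rfl⟩ := sysM.bruC hk
  rw [ap_mul, h2 p hp, ap_mul] at h1
  have h3 := ap_inv h1
  rw [h2 _ (inv_mem (BB_le_P3 _ hb)), (ap_ev w (by norm_num)).2] at h3
  have h4 := vec_inj (by norm_num) (ap_ev w (by norm_num)).1 h3
  have h5 : ∀ w ∈ repsC, 1 = aw w 1 → w = [] := by decide +kernel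
  rw [h5 w hw h4, ev_nil, mul_one]
  exact mul_mem (BB_le_P3 _ hb) hp

theorem card_OO : ¬ 125 ∣ Nat.card OO := by
  intro h
  have h1 := h.trans (card_subgroup_dvd_card (isometryGroup (ZMod 2) (quadFormPlus 4 (ZMod 2))))
  have e : Ix ≃ Fin 8 := finSumFinEquiv
  rw [Nat.card_congr (Units.mapEquiv (reindexAlgEquiv (ZMod 2) (ZMod 2) e).toMulEquiv).toEquiv,
    card_GL_field, ZMod.card] at h1
  revert h1
  decide +kernel

/-- The words for the elements of a Sylow `5`-subgroup. -/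
def w5 (i j : ℕ) : List ℕ := (List.replicate i wa).flatten ++ (List.replicate j wb).flatten

theorem chk_5 : (weq (w5 5 0) [] && weq (w5 0 5) [] && weq (wa ++ wb) (wb ++ wa) &&
    wa.all (Nat.blt · 16) && wb.all (Nat.blt · 16) &&
    al 5 (fun i => al 5 fun j => (Nat.beq i 0 && Nat.beq j 0) || (!(weq (w5 i j) []) &&
      five.any fun x => Nat.beq x.1 i && Nat.beq x.2.1 j && Nat.blt x.2.2.1 3 &&
        x.2.2.2.all (Nat.blt · 16) &&
        weq (w5 i j ++ (x.2.2.2 ++ 11 :: x.2.2.1 :: x.2.2.2.reverse))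
          ((x.2.2.2 ++ 11 :: x.2.2.1 :: x.2.2.2.reverse) ++ w5 i j)))) = true := by
  decide +kernel

theorem weq_of {u w : List ℕ} (e : ev elt u = ev elt w) : weq u w = true := by
  have : ∀ n ≤ 8, al n (fun j => Nat.beq (aw u (Nat.shiftLeft 1 j)) (aw w (Nat.shiftLeft 1 j))) =
      true := by
    intro n hn
    induction n with
    | zero => rfl
    | succ n ih =>
      have h1 : Nat.shiftLeft 1 n < 256 := by
        rw [show Nat.shiftLeft 1 n = 2 ^ n from Nat.one_shiftLeft n]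
        exact two_pow_lt hn
      have h2 := vec_inj (ap_ev u h1).1 (ap_ev w h1).1 (by rw [← (ap_ev _ h1).2, ← (ap_ev _ h1).2, e])
      show (Nat.beq (aw u (Nat.shiftLeft 1 n)) (aw w (Nat.shiftLeft 1 n))).rec false _ = true
      rw [Nat.beq_eq.mpr h2]
      exact ih (by omega)
  exact this 8 le_rfl

theorem fiveM : (∃ y ∈ HH elt, y ≠ 1 ∧ y ^ 5 = 1) ∧ ∀ y ∈ HH elt, y ≠ 1 → y ^ 5 = 1 →
    ∃ u ∈ HH elt, ∃ i < 3, y * (u * (elt 11 * elt i) * u⁻¹) = u * (elt 11 * elt i) * u⁻¹ * y := by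
  haveI : Fact (Nat.Prime 5) := ⟨by norm_num⟩
  have h := chk_5
  simp only [Bool.and_eq_true, List.all_eq_true, Nat.blt_eq] at h
  obtain ⟨⟨⟨⟨⟨h1, h2⟩, h3⟩, h4⟩, h5⟩, h6⟩ := h
  have hw : ∀ i j, ev elt (w5 i j) = ev elt wa ^ i * ev elt wb ^ j := fun i j => by
    rw [w5, ev_append, ev_replicate, ev_replicate]
  have ha : ev elt wa ∈ HH elt := ev_mem fun a h => g_mem_HH _ (h4 a h)
  have hb : ev elt wb ∈ HH elt := ev_mem fun a h => g_mem_HH _ (h5 a h)
  have k1 := weq_spec h1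
  have k2 := weq_spec h2
  have k3 := weq_spec h3
  rw [hw, pow_zero, mul_one, ev_nil] at k1
  rw [hw, pow_zero, one_mul, ev_nil] at k2
  rw [ev_append, ev_append] at k3
  have k4 : ∀ i < 5, ∀ j < 5, (i = 0 ∧ j = 0) ∨ (ev elt wa ^ i * ev elt wb ^ j ≠ 1 ∧
      ∃ u ∈ HH elt, ∃ k < 3, ev elt wa ^ i * ev elt wb ^ j * (u * (elt 11 * elt k) * u⁻¹) =
        u * (elt 11 * elt k) * u⁻¹ * (ev elt wa ^ i * ev elt wb ^ j)) := by
    intro i hi j hj
    have := al_spec (al_spec h6 hi) hj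
    simp only [Bool.or_eq_true, Bool.and_eq_true, Nat.beq_eq, List.any_eq_true, Nat.blt_eq,
      List.all_eq_true, Bool.not_eq_true'] at this
    refine this.imp_right fun ⟨h7, ⟨i', j', k, w⟩, _, ⟨⟨_, hk⟩, h8⟩, h9⟩ => ⟨fun e => ?_,
      ev elt w, ev_mem fun a h => g_mem_HH _ (h8 a h), k, hk, ?_⟩
    · rw [weq_of (u := w5 i j) (w := []) (by rw [hw, e, ev_nil])] at h7
      exact absurd h7 (by simp)
    · have := weq_spec h9
      simpa only [ev_append, hw, ev_cons, sysM.ev_rev, mul_assoc] using this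
  generalize ev elt wa = a at *
  generalize ev elt wb = b at *
  have hab : Commute a b := k3
  have hmod : ∀ x : OO, x ^ 5 = 1 → ∀ n : ℕ, x ^ n = x ^ (n % 5) := fun x hx n => by
    rw [← Nat.div_add_mod n 5, pow_add, pow_mul, hx, one_pow, one_mul, Nat.div_add_mod]
  refine ⟨⟨a, ha, by simpa using ((k4 1 (by norm_num) 0 (by norm_num)).resolve_left
    (by norm_num)).1, k1⟩, fun y hy hy1 hy5 => ?_⟩
  let K : Subgroup OO :=
    { carrier := {x | ∃ i j : ℕ, x = a ^ i * b ^ j}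
      one_mem' := ⟨0, 0, by simp⟩
      mul_mem' := by
        rintro _ _ ⟨i, j, rfl⟩ ⟨i', j', rfl⟩
        exact ⟨i + i', j + j', by
          rw [pow_add, pow_add, mul_assoc, mul_assoc, ← mul_assoc (b ^ j),
            ← (hab.pow_pow i' j).eq, mul_assoc]⟩
      inv_mem' := by
        rintro _ ⟨i, j, rfl⟩
        refine ⟨4 * i, 4 * j, inv_eq_of_mul_eq_one_right ?_⟩
        rw [mul_assoc, ← mul_assoc (b ^ j), ← (hab.pow_pow _ j).eq, mul_assoc, ← pow_add,
          ← mul_assoc, ← pow_add, show i + 4 * i = 5 * i by ring, show j + 4 * j = 5 * j by ring,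
          pow_mul, pow_mul, k1, k2, one_pow, one_pow, mul_one] }
  have hK : IsPGroup 5 K := by
    rintro ⟨_, i, j, rfl⟩
    refine ⟨1, Subtype.ext ?_⟩
    show (a ^ i * b ^ j) ^ 5 ^ 1 = 1
    rw [pow_one, (hab.pow_pow i j).mul_pow, ← pow_mul, ← pow_mul, mul_comm i, mul_comm j, pow_mul,
      pow_mul, k1, k2, one_pow, one_pow, mul_one]
  have hKH : K ≤ HH elt := by
    rintro _ ⟨i, j, rfl⟩
    exact mul_mem (pow_mem ha i) (pow_mem hb j)
  have hc : 25 ≤ Nat.card K := by
    have : Function.Injective fun x : Fin 5 × Fin 5 =>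
        (⟨a ^ x.1.val * b ^ x.2.val, x.1, x.2, rfl⟩ : K) := by
      rintro ⟨i, j⟩ ⟨i', j'⟩ e
      have e1 : a ^ i.val * b ^ j.val = a ^ i'.val * b ^ j'.val := congrArg Subtype.val e
      have e2 : a ^ (i.val + 4 * i'.val) * b ^ (j.val + 4 * j'.val) = 1 := by
        rw [add_comm i.val, pow_add, pow_add, mul_assoc, ← mul_assoc (a ^ i.val), e1, mul_assoc,
          ← pow_add, ← mul_assoc, ← pow_add, show 4 * i'.val + i'.val = 5 * i'.val by ring,
          show j'.val + 4 * j'.val = 5 * j'.val by ring, pow_mul, pow_mul, k1, k2, one_pow, one_pow,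
          mul_one]
      rw [hmod a k1, hmod b k2] at e2
      have := (k4 _ (Nat.mod_lt _ (by norm_num)) _ (Nat.mod_lt _ (by norm_num))).resolve_right
        fun h => h.1 e2
      exact Prod.ext (Fin.ext (show i.val = i'.val by omega)) (Fin.ext (show j.val = j'.val by omega))
    simpa using Nat.card_le_card_of_injective _ this
  obtain ⟨S, hKS, hS⟩ := exists_isSylowIn_ge hK hKH
  have hSK : K = S := by
    refine eq_of_le_of_card_le hKS (le_trans ?_ hc)
    obtain ⟨n, hn⟩ := IsPGroup.iff_card.mp hS.2.1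
    have h7 := card_subgroup_dvd_card S
    rw [hn] at h7 ⊢
    by_contra h8
    have h9 : 3 ≤ n := by
      by_contra h9
      exact h8 (Nat.pow_le_pow_right (n := 5) (by norm_num) (show n ≤ 2 by omega))
    exact card_OO ((pow_dvd_pow 5 h9).trans h7)
  have hY : IsPGroup 5 (zpowers y) := IsPGroup.of_card (n := 1) (by
    rw [Nat.card_zpowers, orderOf_eq_prime hy5 hy1, pow_one])
  obtain ⟨g, hg, h7⟩ := hS.exists_le_conj hY ((zpowers_le).mpr hy)
  have h8 := mem_conj_smul.mp (h7 (mem_zpowers y))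
  rw [← hSK] at h8
  obtain ⟨i, j, e⟩ := h8
  rw [hmod a k1, hmod b k2] at e
  rcases k4 _ (Nat.mod_lt i (by norm_num)) _ (Nat.mod_lt j (by norm_num)) with ⟨e1, e2⟩ | ⟨-, u, hu, k, hk, e1⟩
  · rw [e1, e2] at e
    refine absurd ?_ hy1
    rw [pow_zero, pow_zero, mul_one] at e
    calc y = g * (g⁻¹ * y * g) * g⁻¹ := by group
      _ = 1 := by rw [e]; group
  · refine ⟨g * u, mul_mem hg hu, k, hk, ?_⟩
    rw [← e] at e1
    have := congrArg (fun x => g * x * g⁻¹) e1
    simpa only [mul_assoc, mul_inv_cancel_left, _root_.mul_inv_rev, mul_inv_cancel, mul_one] using this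

variable {H : Type*} [Group H] {g : ℕ → H}

/-- The system inside the subgroup generated by the model. -/
def gS (a : ℕ) : HH elt := if h : a < 16 then ⟨elt a, g_mem_HH _ h⟩ else 1

theorem gS_val {a : ℕ} (ha : a < 16) : (gS a : OO) = elt a := by rw [gS, dif_pos ha]

theorem Sys.transfer (h : Sys g) (hn : ND g) : ∃ ψ : HH elt →* H, Function.Injective ψ ∧
    (∀ a (ha : a < 16), ψ ⟨elt a, g_mem_HH _ ha⟩ = g a) ∧ (∀ x, x ∈ HH g ↔ ∃ y, ψ y = x) ∧
    ∀ y : HH elt, (y : OO) ∈ P3 elt → ψ y ∈ P3 g := by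
  obtain ⟨ψ, hψ⟩ := sysM.exists_hom ndM h
  obtain ⟨φ, hφ⟩ := h.exists_hom hn sysM
  have h1 : ∀ y : HH elt, ψ y ∈ HH g := by
    rintro ⟨y, hy⟩
    induction hy using closure_induction with
    | mem x hx => obtain ⟨a, ha, rfl⟩ := hx; rw [hψ a ha]; exact g_mem_HH _ ha
    | one => exact (map_one ψ).symm ▸ one_mem _
    | mul x y hx hy h1 h2 => exact (map_mul ψ ⟨x, hx⟩ ⟨y, hy⟩).symm ▸ mul_mem h1 h2
    | inv x hx h1 => exact (map_inv ψ ⟨x, hx⟩).symm ▸ inv_mem h1
  have h2 : ∀ y : HH elt, φ ⟨ψ y, h1 y⟩ = y := by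
    rintro ⟨y, hy⟩
    induction hy using closure_induction with
    | mem x hx =>
      obtain ⟨a, ha, rfl⟩ := hx
      exact (congrArg φ (Subtype.ext (hψ a ha))).trans (hφ a ha)
    | one => exact (congrArg φ (Subtype.ext (map_one ψ))).trans (map_one φ)
    | mul x y hx hy k1 k2 =>
      refine Eq.trans ?_ ((map_mul φ ⟨_, h1 ⟨x, hx⟩⟩ ⟨_, h1 ⟨y, hy⟩⟩).trans (by rw [k1, k2]))
      exact congrArg φ (Subtype.ext (map_mul ψ ⟨x, hx⟩ ⟨y, hy⟩))
    | inv x hx k1 =>
      refine Eq.trans ?_ ((map_inv φ ⟨_, h1 ⟨x, hx⟩⟩).trans (by rw [k1]))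
      exact congrArg φ (Subtype.ext (map_inv ψ ⟨x, hx⟩))
  refine ⟨ψ, fun x y e => Subtype.ext ?_, hψ, fun x => ⟨fun hx => ?_, fun ⟨y, e⟩ => e ▸ h1 y⟩,
    fun ⟨y, hy⟩ hp => ?_⟩
  · rw [← h2 x, ← h2 y]
    exact congrArg φ (Subtype.ext e)
  · induction hx using closure_induction with
    | mem x hx => obtain ⟨a, ha, rfl⟩ := hx; exact ⟨_, hψ a ha⟩
    | one => exact ⟨1, map_one ψ⟩
    | mul x y _ _ h1 h2 =>
      obtain ⟨a, rfl⟩ := h1
      obtain ⟨b, rfl⟩ := h2
      exact ⟨a * b, map_mul ψ a b⟩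
    | inv x _ h1 => obtain ⟨a, rfl⟩ := h1; exact ⟨a⁻¹, map_inv ψ a⟩
  · change y ∈ P3 elt at hp
    induction hp using closure_induction with
    | mem x hx => obtain ⟨a, ha, hn, rfl⟩ := hx; rw [hψ a ha]; exact g_mem_P3 _ ha hn
    | one => exact (map_one ψ).symm ▸ one_mem _
    | mul x y hx hy' h1 h2 =>
      exact (map_mul ψ ⟨x, P3_le_HH _ hx⟩ ⟨y, P3_le_HH _ hy'⟩).symm ▸ mul_mem (h1 _) (h2 _)
    | inv x hx h1 => exact (map_inv ψ ⟨x, P3_le_HH _ hx⟩).symm ▸ inv_mem (h1 _)

theorem Sys.iso (h : Sys g) (hn : ND g) (ht : HH g = ⊤) :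
    Nonempty (H ≃* Omega (ZMod 2) (quadFormPlus 4 (ZMod 2))) := by
  obtain ⟨ψ, h1, -, h2, -⟩ := h.transfer hn
  exact ⟨(MulEquiv.ofBijective ψ ⟨h1, fun x => (h2 x).mp (ht ▸ mem_top x)⟩).symm.trans
    (MulEquiv.subgroupCongr HH_eq)⟩

theorem Sys.c4 (h : Sys g) (hn : ND g) {k : H} (hk : k ∈ HH g)
    (hc : k * (g 11 * g 2) = g 11 * g 2 * k) : k ∈ P3 g := by
  obtain ⟨ψ, h1, h2, h3, h4⟩ := h.transfer hn
  obtain ⟨y, rfl⟩ := (h3 k).mp hk
  rw [← h2 11 (by norm_num), ← h2 2 (by norm_num), ← map_mul, ← map_mul, ← map_mul] at hc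
  exact h4 y (c4M y.2 (congrArg Subtype.val (h1 hc)))

theorem Sys.five (h : Sys g) (hn : ND g) : (∃ y ∈ HH g, y ≠ 1 ∧ y ^ 5 = 1) ∧
    ∀ y ∈ HH g, y ≠ 1 → y ^ 5 = 1 →
      ∃ u ∈ HH g, ∃ i < 3, y * (u * (g 11 * g i) * u⁻¹) = u * (g 11 * g i) * u⁻¹ * y := by
  obtain ⟨ψ, h1, h2, h3, -⟩ := h.transfer hn
  constructor
  · obtain ⟨y, hy, hy1, hy5⟩ := fiveM.1
    refine ⟨ψ ⟨y, hy⟩, (h3 _).mpr ⟨_, rfl⟩, fun e => hy1 (congrArg Subtype.val
      (h1 (e.trans (map_one ψ).symm))), ?_⟩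
    rw [← map_pow, ← map_one ψ]
    exact congrArg ψ (Subtype.ext hy5)
  · intro y hy hy1 hy5
    obtain ⟨y, rfl⟩ := (h3 y).mp hy
    obtain ⟨u, hu, i, hi, e⟩ := fiveM.2 y y.2 (fun e => hy1 (by rw [show y = 1 from Subtype.ext e, map_one]))
      (congrArg Subtype.val (h1 (a₁ := y ^ 5) (a₂ := 1) (by rw [map_pow, hy5, map_one])))
    refine ⟨ψ ⟨u, hu⟩, (h3 _).mpr ⟨_, rfl⟩, i, hi, ?_⟩
    rw [← h2 11 (by norm_num), ← h2 i (by omega)]
    simp only [← map_mul, ← map_inv]
    exact congrArg ψ (Subtype.ext e)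

theorem Sys.c2 (h : Sys g) {x : H} (hx : x ∈ HH g) : (g 11 * (x * g 11 * x⁻¹)) ^ 12 = 1 := by
  obtain ⟨b, hb, w, hw, p, hp, rfl⟩ := h.bruA hx
  have h1 := weq_spec (List.all_eq_true.mp chk_c2 w hw)
  have h2 : ∀ a ∈ (List.replicate 12 (11 :: (w ++ 11 :: w.reverse))).flatten, a < 16 :=
    (by decide +kernel : ∀ w ∈ repsA,
      ∀ a ∈ (List.replicate 12 (11 :: (w ++ 11 :: w.reverse))).flatten, a < 16) w hw
  have h3 := (h.prod sysM).eq_one (MonoidHom.snd H OO) ndM
    (ev_mem (w := (List.replicate 12 (11 :: (w ++ 11 :: w.reverse))).flatten)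
      fun a ha => g_mem_HH _ (h2 a ha)) (by rw [map_ev]; exact h1)
  have h4 := congrArg (MonoidHom.fst H OO) h3
  rw [map_ev, map_one, ev_replicate] at h4
  change ev g _ ^ 12 = 1 at h4
  rw [ev_cons, ev_append, ev_cons, h.ev_rev] at h4
  have h5 : g 11 * (b * ev g w * p * g 11 * (b * ev g w * p)⁻¹) =
      b * (g 11 * (ev g w * (g 11 * (ev g w)⁻¹))) * b⁻¹ := by
    rw [mul_assoc _ p, h.PP_comm hp, ← mul_assoc b (g 11), h.comm_t hb]
    group
  rw [h5, conj_pow, h4]
  group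

end Cfsg.Agent.H6.O8
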